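import Mathlib
import Cfsg.Agent.Lib.Helper16.ZTypes

/-!
# A quaternion frame generates groups of order 8 and 24
(helper76, lemma D-24 of helper16's Zassenhaus project)
-/

set_option autoImplicit false

namespace Cfsg.Agent.Lib.Helper76.FC

open Cfsg.Agent.Lib.Helper16.Zas

section aux

variable {G : Type*} [Group G]

theorem conj_mem_zpowers {g x : G} (h : g * x * g⁻¹ ∈ Subgroup.zpowers x) {y : G}
    (hy : y ∈ Subgroup.zpowers x) : g * y * g⁻¹ ∈ Subgroup.zpowers x := by
  obtain ⟨k, rfl⟩ := Subgroup.mem_zpowers_iff.mp hy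
  rw [← conj_zpow]
  exact Subgroup.zpow_mem _ h k

theorem conj_mem_closure {S : Set G} {g : G}
    (h : ∀ s ∈ S, g * s * g⁻¹ ∈ Subgroup.closure S)
    {y : G} (hy : y ∈ Subgroup.closure S) : g * y * g⁻¹ ∈ Subgroup.closure S := by
  induction hy using Subgroup.closure_induction with
  | mem s hs => exact h s hs
  | one => simp
  | mul u v _ _ hu hv =>
    have : g * (u * v) * g⁻¹ = (g * u * g⁻¹) * (g * v * g⁻¹) := by group
    rw [this]; exact Subgroup.mul_mem _ hu hv
  | inv u _ hu =>
    have : g * u⁻¹ * g⁻¹ = (g * u * g⁻¹)⁻¹ := by group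
    rw [this]; exact Subgroup.inv_mem _ hu

theorem card_mul_relIndex' {H K : Subgroup G} (h : H ≤ K) :
    Nat.card H * H.relIndex K = Nat.card K := by
  have := Subgroup.relIndex_mul_relIndex (H := (⊥ : Subgroup G)) (K := H) (L := K) bot_le h
  rwa [Subgroup.relIndex_bot_left, Subgroup.relIndex_bot_left] at this

theorem relIndex_sup_of_le_normalizer' {H K : Subgroup G}
    (hLE : H ≤ Subgroup.normalizer (K : Set G)) : K.relIndex (H ⊔ K) = K.relIndex H := by
  have := Subgroup.normal_subgroupOf_of_le_normalizer hLE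
  have := Subgroup.normal_subgroupOf_sup_of_le_normalizer hLE
  exact Nat.card_congr
    (QuotientGroup.quotientInfEquivProdNormalizerQuotient H K hLE).toEquiv.symm

end aux

theorem frame_card {G : Type*} [Group G] {z a x j : G} (hz : z ≠ 1) (hzz : z * z = 1)
    (hzc : ∀ g : G, z * g = g * z) (ha : a ≠ 1) (ha3 : a ^ 3 = 1) (f : Frame z a x j) :
    Nat.card (Subgroup.closure ({x, j} : Set G)) = 8 ∧
      Nat.card (Subgroup.closure ({x, j, a} : Set G)) = 24 := by
  have hx2 : x ^ 2 = z := by rw [pow_two, f.xx]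
  have hox : orderOf x = 4 := by
    have h1 : ¬ x ^ 2 ^ 1 = 1 := by rw [pow_one, hx2]; exact hz
    have h2 : x ^ 2 ^ (1 + 1) = 1 := by
      have : x ^ 2 ^ (1 + 1) = (x ^ 2) * (x ^ 2) := by
        rw [← pow_add]; norm_num
      rw [this, hx2, hzz]
    exact orderOf_eq_prime_pow h1 h2
  set X : Subgroup G := Subgroup.zpowers x with hX
  have hXcard : Nat.card X = 4 := by rw [Nat.card_zpowers, hox]
  have hxX : x ∈ X := Subgroup.mem_zpowers x
  have hzX : z ∈ X := by rw [← f.xx]; exact Subgroup.mul_mem _ hxX hxX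
  have hjX : j ∉ X := by
    intro hj
    obtain ⟨k, hk⟩ := Subgroup.mem_zpowers_iff.mp hj
    have hcomm : j * x = x * j := by
      rw [← hk, ← zpow_add_one, ← zpow_one_add, add_comm]
    have h3 := f.jx
    rw [hcomm] at h3
    apply hz
    have h4 : z * (x * j) = 1 * (x * j) := by rw [one_mul]; exact h3.symm
    exact mul_right_cancel h4
  have hc1 : j * x * j⁻¹ = z * x := by
    rw [f.jx]; group
  have hc2 : j⁻¹ * x * j⁻¹⁻¹ = z * x := by
    rw [inv_inv]
    have h4 : x * j = j * (z * x) := by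
      rw [← mul_assoc, ← hzc j, mul_assoc, f.jx, ← mul_assoc, hzz, one_mul]
    rw [mul_assoc, h4, ← mul_assoc, inv_mul_cancel, one_mul]
  have hzxX : z * x ∈ X := Subgroup.mul_mem _ hzX hxX
  have hn1 : ∀ y ∈ X, j * y * j⁻¹ ∈ X := fun y hy =>
    conj_mem_zpowers (by rw [hc1]; exact hzxX) hy
  have hn2 : ∀ y ∈ X, j⁻¹ * y * j ∈ X := fun y hy => by
    have := conj_mem_zpowers (g := j⁻¹) (by rw [hc2]; exact hzxX) hy
    rwa [inv_inv] at this
  have hjj : j * j ∈ X := by rw [f.jj]; exact hzX
  set Q : Subgroup G := Subgroup.closure ({x, j} : Set G) with hQ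
  have hxQ : x ∈ Q := Subgroup.subset_closure (by simp)
  have hjQ : j ∈ Q := Subgroup.subset_closure (by simp)
  have hXQ : X ≤ Q := Subgroup.zpowers_le.mpr hxQ
  have hP : ∀ b ∈ Q, b ∈ X ∨ b * j ∈ X := by
    intro b hb
    induction hb using Subgroup.closure_induction with
    | mem s hs =>
      rcases hs with rfl | rfl
      · left; exact hxX
      · right; exact hjj
    | one => left; exact Subgroup.one_mem _
    | mul u v _ _ hu hv =>
      rcases hu with hu | hu <;> rcases hv with hv | hv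
      · left; exact Subgroup.mul_mem _ hu hv
      · right; rw [mul_assoc]; exact Subgroup.mul_mem _ hu hv
      · right
        have : u * v * j = (u * j) * (j⁻¹ * v * j) := by group
        rw [this]; exact Subgroup.mul_mem _ hu (hn2 v hv)
      · left
        have : u * v = (u * j) * (j⁻¹ * (v * j) * j) * (j * j)⁻¹ := by group
        rw [this]
        exact Subgroup.mul_mem _ (Subgroup.mul_mem _ hu (hn2 _ hv)) (Subgroup.inv_mem _ hjj)
    | inv u _ hu =>
      rcases hu with hu | hu
      · left; exact Subgroup.inv_mem _ hu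
      · right
        have : u⁻¹ * j = (j * (u * j)⁻¹ * j⁻¹) * (j * j) := by group
        rw [this]
        exact Subgroup.mul_mem _ (hn1 _ (Subgroup.inv_mem _ hu)) hjj
  have hrel : X.relIndex Q = 2 := by
    rw [Subgroup.relIndex_eq_two_iff]
    refine ⟨j, hjQ, fun b hb => ?_⟩
    by_cases hbX : b ∈ X
    · right
      refine ⟨hbX, fun h => hjX ?_⟩
      have : j = b⁻¹ * (b * j) := by group
      rw [this]; exact Subgroup.mul_mem _ (Subgroup.inv_mem _ hbX) h
    · left
      exact ⟨(hP b hb).resolve_left hbX, hbX⟩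
  have hQcard : Nat.card Q = 8 := by
    rw [← card_mul_relIndex' hXQ, hXcard, hrel]
  refine ⟨hQcard, ?_⟩
  have hoa : orderOf a = 3 := by
    have : Fact (Nat.Prime 3) := ⟨by norm_num⟩
    exact orderOf_eq_prime ha3 ha
  set A : Subgroup G := Subgroup.zpowers a with hA
  have hAcard : Nat.card A = 3 := by rw [Nat.card_zpowers, hoa]
  have haj : a⁻¹ * j * a = x := by rw [← f.ax]; group
  have hax : a⁻¹ * x * a = j * x⁻¹ := by
    have h1 : a⁻¹ * (x * j) * a = j := by rw [← f.aj]; group
    have h2 : a⁻¹ * (x * j) * a = (a⁻¹ * x * a) * (a⁻¹ * j * a) := by group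
    rw [h2, haj] at h1
    rw [← h1]; group
  have hnorm : a ∈ Subgroup.normalizer (Q : Set G) := by
    rw [Subgroup.mem_normalizer_iff]
    intro h
    constructor
    · intro hh
      refine conj_mem_closure ?_ hh
      intro s hs
      rcases hs with rfl | rfl
      · rw [f.ax]; exact hjQ
      · rw [f.aj]; exact Subgroup.mul_mem _ hxQ hjQ
    · intro hh
      have h5 : h = a⁻¹ * (a * h * a⁻¹) * a⁻¹⁻¹ := by group
      rw [h5]
      refine conj_mem_closure ?_ hh
      intro s hs
      rw [inv_inv]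
      rcases hs with rfl | rfl
      · rw [hax]; exact Subgroup.mul_mem _ hjQ (Subgroup.inv_mem _ hxQ)
      · rw [haj]; exact hxQ
  have hAN : A ≤ Subgroup.normalizer (Q : Set G) := Subgroup.zpowers_le.mpr hnorm
  have hinf : Q ⊓ A = ⊥ :=
    disjoint_iff.mp (Subgroup.disjoint_of_coprime_natCard (by rw [hQcard, hAcard]; norm_num))
  have hrelA : Q.relIndex (A ⊔ Q) = 3 := by
    rw [relIndex_sup_of_le_normalizer' hAN, ← Subgroup.inf_relIndex_right, hinf,
      Subgroup.relIndex_bot_left, hAcard]
  have hL : Subgroup.closure ({x, j, a} : Set G) = A ⊔ Q := by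
    apply le_antisymm
    · rw [Subgroup.closure_le]
      intro s hs
      rcases hs with rfl | rfl | rfl
      · exact (le_sup_right : Q ≤ A ⊔ Q) hxQ
      · exact (le_sup_right : Q ≤ A ⊔ Q) hjQ
      · exact (le_sup_left : A ≤ A ⊔ Q) (Subgroup.mem_zpowers s)
    · apply sup_le
      · exact Subgroup.zpowers_le.mpr (Subgroup.subset_closure (by simp))
      · exact Subgroup.closure_mono (by intro s hs; rcases hs with rfl | rfl <;> simp)
  rw [hL, ← card_mul_relIndex' (le_sup_right : Q ≤ A ⊔ Q), hQcard, hrelA]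

end Cfsg.Agent.Lib.Helper76.FC
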