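import Mathlib
import Cfsg.Agent.Lib.Helper16.ZTypes

/-!
# Counting the elements with `dcz` of order four through the Sylow 2-subgroups
(helper76, lemma D-SYL of helper16's Zassenhaus project)
-/

set_option autoImplicit false

namespace Cfsg.Agent.Lib.Helper76.SY

open Cfsg.Agent.Lib.Helper16.Zas
open Cfsg.Agent.Lib.Helper15

theorem card_sylow {H : Type*} [Group H] [Finite H] {z : H} (ti : TI H) (hyp : Pl H z) :
    {y : H | y * y ≠ 1 ∧ Nat.card (dcz y) = 4}.ncard = 6 * Nat.card (Sylow 2 H) := by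
  classical
  have : Fintype (Sylow 2 H) := Fintype.ofFinite _
  have hfib : ∀ P : Sylow 2 H, Nat.card {y : H // y ∈ P ∧ y ≠ 1 ∧ y ≠ z} = 6 := by
    intro P
    have h1 : {y : H | y ∈ P ∧ y ≠ 1 ∧ y ≠ z} = ((P : Subgroup H) : Set H) \ {1, z} := by
      ext y
      simp only [Set.mem_ofPred_eq, Set.mem_sdiff, SetLike.mem_coe, Set.mem_insert_iff,
        Set.mem_singleton_iff, not_or]
      rfl
    have h2 : (((P : Subgroup H) : Set H) \ {1, z}).ncard = 6 := by
      have hsub : ({1, z} : Set H) ⊆ ((P : Subgroup H) : Set H) := by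
        intro y hy
        rcases hy with rfl | rfl
        · exact Subgroup.one_mem _
        · exact ti.z_mem hyp P
      have h8 : (((P : Subgroup H) : Set H)).ncard = 8 := by
        rw [← Nat.card_coe_set_eq]; exact ti.syl P
      rw [Set.ncard_sdiff hsub, Set.ncard_pair hyp.z_ne.symm, h8]
    rw [← h2, ← h1, ← Nat.card_coe_set_eq]
    rfl
  let f : (Σ P : Sylow 2 H, {y : H // y ∈ P ∧ y ≠ 1 ∧ y ≠ z}) →
      {y : H | y * y ≠ 1 ∧ Nat.card (dcz y) = 4} :=
    fun p => ⟨p.2.1, by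
      obtain ⟨hxx, h4⟩ := ti.sq_of_mem hyp p.1 p.2.2.1 p.2.2.2.1 p.2.2.2.2
      exact ⟨by rw [hxx]; exact hyp.z_ne, h4⟩⟩
  have hinj : Function.Injective f := by
    rintro ⟨P, y, hy, hy1, hyz⟩ ⟨P', y', hy', hy1', hyz'⟩ h
    have hyy : y = y' := congrArg Subtype.val h
    subst hyy
    have hxx := (ti.sq_of_mem hyp P hy hy1 hyz).1
    have e1 := ti.sylow_eq_norm hyp P hy hxx
    have e2 := ti.sylow_eq_norm hyp P' hy' hxx
    have hPP : P = P' := Sylow.ext (e1.trans e2.symm)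
    subst hPP
    rfl
  have hsurj : Function.Surjective f := by
    rintro ⟨y, hyy, h4⟩
    have h8 := ti.nm y hyy h4
    have hp : IsPGroup 2 (Subgroup.normalizer ((dcz y : Subgroup H) : Set H)) :=
      IsPGroup.of_card (n := 3) (by rw [h8]; norm_num)
    obtain ⟨P, hP⟩ := hp.exists_le_sylow
    have hyN : y ∈ Subgroup.normalizer ((dcz y : Subgroup H) : Set H) :=
      Subgroup.le_normalizer (self_mem_dcz y)
    refine ⟨⟨P, ⟨y, hP hyN, ?_, ?_⟩⟩, rfl⟩
    · rintro rfl; exact hyy (by simp)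
    · rintro rfl; exact hyy hyp.z_sq
  rw [← Nat.card_coe_set_eq, ← Nat.card_congr (Equiv.ofBijective f ⟨hinj, hsurj⟩),
    Nat.card_sigma]
  simp [hfib, mul_comm]

end Cfsg.Agent.Lib.Helper76.SY
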