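import Mathlib

/-!
# An element of order dividing three normalizes one or two Sylow 2-subgroups
(helper76, lemma D-FIX of helper16's Zassenhaus project)
-/

set_option autoImplicit false

namespace Cfsg.Agent.Lib.Helper76.FS

theorem isPGroup_zpowers_three {H : Type*} [Group H] (a : H) (ha3 : a ^ 3 = 1) :
    IsPGroup 3 (Subgroup.zpowers a) := by
  rintro ⟨x, hx⟩
  obtain ⟨j, rfl⟩ := Subgroup.mem_zpowers_iff.mp hx
  refine ⟨1, Subtype.ext ?_⟩
  show (a ^ j) ^ 3 ^ 1 = 1
  rw [pow_one, ← zpow_natCast, ← zpow_mul, mul_comm, zpow_mul, zpow_natCast, ha3, one_zpow]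

theorem fixed_sylow {H : Type*} [Group H] [Finite H] (a : H) (ha3 : a ^ 3 = 1) :
    (Nat.card (Sylow 2 H) % 3 = 1 →
      ∃ P : Sylow 2 H, a ∈ Subgroup.normalizer ((P : Subgroup H) : Set H)) ∧
    (Nat.card (Sylow 2 H) % 3 = 2 →
      ∃ P P' : Sylow 2 H, P ≠ P' ∧ a ∈ Subgroup.normalizer ((P : Subgroup H) : Set H) ∧
        a ∈ Subgroup.normalizer ((P' : Subgroup H) : Set H)) := by
  have : Fact (Nat.Prime 3) := ⟨by norm_num⟩
  have hA : IsPGroup 3 (Subgroup.zpowers a) := isPGroup_zpowers_three a ha3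
  have hmod := hA.card_modEq_card_fixedPoints (Sylow 2 H)
  have hfix : ∀ P : Sylow 2 H, P ∈ MulAction.fixedPoints (Subgroup.zpowers a) (Sylow 2 H) →
      a ∈ Subgroup.normalizer ((P : Subgroup H) : Set H) := by
    intro P hP
    have h1 := hP ⟨a, Subgroup.mem_zpowers a⟩
    exact Sylow.smul_eq_iff_mem_normalizer.mp h1
  constructor
  · intro h1
    have h2 : Nat.card (MulAction.fixedPoints (Subgroup.zpowers a) (Sylow 2 H)) % 3 = 1 :=
      (show _ % 3 = _ % 3 from hmod.symm).trans h1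
    have h3 : Nat.card (MulAction.fixedPoints (Subgroup.zpowers a) (Sylow 2 H)) ≠ 0 := by
      intro h0; rw [h0] at h2; norm_num at h2
    have hne : Nonempty (MulAction.fixedPoints (Subgroup.zpowers a) (Sylow 2 H)) := by
      by_contra hemp
      rw [not_nonempty_iff] at hemp
      exact h3 Nat.card_of_isEmpty
    obtain ⟨⟨P, hP⟩⟩ := hne
    exact ⟨P, hfix P hP⟩
  · intro h1
    have h2 : Nat.card (MulAction.fixedPoints (Subgroup.zpowers a) (Sylow 2 H)) % 3 = 2 :=
      (show _ % 3 = _ % 3 from hmod.symm).trans h1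
    have h3 : 1 < Nat.card (MulAction.fixedPoints (Subgroup.zpowers a) (Sylow 2 H)) := by
      by_contra hle
      push Not at hle
      interval_cases h : Nat.card (MulAction.fixedPoints (Subgroup.zpowers a) (Sylow 2 H)) <;>
        omega
    have hnt := Finite.one_lt_card_iff_nontrivial.mp h3
    obtain ⟨⟨P, hP⟩, ⟨P', hP'⟩, hne⟩ := exists_pair_ne
      (MulAction.fixedPoints (Subgroup.zpowers a) (Sylow 2 H))
    refine ⟨P, P', fun h => hne (Subtype.ext h), hfix P hP, hfix P' hP'⟩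

end Cfsg.Agent.Lib.Helper76.FS
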