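import Mathlib
import Cfsg.Agent.Lib.Helper16.ZTypes
import Cfsg.Agent.Lib.Helper76.FrameCard
import Cfsg.Agent.Lib.Helper76.FixedSylow
import Cfsg.Agent.Lib.Helper76.CardSylow

/-!
# Frames in the types `T` and `I`
(helper76, lemma D-U2 of helper16's Zassenhaus project)
-/

set_option autoImplicit false

namespace Cfsg.Agent.Lib.Helper76.FTI

open Cfsg.Agent.Lib.Helper16.Zas
open Cfsg.Agent.Lib.Helper15

theorem frame_T {H : Type*} [Group H] [Finite H] {z : H} (ti : TI H) (hyp : Pl H z) {a : H}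
    (ha1 : a ≠ 1) (ha3 : a ^ 3 = 1)
    (hc : {y : H | y * y ≠ 1 ∧ Nat.card (dcz y) = 4}.ncard = 6) :
    ∃ x j : H, Frame z a x j ∧ ∀ w : H, w * w = z → w ∈ Subgroup.closure ({x, j} : Set H) := by
  have hs := SY.card_sylow ti hyp
  rw [hc] at hs
  have hs1 : Nat.card (Sylow 2 H) = 1 := by omega
  obtain ⟨P, haP⟩ := (FS.fixed_sylow a ha3).1 (by rw [hs1])
  obtain ⟨x, j, hx, hj, f⟩ := ti.frame hyp P haP ha1 ha3
  have hle : Subgroup.closure ({x, j} : Set H) ≤ (P : Subgroup H) := by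
    rw [Subgroup.closure_le]
    intro s hs
    rcases hs with rfl | rfl
    · exact hx
    · exact hj
  have h8 := (FC.frame_card hyp.z_ne hyp.z_sq hyp.z_comm ha1 ha3 f).1
  have heq : Subgroup.closure ({x, j} : Set H) = (P : Subgroup H) :=
    Subgroup.eq_of_le_of_card_ge hle (by rw [h8, ti.syl P])
  refine ⟨x, j, f, fun w hw => ?_⟩
  have hw4 : w ^ 4 = 1 := by
    rw [pow4_eq, hw, hyp.z_sq]
  have hp : IsPGroup 2 (Subgroup.zpowers w) := by
    rintro ⟨u, hu⟩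
    obtain ⟨k, rfl⟩ := Subgroup.mem_zpowers_iff.mp hu
    refine ⟨2, Subtype.ext ?_⟩
    show (w ^ k) ^ 2 ^ 2 = 1
    rw [← zpow_natCast, ← zpow_mul, mul_comm, zpow_mul, zpow_natCast]
    norm_num
    rw [hw4, one_zpow]
  obtain ⟨P', hP'⟩ := hp.exists_le_sylow
  have hsub : Subsingleton (Sylow 2 H) := (Nat.card_eq_one_iff_unique.mp hs1).1
  have hPP : P' = P := Subsingleton.elim _ _
  rw [heq, ← hPP]
  exact hP' (Subgroup.mem_zpowers w)

theorem frame_I {H : Type*} [Group H] [Finite H] {z : H} (ti : TI H) (hyp : Pl H z) {a : H}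
    (ha1 : a ≠ 1) (ha3 : a ^ 3 = 1)
    (hc : {y : H | y * y ≠ 1 ∧ Nat.card (dcz y) = 4}.ncard = 30) :
    ∃ x j x' j' : H, Frame z a x j ∧ Frame z a x' j' ∧
      x' ∉ Subgroup.closure ({x, j} : Set H) := by
  have hs := SY.card_sylow ti hyp
  rw [hc] at hs
  have hs5 : Nat.card (Sylow 2 H) = 5 := by omega
  obtain ⟨P, P', hne, haP, haP'⟩ := (FS.fixed_sylow a ha3).2 (by rw [hs5])
  obtain ⟨x, j, hx, hj, f⟩ := ti.frame hyp P haP ha1 ha3
  obtain ⟨x', j', hx', hj', f'⟩ := ti.frame hyp P' haP' ha1 ha3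
  have hle : Subgroup.closure ({x, j} : Set H) ≤ (P : Subgroup H) := by
    rw [Subgroup.closure_le]
    intro s hs
    rcases hs with rfl | rfl
    · exact hx
    · exact hj
  refine ⟨x, j, x', j', f, f', fun hmem => hne ?_⟩
  have hxP : x' ∈ P := hle hmem
  have e1 := ti.sylow_eq_norm hyp P hxP f'.xx
  have e2 := ti.sylow_eq_norm hyp P' hx' f'.xx
  exact Sylow.ext (e1.trans e2.symm)

end Cfsg.Agent.Lib.Helper76.FTI
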