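import Mathlib
import Cfsg.Agent.Lib.Helper16.ZClassify

/-!
# Elements of order three commute when some `dcz y` has index at most two
(helper76, lemma D-TC of helper16's Zassenhaus project)
-/

set_option autoImplicit false

namespace Cfsg.Agent.Lib.Helper76.TC

open Cfsg.Agent.Lib.Helper16.Zas
open Cfsg.Agent.Lib.Helper15

theorem mem_of_index_le_two {H : Type*} [Group H] [Finite H] (D : Subgroup H)
    (hc : Nat.card H ≤ 2 * Nat.card D) {s : H} (hs : s ^ 3 = 1) : s ∈ D := by
  have h1 := Subgroup.card_mul_index D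
  have hpos : 0 < Nat.card D := Nat.card_pos
  have hidx : D.index ≤ 2 := by
    by_contra hgt
    push Not at hgt
    have : 2 * Nat.card D < Nat.card D * D.index := by nlinarith
    omega
  have hidx0 : D.index ≠ 0 := Subgroup.index_ne_zero_of_finite
  have hs4 : s = (s * s) * (s * s) := by
    have : (s * s) * (s * s) = s ^ 3 * s := by simp [pow_succ, mul_assoc]
    rw [this, hs, one_mul]
  rcases Nat.lt_or_ge D.index 2 with h | h
  · have h1' : D.index = 1 := by omega
    rw [Subgroup.index_eq_one] at h1'
    rw [h1']; exact Subgroup.mem_top _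
  · have h2 : D.index = 2 := le_antisymm hidx h
    rw [hs4]
    exact Subgroup.mul_mem _ (Subgroup.mul_self_mem_of_index_two h2 s)
      (Subgroup.mul_self_mem_of_index_two h2 s)

theorem typeC_comm {H : Type*} [Group H] [Finite H] {z : H} (hyp : Pl H z) {y : H}
    (hy : y * y ≠ 1) (hc : Nat.card H ≤ 2 * Nat.card (dcz y)) {s t : H} (hs : s ^ 3 = 1)
    (ht : t ^ 3 = 1) : s * t = t * s := by
  have h1 : s ∈ dcz y := mem_of_index_le_two (dcz y) hc hs
  have h2 : t ∈ dcz y := mem_of_index_le_two (dcz y) hc ht
  rw [mem_dcz] at h1 h2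
  exact hyp.cent_comm y s t hy h1 h2

end Cfsg.Agent.Lib.Helper76.TC
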