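import Mathlib
import Cfsg.Agent.Lib.Helper18.SLMDefs

/-! S2332 piece SLM-TVBASIC (project SLM of helper18; job 4190, proved by helper76):
basic facts on transvections `x1 u`, `lev g` and conjugates. -/

set_option autoImplicit false
set_option linter.unusedSectionVars false

namespace Cfsg.Agent.Lib.Helper18.SLM

open Matrix

universe u

variable {F : Type u} [Field F] [Fintype F]

-- piece TVBASIC
theorem isTv_x1 {k : ℕ} (u : Fin k → F) :
    IsTv (x1 u : Matrix.SpecialLinearGroup (Fin (k + 1)) F) := by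
  refine ⟨Pi.single 0 1, Fin.cons 0 u, ?_, x1_val u⟩
  rw [dotProduct_single]
  simp

theorem x1_ne_one {k : ℕ} (u : Fin k → F) (hu : u ≠ 0) :
    (x1 u : Matrix.SpecialLinearGroup (Fin (k + 1)) F) ≠ 1 := by
  intro h
  apply hu
  funext j
  have h1 := congrArg
    (fun g : Matrix.SpecialLinearGroup (Fin (k + 1)) F =>
      (g : Matrix (Fin (k + 1)) (Fin (k + 1)) F) 0 j.succ) h
  simp only [x1_val] at h1
  simpa [vecMulVec_apply, Matrix.one_apply, Fin.succ_ne_zero, Ne.symm (Fin.succ_ne_zero _)] using h1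

theorem isTv_lev {k : ℕ} (g : Matrix.SpecialLinearGroup (Fin k) F) (hg : IsTv g) :
    IsTv (lev g) := by
  obtain ⟨a, φ, h0, hg⟩ := hg
  refine ⟨Fin.cons 0 a, Fin.cons 0 φ, ?_, ?_⟩
  · rw [dotProduct, Fin.sum_univ_succ]
    simp only [Fin.cons_zero, Fin.cons_succ, mul_zero, zero_add]
    exact h0
  · rw [lev_val, hg]
    ext i j
    refine Fin.cases ?_ (fun i' => ?_) i <;> refine Fin.cases ?_ (fun j' => ?_) j <;>
      simp [vecMulVec_apply, Matrix.one_apply, Fin.succ_ne_zero, Ne.symm (Fin.succ_ne_zero _)]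

theorem lev_ne_one {k : ℕ} (g : Matrix.SpecialLinearGroup (Fin k) F) (hg : g ≠ 1) :
    lev g ≠ 1 := by
  intro h
  apply hg
  apply Subtype.ext
  ext i j
  have h1 := congrArg
    (fun x : Matrix.SpecialLinearGroup (Fin (k + 1)) F =>
      (x : Matrix (Fin (k + 1)) (Fin (k + 1)) F) i.succ j.succ) h
  simp only [lev_val, blk_succ_succ] at h1
  simpa [Matrix.one_apply] using h1

omit [Fintype F] in
theorem tvbasic_inv_mul {k : ℕ} (h : Matrix.SpecialLinearGroup (Fin k) F) :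
    ((h⁻¹ : Matrix.SpecialLinearGroup (Fin k) F) : Matrix (Fin k) (Fin k) F) *
      (h : Matrix (Fin k) (Fin k) F) = 1 := by
  rw [← Matrix.SpecialLinearGroup.coe_mul, inv_mul_cancel, Matrix.SpecialLinearGroup.coe_one]

omit [Fintype F] in
theorem tvbasic_mul_inv {k : ℕ} (h : Matrix.SpecialLinearGroup (Fin k) F) :
    (h : Matrix (Fin k) (Fin k) F) *
      ((h⁻¹ : Matrix.SpecialLinearGroup (Fin k) F) : Matrix (Fin k) (Fin k) F) = 1 := by
  rw [← Matrix.SpecialLinearGroup.coe_mul, mul_inv_cancel, Matrix.SpecialLinearGroup.coe_one]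

theorem isTv_conj {k : ℕ} (g h : Matrix.SpecialLinearGroup (Fin k) F) (hg : IsTv g) :
    IsTv (h * g * h⁻¹) := by
  obtain ⟨a, φ, h0, hg⟩ := hg
  refine ⟨(h : Matrix (Fin k) (Fin k) F) *ᵥ a,
    φ ᵥ* ((h⁻¹ : Matrix.SpecialLinearGroup (Fin k) F) : Matrix (Fin k) (Fin k) F), ?_, ?_⟩
  · rw [Matrix.dotProduct_mulVec, Matrix.vecMul_vecMul, tvbasic_inv_mul, Matrix.vecMul_one]
    exact h0
  · rw [Matrix.SpecialLinearGroup.coe_mul, Matrix.SpecialLinearGroup.coe_mul, hg, mul_add, add_mul,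
      mul_one, tvbasic_mul_inv, Matrix.mul_vecMulVec, Matrix.vecMulVec_mul]

end Cfsg.Agent.Lib.Helper18.SLM
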