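import Mathlib
import Cfsg.Agent.Lib.Helper18.LSDefs
import Cfsg.Agent.Lib.Helper18.WRDefs

/-! Project WR (helper18, S2347), piece ONEDIM: a perfect group acts trivially on an invariant
line. -/

set_option autoImplicit false

namespace Cfsg.Agent.Lib.Helper18.WR

open Matrix

universe u

variable {F : Type u} [Field F] {n : ℕ}

-- piece ONEDIM
theorem one_dim_trivial {G : Type*} [Group G] {E : Type*} [AddCommGroup E] [Module ℂ E]
    (ω : Representation ℂ G E) (C : Submodule ℂ E) (hC : ∀ g, ∀ f ∈ C, ω g f ∈ C)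
    (h1 : Module.finrank ℂ C = 1) (hperf : commutator G = ⊤) : ∀ g, ∀ f ∈ C, ω g f = f := by
  obtain ⟨⟨e, heC⟩, he0, hspan⟩ := finrank_eq_one_iff'.mp h1
  have he0' : e ≠ 0 := fun h => he0 (Subtype.ext h)
  have hsp : ∀ f ∈ C, ∃ c : ℂ, c • e = f := by
    intro f hf
    obtain ⟨c, hc⟩ := hspan ⟨f, hf⟩
    exact ⟨c, congrArg Subtype.val hc⟩
  have hχ : ∀ g : G, ∃ c : ℂ, c • e = ω g e := fun g => hsp _ (hC g e heC)
  choose χ hχ using hχ
  have hinj : Function.Injective (fun c : ℂ => c • e) := smul_left_injective ℂ he0'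
  have hmul : ∀ g h, χ (g * h) = χ g * χ h := by
    intro g h
    apply hinj
    show χ (g * h) • e = (χ g * χ h) • e
    rw [hχ, map_mul, Module.End.mul_apply, ← hχ h, map_smul, ← hχ g, smul_smul, mul_comm]
  have hone : χ 1 = 1 := by
    apply hinj
    show χ 1 • e = (1 : ℂ) • e
    rw [hχ, map_one, Module.End.one_apply, one_smul]
  let χh : G →* ℂ := ⟨⟨χ, hone⟩, hmul⟩
  have hker : commutator G ≤ χh.ker := by
    rw [commutator_def, Subgroup.commutator_le]
    intro g _ h _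
    rw [MonoidHom.mem_ker, commutatorElement_def]
    show χ (g * h * g⁻¹ * h⁻¹) = 1
    rw [hmul, hmul, hmul]
    have e1 : χ g * χ g⁻¹ = 1 := by rw [← hmul, mul_inv_cancel, hone]
    have e2 : χ h * χ h⁻¹ = 1 := by rw [← hmul, mul_inv_cancel, hone]
    calc χ g * χ h * χ g⁻¹ * χ h⁻¹ = (χ g * χ g⁻¹) * (χ h * χ h⁻¹) := by ring
      _ = 1 := by rw [e1, e2, one_mul]
  intro g f hf
  have hg : χ g = 1 := by
    have hgk : g ∈ χh.ker := hker (by rw [hperf]; exact Subgroup.mem_top g)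
    exact hgk
  obtain ⟨c, rfl⟩ := hsp f hf
  rw [map_smul, ← hχ g, hg, one_smul]

end Cfsg.Agent.Lib.Helper18.WR
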