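import Mathlib
import Cfsg.Agent.Lib.Helper25.InvIdealDefs
import Cfsg.Agent.Lib.Helper39.InvCM

/-!
# Involution classes of `F₄` in characteristic two (S2174, architect helper25): piece FA

In characteristic two the Chevalley group stabilises the coordinate subspace of a list of codes
passing `idealChk`.
-/

set_option autoImplicit false

namespace Cfsg.Agent.Lib.Helper25

open Cfsg Cfsg.Lie Matrix

variable {F : Type*} [Field F]

theorem fa_clauses (D : ChevalleyDatum) (S : List ℕ) (h : idealChk D S = true) :
    (∀ r < D.nroots, ∀ i < D.rank, i ∈ S → D.rank + r ∉ S →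
      (D.cartanSR.getD i #[]).getD r 0 % 2 = 0) ∧
    (∀ r < D.nroots, ∀ s < D.nroots, s = D.negIdx.getD r 0 → s ≠ r → D.rank + s ∈ S →
      (D.rank + r ∈ S ∧ ∀ i < D.rank, i ∉ S → (D.coroot.getD r #[]).getD i 0 % 2 = 0)) ∧
    (∀ r < D.nroots, ∀ s < D.nroots, D.rank + s ∈ S → s ≠ r → s ≠ D.negIdx.getD r 0 →
      ∀ u < D.nroots, D.rank + u ∉ S → ∀ km ∈ D.chainCoeff r s u, km.2 % 2 = 0) := by
  simp only [idealChk, List.all_eq_true, List.mem_range, Bool.and_eq_true, Bool.or_eq_true,
    decide_eq_true_eq, Bool.not_eq_true', decide_eq_false_iff_not] at h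
  refine ⟨?_, ?_, ?_⟩
  · intro r hr i hi hiS hrS
    rcases (h r hr).1.1 i hi with (h1 | h1) | h1
    · exact absurd hiS h1
    · exact absurd h1 hrS
    · exact h1
  · intro r hr s hs hneg hsr hsS
    rcases (h r hr).1.2 s hs with h1 | h1
    · exfalso
      have e1 : decide (s = D.negIdx.getD r 0) = true := decide_eq_true hneg
      have e2 : decide (s ≠ r) = true := decide_eq_true hsr
      have e3 : decide (D.rank + s ∈ S) = true := decide_eq_true hsS
      rw [e1, e2, e3] at h1
      exact absurd h1 (by decide)
    · refine ⟨h1.1, ?_⟩
      intro i hi hiS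
      rcases h1.2 i hi with h2 | h2
      · exact absurd h2 hiS
      · exact h2
  · intro r hr s hs hsS hsr hneg u hu huS km hkm
    rcases (h r hr).2 s hs with ((h1 | h1) | h1) | h1
    · exact absurd hsS h1
    · exact absurd h1 hsr
    · exact absurd h1 hneg
    · rcases h1 u hu with h2 | h2
      · exact absurd h2 huS
      · exact h2 km hkm

theorem fa_gen [CharP F 2] (D : ChevalleyDatum) (S : List ℕ) (h : idealChk D S = true)
    (r : Fin D.nroots) (t : F) : Matrix.BlockTriangular (D.xMat F r t) (codeLvl D S) := by
  intro row col hlt
  have hcol : codeOf D col ∈ S := by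
    by_contra hc
    simp only [codeLvl, if_neg hc] at hlt
    split_ifs at hlt <;> omega
  have hrow : codeOf D row ∉ S := by
    intro hr
    simp only [codeLvl, if_pos hr] at hlt
    omega
  obtain ⟨hA, hB, hC⟩ := fa_clauses D S h
  unfold ChevalleyDatum.xMat
  rw [Matrix.of_apply]
  rcases col with i | s
  · rcases row with i' | u
    · have hne : i' ≠ i := by
        rintro rfl
        exact hrow hcol
      dsimp only
      rw [if_neg hne]
    · dsimp only
      by_cases hur : u = r
      · have h1 := hA r.val r.isLt i.val i.isLt hcol (hur ▸ hrow)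
        rw [if_pos hur, cm_cast_even (F := F) _ h1, neg_zero, zero_mul]
      · rw [if_neg hur]
  · dsimp only
    by_cases hsr : s = r
    · rw [if_pos hsr]
      rcases row with i' | u
      · rfl
      · have hne : u ≠ r := by
          rintro rfl
          exact hrow (hsr ▸ hcol)
        dsimp only
        rw [if_neg hne]
    · rw [if_neg hsr]
      by_cases hneg : s.val = D.negIdx.getD r.val 0
      · rw [if_pos hneg]
        obtain ⟨hrS, hco⟩ := hB r.val r.isLt s.val s.isLt hneg
          (fun e => hsr (Fin.ext e)) hcol
        rcases row with i' | u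
        · have h1 := hco i'.val i'.isLt hrow
          dsimp only
          rw [cm_cast_even (F := F) _ h1, zero_mul]
        · have hus : u ≠ s := by
            rintro rfl
            exact hrow hcol
          have hur : u ≠ r := by
            rintro rfl
            exact hrow hrS
          dsimp only
          rw [if_neg hus, if_neg hur]
      · rw [if_neg hneg]
        rcases row with i' | u
        · rfl
        · have hus : u ≠ s := by
            rintro rfl
            exact hrow hcol
          have hall := hC r.val r.isLt s.val s.isLt hcol (fun e => hsr (Fin.ext e)) hneg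
            u.val u.isLt hrow
          have hsum : ((D.chainCoeff r.val s.val u.val).map
              fun km => ((km.2 : ℤ) : F) * t ^ km.1).sum = 0 := by
            apply List.sum_eq_zero
            intro x hx
            obtain ⟨km, hkm, rfl⟩ := List.mem_map.mp hx
            rw [cm_cast_even (F := F) _ (hall km hkm), zero_mul]
          dsimp only
          rw [if_neg hus, hsum, add_zero]

theorem inv_ideal_blockTriangular [CharP F 2] (D : ChevalleyDatum) (S : List ℕ)
    (h : idealChk D S = true) (g : GL D.Idx F) (hg : g ∈ D.group F) :
    Matrix.BlockTriangular (g : Matrix D.Idx D.Idx F) (codeLvl D S) := by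
  unfold ChevalleyDatum.group at hg
  induction hg using Subgroup.closure_induction with
  | mem x hx =>
    obtain ⟨r, t, hrt⟩ := hx
    rw [hrt]
    exact fa_gen D S h r t
  | one =>
    rw [Units.val_one]
    exact Matrix.blockTriangular_one
  | mul x y _ _ hx hy =>
    rw [Units.val_mul]
    exact hx.mul hy
  | inv x _ hx =>
    rw [Matrix.coe_units_inv]
    have : Invertible (x : Matrix D.Idx D.Idx F) := x.invertible
    exact Matrix.blockTriangular_inv_of_blockTriangular hx

end Cfsg.Agent.Lib.Helper25
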