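import Cfsg.Agent.Lib.Helper47.S76Defs
import Cfsg.Agent.S0245

/-!
# S5976 project (helper47), piece INDEX

The index of the normaliser of a quadratic field subalgebra of unitary type in `Sp_{2d}(q)`
divides `idxNum q d`.
-/

set_option autoImplicit false

universe u

namespace Cfsg.Agent.Lib.Helper76.S76INDEX

open Matrix Polynomial Cfsg.Agent.Lib.Helper47 Cfsg.Agent.Lib.Helper47.S76

variable {F : Type u} [Field F]

/-- the embedding of the symplectic group into the general linear group -/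
noncomputable def spHom (d : ℕ) :
    ↥(Matrix.symplecticGroup (Fin d) F) →* GL (Fin d ⊕ Fin d) F :=
  (Matrix.symplecticGroup (Fin d) F).subtype.toHomUnits

theorem spHom_val (d : ℕ) (A : ↥(Matrix.symplecticGroup (Fin d) F)) :
    ((spHom d A : GL (Fin d ⊕ Fin d) F) : Matrix (Fin d ⊕ Fin d) (Fin d ⊕ Fin d) F) = A.1 :=
  rfl

theorem spHom_injective (d : ℕ) : Function.Injective (spHom (F := F) d) := by
  intro A B h
  apply Subtype.ext
  have h1 := congrArg
    (fun g : GL (Fin d ⊕ Fin d) F => (g : Matrix (Fin d ⊕ Fin d) (Fin d ⊕ Fin d) F)) h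
  simpa only [spHom_val] using h1

theorem spHom_range (d : ℕ) : (spHom (F := F) d).range = Cfsg.spGL d F := by
  ext g
  rw [mem_spGL_iff]
  constructor
  · rintro ⟨A, rfl⟩
    rw [spHom_val]
    exact A.2
  · intro h
    refine ⟨⟨_, h⟩, ?_⟩
    apply Units.ext
    rw [spHom_val]

/-- a matrix commuting with an invertible matrix commutes with conjugation -/
theorem conj_eq_of_comm {n : Type*} [Fintype n] [DecidableEq n] (g : GL n F) (k : Matrix n n F)
    (h : (g : Matrix n n F) * k = k * (g : Matrix n n F)) :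
    (g : Matrix n n F) * k * ((g⁻¹ : GL n F) : Matrix n n F) = k := by
  rw [h, mul_assoc]
  have h1 : (g : Matrix n n F) * ((g⁻¹ : GL n F) : Matrix n n F) = 1 := by
    rw [← Units.val_mul, mul_inv_cancel, Units.val_one]
  rw [h1, mul_one]

theorem eq_of_conj_comm {n : Type*} [Fintype n] [DecidableEq n] (g : GL n F) (k k' : Matrix n n F)
    (hk : (g : Matrix n n F) * k * ((g⁻¹ : GL n F) : Matrix n n F) = k')
    (h : (g : Matrix n n F) * k' = k' * (g : Matrix n n F)) : k = k' := by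
  have h1 : (g : Matrix n n F) * ((g⁻¹ : GL n F) : Matrix n n F) = 1 := by
    rw [← Units.val_mul, mul_inv_cancel, Units.val_one]
  have h2 : ((g⁻¹ : GL n F) : Matrix n n F) * (g : Matrix n n F) = 1 := by
    rw [← Units.val_mul, inv_mul_cancel, Units.val_one]
  have h3 : (g : Matrix n n F) * k = k' * (g : Matrix n n F) := by
    rw [← hk, mul_assoc, h2, mul_one]
  have h4 : (g : Matrix n n F) * k = (g : Matrix n n F) * k' := by rw [h3, h]
  calc k = ((g⁻¹ : GL n F) : Matrix n n F) * ((g : Matrix n n F) * k) := by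
        rw [← mul_assoc, h2, one_mul]
    _ = ((g⁻¹ : GL n F) : Matrix n n F) * ((g : Matrix n n F) * k') := by rw [h4]
    _ = k' := by rw [← mul_assoc, h2, one_mul]

theorem index_dvd [Fintype F] {q : ℕ} (hq : Fintype.card F = q) (h2 : (2 : F) ≠ 0) (d : ℕ)
    (K : Subalgebra F (Matrix (Fin d ⊕ Fin d) (Fin d ⊕ Fin d) F))
    (θ : Matrix (Fin d ⊕ Fin d) (Fin d ⊕ Fin d) F) (δ : F) (hθK : θ ∈ K)
    (hspan : ∀ k ∈ K, ∃ α β : F, k = α • (1 : Matrix (Fin d ⊕ Fin d) (Fin d ⊕ Fin d) F) + β • θ)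
    (hskew : IsSkew d θ)
    (hθ2 : θ * θ = δ • (1 : Matrix (Fin d ⊕ Fin d) (Fin d ⊕ Fin d) F))
    (hirr : ∀ c : F, c * c ≠ δ)
    (hcent : ∀ (a : F), (∀ c : F, c * c - 2 * a * c + 1 ≠ 0) →
      ∀ x : Matrix.symplecticGroup (Fin d) F,
        (x : Matrix (Fin d ⊕ Fin d) (Fin d ⊕ Fin d) F) * (x : Matrix (Fin d ⊕ Fin d) (Fin d ⊕ Fin d) F)
          - (2 * a) • (x : Matrix (Fin d ⊕ Fin d) (Fin d ⊕ Fin d) F) + 1 = 0 →
        Nat.card (Subgroup.centralizer ({x} : Set (Matrix.symplecticGroup (Fin d) F))) = guOrd q d)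
    (harith : q ^ (d ^ 2) * ∏ i ∈ Finset.range d, (q ^ (2 * (i + 1)) - 1) = idxNum q d * guOrd q d) :
    (Cfsg.Geo.subalgebraNormalizer K).relIndex (Cfsg.spGL d F) ∣ idxNum q d := by
  classical
  have hδ1 : (1 : F) - δ ≠ 0 := by
    intro h
    apply hirr 1
    rw [mul_one]
    linear_combination h
  obtain ⟨a, ha⟩ : ∃ a : F, a = (1 + δ) / (1 - δ) := ⟨_, rfl⟩
  obtain ⟨b, hb⟩ : ∃ b : F, b = 2 / (1 - δ) := ⟨_, rfl⟩
  have hb0 : b ≠ 0 := by
    rw [hb]
    exact div_ne_zero h2 hδ1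
  have hab : a * a - δ * (b * b) = 1 := by
    rw [ha, hb]
    field_simp
    ring
  obtain ⟨s, hs⟩ : ∃ s : Matrix (Fin d ⊕ Fin d) (Fin d ⊕ Fin d) F,
      s = a • (1 : Matrix (Fin d ⊕ Fin d) (Fin d ⊕ Fin d) F) + b • θ := ⟨_, rfl⟩
  have hsmem : s ∈ Matrix.symplecticGroup (Fin d) F := by
    apply mem_sp_of_isometry
    intro u v
    have e1 : ∀ w : Fin d ⊕ Fin d → F, s *ᵥ w = a • w + b • (θ *ᵥ w) := by
      intro w
      rw [hs, Matrix.add_mulVec, Matrix.smul_mulVec, Matrix.smul_mulVec, Matrix.one_mulVec]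
    rw [e1 u, e1 v]
    rw [spForm_add_left', spForm_add_right', spForm_add_right', spForm_smul_left',
      spForm_smul_left', spForm_smul_right', spForm_smul_right', spForm_smul_right',
      spForm_smul_right', spForm_smul_left', spForm_smul_left']
    have k1 : spForm (Fin d) F (θ *ᵥ u) v = - spForm (Fin d) F u (θ *ᵥ v) := hskew u v
    have k2 : spForm (Fin d) F (θ *ᵥ u) (θ *ᵥ v) = - (δ * spForm (Fin d) F u v) := by
      rw [hskew u (θ *ᵥ v), Matrix.mulVec_mulVec, hθ2, Matrix.smul_mulVec, Matrix.one_mulVec,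
        spForm_smul_right']
    rw [k1, k2]
    linear_combination (spForm (Fin d) F u v) * hab
  have hquad : s * s - (2 * a) • s + 1 = 0 := by
    have e1 : s * s = (a * a + δ * (b * b)) • (1 : Matrix (Fin d ⊕ Fin d) (Fin d ⊕ Fin d) F)
        + (2 * a * b) • θ := by
      rw [hs]
      simp only [add_mul, mul_add, Matrix.smul_mul, Matrix.mul_smul, Matrix.one_mul,
        Matrix.mul_one, hθ2, smul_smul]
      rw [show a * b = b * a from mul_comm a b]
      module
    rw [e1, hs]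
    have e3 : (1 : Matrix (Fin d ⊕ Fin d) (Fin d ⊕ Fin d) F)
        = (a * a - δ * (b * b)) • (1 : Matrix (Fin d ⊕ Fin d) (Fin d ⊕ Fin d) F) := by
      rw [hab, one_smul]
    nth_rewrite 3 [e3]
    module
  have hnr : ∀ c : F, c * c - 2 * a * c + 1 ≠ 0 := by
    intro c hc
    apply hirr ((c - a) / b)
    field_simp
    linear_combination hc + hab
  have hcard := hcent a hnr ⟨s, hsmem⟩ hquad
  -- the centraliser
  obtain ⟨C, hC⟩ : ∃ C : Subgroup (Matrix.symplecticGroup (Fin d) F),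
      C = Subgroup.centralizer ({⟨s, hsmem⟩} : Set (Matrix.symplecticGroup (Fin d) F)) :=
    ⟨_, rfl⟩
  rw [← hC] at hcard
  have hCle : C.map (spHom d) ≤ Cfsg.Geo.subalgebraNormalizer K ⊓ Cfsg.spGL d F := by
    rintro g ⟨A, hA, rfl⟩
    have hAs : (A : Matrix (Fin d ⊕ Fin d) (Fin d ⊕ Fin d) F) * s
        = s * (A : Matrix (Fin d ⊕ Fin d) (Fin d ⊕ Fin d) F) := by
      rw [SetLike.mem_coe, hC, Subgroup.mem_centralizer_iff] at hA
      have h1 := hA ⟨s, hsmem⟩ (Set.mem_singleton _)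
      have h3 := congrArg Subtype.val h1
      exact h3.symm
    have hAθ : (A : Matrix (Fin d ⊕ Fin d) (Fin d ⊕ Fin d) F) * θ
        = θ * (A : Matrix (Fin d ⊕ Fin d) (Fin d ⊕ Fin d) F) := by
      rw [hs] at hAs
      simp only [mul_add, add_mul, Matrix.mul_smul, Matrix.smul_mul, Matrix.mul_one,
        Matrix.one_mul] at hAs
      have h4 : b • ((A : Matrix (Fin d ⊕ Fin d) (Fin d ⊕ Fin d) F) * θ)
          = b • (θ * (A : Matrix (Fin d ⊕ Fin d) (Fin d ⊕ Fin d) F)) := add_left_cancel hAs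
      have h5 := congrArg (fun M => b⁻¹ • M) h4
      simpa only [smul_smul, inv_mul_cancel₀ hb0, one_smul] using h5
    have hAK : ∀ k ∈ K, (A : Matrix (Fin d ⊕ Fin d) (Fin d ⊕ Fin d) F) * k
        = k * (A : Matrix (Fin d ⊕ Fin d) (Fin d ⊕ Fin d) F) := by
      intro k hk
      obtain ⟨α, β, rfl⟩ := hspan k hk
      simp only [mul_add, add_mul, Matrix.mul_smul, Matrix.smul_mul, Matrix.mul_one,
        Matrix.one_mul, hAθ]
    refine Subgroup.mem_inf.mpr ⟨?_, ?_⟩
    · intro k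
      constructor
      · intro hk
        have h1 := conj_eq_of_comm (spHom d A) k (hAK k hk)
        rw [h1]
        exact hk
      · intro hk
        have h1 := eq_of_conj_comm (spHom d A) k _ rfl (hAK _ hk)
        rw [h1]
        exact hk
    · rw [← spHom_range]
      exact ⟨A, rfl⟩
  have hfin : Finite (Matrix.symplecticGroup (Fin d) F) := inferInstance
  have hdvd1 : guOrd q d ∣ Nat.card (Cfsg.Geo.subalgebraNormalizer K ⊓ Cfsg.spGL d F :
      Subgroup (GL (Fin d ⊕ Fin d) F)) := by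
    have h1 := Subgroup.card_dvd_of_le hCle
    rwa [Subgroup.card_map_of_injective (spHom_injective d), hcard] at h1
  have hgpos : 0 < guOrd q d := by
    rw [← hcard]
    exact Nat.card_pos
  have hI : Nat.card (Cfsg.spGL d F) = idxNum q d * guOrd q d := by
    rw [← harith, ← Cfsg.Agent.S0245.result hq d, ← spHom_range]
    exact (Nat.card_congr (Equiv.ofInjective _ (spHom_injective d))).symm
  have hmul : Nat.card (Cfsg.Geo.subalgebraNormalizer K ⊓ Cfsg.spGL d F :
      Subgroup (GL (Fin d ⊕ Fin d) F)) * (Cfsg.Geo.subalgebraNormalizer K).relIndex (Cfsg.spGL d F)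
      = Nat.card (Cfsg.spGL d F) := by
    have h1 := Subgroup.relIndex_mul_relIndex (H := (⊥ : Subgroup (GL (Fin d ⊕ Fin d) F)))
      (K := Cfsg.Geo.subalgebraNormalizer K ⊓ Cfsg.spGL d F) (L := Cfsg.spGL d F) bot_le
      inf_le_right
    rwa [Subgroup.relIndex_bot_left, Subgroup.relIndex_bot_left, Subgroup.inf_relIndex_right]
      at h1
  obtain ⟨m, hm⟩ := hdvd1
  rw [hm, hI] at hmul
  refine ⟨m, ?_⟩
  have h3 : guOrd q d * (m * (Cfsg.Geo.subalgebraNormalizer K).relIndex (Cfsg.spGL d F))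
      = guOrd q d * idxNum q d := by
    rw [← mul_assoc, hmul, mul_comm]
  have h4 := Nat.eq_of_mul_eq_mul_left hgpos h3
  rw [← h4, mul_comm]

end Cfsg.Agent.Lib.Helper76.S76INDEX
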