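import Mathlib
import Cfsg.Agent.Lib.Helper4.FCDefs

/-! S4146 project FC (architect helper4), piece BCC (job 4566, proved by helper76):
`fc_bcc : L1Stmt → BCcStmt`. -/

set_option autoImplicit false

namespace Cfsg.Agent.Lib.Helper4.FC

universe u

theorem bcc_helper76_mem_cen {G : Type u} [Group G] (y g : G) : g ∈ Cen y ↔ y * g = g * y := by
  rw [Subgroup.mem_centralizer_iff]
  simp

/-- `G = H K` when the relative index of `K` in `H` equals the index of `K` -/
theorem bcc_helper76_factor {G : Type u} [Group G] [Finite G] (H K : Subgroup G)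
    (h : K.relIndex H = K.index) (g : G) : ∃ c ∈ H, c⁻¹ * g ∈ K := by
  let f : ↥H ⧸ K.subgroupOf H → G ⧸ K :=
    Quotient.map' (fun c : ↥H => (c : G)) (by
      intro a b hab
      rw [QuotientGroup.leftRel_apply] at hab ⊢
      exact hab)
  have hf : Function.Injective f := by
    intro q1 q2
    refine Quotient.inductionOn₂' q1 q2 (fun a b hab => ?_)
    have h1 : ((a : G) : G ⧸ K) = ((b : G) : G ⧸ K) := hab
    rw [QuotientGroup.eq] at h1
    exact Quotient.sound' (by rw [QuotientGroup.leftRel_apply]; exact h1)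
  have hcard : Nat.card (G ⧸ K) ≤ Nat.card (↥H ⧸ K.subgroupOf H) := by
    have e1 : Nat.card (G ⧸ K) = K.index := rfl
    have e2 : Nat.card (↥H ⧸ K.subgroupOf H) = K.relIndex H := rfl
    rw [e1, e2, h]
  have hb := hf.bijective_of_nat_card_le hcard
  obtain ⟨q, hq⟩ := hb.2 (g : G ⧸ K)
  induction q using Quotient.inductionOn' with
  | h c =>
    refine ⟨c, c.2, ?_⟩
    have h1 : ((c : G) : G ⧸ K) = (g : G ⧸ K) := hq
    rw [QuotientGroup.eq] at h1
    exact h1

theorem fc_bcc : L1Stmt.{u} → BCcStmt.{u} := by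
  intro hL1 G _ _ n m s x y hFour hs hy hsx hx hne
  obtain ⟨hn1, hm1, hcop, -, -, -, -⟩ := hFour
  have : Fact s.Prime := ⟨hs⟩
  have hidx : (Cen x ⊓ Cen y).index = n * m := by
    have h0 := hL1 G x y (by rw [hx, hy]; exact hcop)
    rw [h0, hx, hy]
  have hxi : (Cen x).index = n := hx
  have hyi : (Cen y).index = m := hy
  have hrel : (Cen y).relIndex (Cen x) = (Cen y).index := by
    have h1 := Subgroup.relIndex_mul_index (inf_le_left : Cen x ⊓ Cen y ≤ Cen x)
    rw [Subgroup.inf_relIndex_left, hidx, hxi] at h1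
    rw [hyi]
    have hn0 : 0 < n := by omega
    exact Nat.eq_of_mul_eq_mul_right hn0 (by rw [h1, mul_comm])
  have hfac := bcc_helper76_factor (Cen x) (Cen y) hrel
  obtain ⟨k, hk⟩ := hsx
  have hZ : IsPGroup s ↥(Subgroup.zpowers x) := by
    apply IsPGroup.of_card (n := k)
    rw [Nat.card_zpowers, hk]
  have hmod := hZ.card_modEq_card_fixedPoints (G ⧸ Cen y)
  have hfix : IsEmpty ↥(MulAction.fixedPoints ↥(Subgroup.zpowers x) (G ⧸ Cen y)) := by
    constructor
    rintro ⟨q, hq⟩
    induction q using Quotient.inductionOn' with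
    | h g =>
      have h1 := hq ⟨x, Subgroup.mem_zpowers x⟩
      have h2 : ((x * g : G) : G ⧸ Cen y) = (g : G ⧸ Cen y) := h1
      rw [QuotientGroup.eq] at h2
      obtain ⟨c, hc, hd⟩ := hfac g
      apply hne
      have hcx : x * c = c * x := (bcc_helper76_mem_cen x c).mp hc
      have e1 : c⁻¹ * x⁻¹ * c = x⁻¹ := by
        have e0 : c⁻¹ * x⁻¹ = (x * c)⁻¹ := by group
        rw [e0, hcx]
        group
      have e2 : (c⁻¹ * g) * ((x * g)⁻¹ * g) * (c⁻¹ * g)⁻¹ = x⁻¹ := by
        rw [← e1]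
        group
      have h3 : x⁻¹ ∈ Cen y := by
        rw [← e2]
        exact Subgroup.mul_mem _ (Subgroup.mul_mem _ hd h2) (Subgroup.inv_mem _ hd)
      have h4 : x ∈ Cen y := by simpa using Subgroup.inv_mem _ h3
      exact ((bcc_helper76_mem_cen y x).mp h4).symm
  have hcard0 : Nat.card ↥(MulAction.fixedPoints ↥(Subgroup.zpowers x) (G ⧸ Cen y)) = 0 :=
    Nat.card_of_isEmpty
  rw [hcard0] at hmod
  have hcm : Nat.card (G ⧸ Cen y) = m := hy
  rw [hcm] at hmod
  exact (Nat.modEq_zero_iff_dvd).mp hmod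

end Cfsg.Agent.Lib.Helper4.FC
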