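import Mathlib

/-!
# Minimal degree of primitive groups that are not doubly transitive
(helper76, for S5713)

For a primitive action that is not doubly transitive, every pair `a ≠ b` is distinguished
(`Dset`) by at least `√n / 2` points: `n ≤ 4 * Dn a b ^ 2`.
-/

set_option autoImplicit false
set_option linter.unusedSectionVars false
set_option linter.unusedVariables false

namespace Cfsg.Agent.Lib.Helper76.MD

open MulAction
open Classical

variable {G Ω : Type*} [Group G] [MulAction G Ω]

/-- `(u, v)` lies in the orbital of `(a, b)` -/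
def Rel (G : Type*) {Ω : Type*} [Group G] [MulAction G Ω] (a b u v : Ω) : Prop :=
  ∃ g : G, g • a = u ∧ g • b = v

/-- `z` does not distinguish `x` and `y` -/
def Same (G : Type*) {Ω : Type*} [Group G] [MulAction G Ω] (z x y : Ω) : Prop :=
  ∃ g : G, g • z = z ∧ g • x = y

theorem Rel.smul {a b u v : Ω} (h : Rel G a b u v) (g : G) : Rel G a b (g • u) (g • v) := by
  obtain ⟨k, rfl, rfl⟩ := h
  exact ⟨g * k, mul_smul _ _ _, mul_smul _ _ _⟩

theorem Rel.ne {a b u v : Ω} (hab : a ≠ b) (h : Rel G a b u v) : u ≠ v := by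
  obtain ⟨k, rfl, rfl⟩ := h
  exact fun e => hab (MulAction.injective k e)

theorem Rel.base (a b : Ω) : Rel G a b a b := ⟨1, one_smul _ _, one_smul _ _⟩

theorem Rel.comp {a b u v s t : Ω} (h1 : Rel G a b u v) (h2 : Rel G a b s t) :
    Rel G u v s t := by
  obtain ⟨g, rfl, rfl⟩ := h1
  obtain ⟨k, rfl, rfl⟩ := h2
  exact ⟨k * g⁻¹, by rw [mul_smul, inv_smul_smul], by rw [mul_smul, inv_smul_smul]⟩

theorem Rel.inv {a b u v : Ω} (h : Rel G a b u v) : Rel G u v a b := by
  obtain ⟨g, rfl, rfl⟩ := h
  exact ⟨g⁻¹, inv_smul_smul _ _, inv_smul_smul _ _⟩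

theorem Rel.trans {a b u v s t : Ω} (h1 : Rel G a b u v) (h2 : Rel G u v s t) :
    Rel G a b s t := by
  obtain ⟨g, rfl, rfl⟩ := h1
  obtain ⟨k, rfl, rfl⟩ := h2
  exact ⟨k * g, mul_smul _ _ _, mul_smul _ _ _⟩

theorem Same.symm {z x y : Ω} (h : Same G z x y) : Same G z y x := by
  obtain ⟨g, hz, hx⟩ := h
  exact ⟨g⁻¹, by rw [inv_smul_eq_iff, hz], by rw [inv_smul_eq_iff, hx]⟩

theorem Same.trans {z x y w : Ω} (h1 : Same G z x y) (h2 : Same G z y w) : Same G z x w := by
  obtain ⟨g, hz, hx⟩ := h1
  obtain ⟨k, kz, ky⟩ := h2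
  exact ⟨k * g, by rw [mul_smul, hz, kz], by rw [mul_smul, hx, ky]⟩

theorem Same.smul {z x y : Ω} (h : Same G z x y) (k : G) : Same G (k • z) (k • x) (k • y) := by
  obtain ⟨g, hz, hx⟩ := h
  exact ⟨k * g * k⁻¹, by rw [mul_smul, mul_smul, inv_smul_smul, hz],
    by rw [mul_smul, mul_smul, inv_smul_smul, hx]⟩

theorem Same.refl (z x : Ω) : Same G z x x := ⟨1, one_smul _ _, one_smul _ _⟩

variable [Fintype Ω]

/-- the set of points distinguishing `x` and `y` -/
noncomputable def Dset (G : Type*) {Ω : Type*} [Group G] [MulAction G Ω] [Fintype Ω] (x y : Ω) :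
    Finset Ω :=
  Finset.univ.filter (fun z => ¬ Same G z x y)

theorem mem_Dset {x y z : Ω} : z ∈ Dset G x y ↔ ¬ Same G z x y := by simp [Dset]

theorem Dset_comm (x y : Ω) : Dset G x y = Dset G y x := by
  ext z; simp only [mem_Dset]; exact not_congr ⟨Same.symm, Same.symm⟩

theorem Dset_triangle (x y w : Ω) : Dset G x w ⊆ Dset G x y ∪ Dset G y w := by
  intro z hz
  rw [Finset.mem_union, mem_Dset, mem_Dset]
  rw [mem_Dset] at hz
  by_contra hcon
  push Not at hcon
  exact hz (hcon.1.trans hcon.2)

theorem left_mem_Dset {x y : Ω} (h : x ≠ y) : x ∈ Dset G x y := by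
  rw [mem_Dset]; rintro ⟨g, hz, hx⟩; exact h (hz.symm.trans hx)

/-- the number of points distinguishing `x` and `y` -/
noncomputable def Dn (G : Type*) {Ω : Type*} [Group G] [MulAction G Ω] [Fintype Ω] (x y : Ω) : ℕ :=
  (Dset G x y).card

theorem Dn_self (x : Ω) : Dn G x x = 0 := by
  unfold Dn
  rw [Finset.card_eq_zero]
  ext z; simp [mem_Dset, Same.refl]

theorem Dn_smul (k : G) (x y : Ω) : Dn G (k • x) (k • y) = Dn G x y := by
  unfold Dn
  have : Dset G (k • x) (k • y) = (Dset G x y).image (fun z => k • z) := by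
    ext z
    simp only [mem_Dset, Finset.mem_image]
    constructor
    · intro h
      refine ⟨k⁻¹ • z, ?_, smul_inv_smul k z⟩
      intro hs
      apply h
      have := hs.smul k
      rwa [smul_inv_smul] at this
    · rintro ⟨w, hw, rfl⟩ hs
      apply hw
      have := hs.smul k⁻¹
      simpa using this
  rw [this, Finset.card_image_of_injective _ (MulAction.injective k)]

theorem Dn_comm (x y : Ω) : Dn G x y = Dn G y x := by unfold Dn; rw [Dset_comm]

theorem Dn_triangle (x y w : Ω) : Dn G x w ≤ Dn G x y + Dn G y w :=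
  (Finset.card_le_card (Dset_triangle x y w)).trans (Finset.card_union_le _ _)

theorem Dn_of_rel {a b u v : Ω} (h : Rel G a b u v) : Dn G u v = Dn G a b := by
  obtain ⟨g, rfl, rfl⟩ := h; exact Dn_smul g a b

/-- an element moving `x` moves every point distinguishing `x` from its image -/
theorem Dn_le_moved (g : G) (x : Ω) :
    Dn G x (g • x) ≤ (Finset.univ.filter (fun z : Ω => g • z ≠ z)).card := by
  apply Finset.card_le_card
  intro z hz
  rw [mem_Dset] at hz
  simp only [Finset.mem_filter, Finset.mem_univ, true_and]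
  exact fun e => hz ⟨g, e, rfl⟩

/-- out-neighbours of `u` in the orbital graph of `(a, b)` -/
noncomputable def Nout (G : Type*) {Ω : Type*} [Group G] [MulAction G Ω] [Fintype Ω]
    (a b u : Ω) : Finset Ω :=
  Finset.univ.filter (fun v => Rel G a b u v)

theorem mem_Nout {a b u v : Ω} : v ∈ Nout G a b u ↔ Rel G a b u v := by simp [Nout]

theorem Nout_smul (a b u : Ω) (g : G) :
    Nout G a b (g • u) = (Nout G a b u).image (fun v => g • v) := by
  ext v
  simp only [mem_Nout, Finset.mem_image]
  constructor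
  · intro h
    refine ⟨g⁻¹ • v, ?_, smul_inv_smul g v⟩
    have := h.smul g⁻¹
    rwa [inv_smul_smul] at this
  · rintro ⟨w, hw, rfl⟩
    exact hw.smul g

theorem card_Nout [IsPretransitive G Ω] (a b u u' : Ω) :
    (Nout G a b u).card = (Nout G a b u').card := by
  obtain ⟨g, rfl⟩ := exists_smul_eq G u u'
  rw [Nout_smul, Finset.card_image_of_injective _ (MulAction.injective g)]

theorem not_mem_Nout_self {a b u : Ω} (hab : a ≠ b) : u ∉ Nout G a b u := by
  rw [mem_Nout]; exact fun h => h.ne hab rfl

theorem Nout_sdiff_subset (a b u v : Ω) : Nout G a b u \ Nout G a b v ⊆ Dset G u v := by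
  intro z hz
  rw [Finset.mem_sdiff, mem_Nout, mem_Nout] at hz
  rw [mem_Dset]
  rintro ⟨g, gz, gu⟩
  apply hz.2
  have := hz.1.smul g
  rwa [gz, gu] at this

/-- neighbourhoods of two points differ by at most the distinguishing number -/
theorem two_mul_card_le [IsPretransitive G Ω] (a b u v : Ω) :
    2 * (Nout G a b u).card ≤ 2 * (Nout G a b u ∩ Nout G a b v).card + Dn G u v := by
  have h1 := Finset.card_sdiff_add_card_inter (Nout G a b u) (Nout G a b v)
  have h2 := Finset.card_sdiff_add_card_inter (Nout G a b v) (Nout G a b u)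
  rw [Finset.inter_comm] at h2
  have h3 := card_Nout (G := G) a b u v
  have hd : Disjoint (Nout G a b u \ Nout G a b v) (Nout G a b v \ Nout G a b u) :=
    disjoint_sdiff_sdiff
  have hsub : (Nout G a b u \ Nout G a b v) ∪ (Nout G a b v \ Nout G a b u) ⊆ Dset G u v := by
    apply Finset.union_subset (Nout_sdiff_subset a b u v)
    rw [Dset_comm]; exact Nout_sdiff_subset a b v u
  have h4 := Finset.card_le_card hsub
  rw [Finset.card_union_of_disjoint hd] at h4
  unfold Dn
  omega

section primitive

variable [IsPreprimitive G Ω]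

/-- orbital graphs of primitive groups are strongly connected -/
theorem reach {a b : Ω} (hab : a ≠ b) (u v : Ω) : Relation.ReflTransGen (Rel G a b) u v := by
  have hlift : ∀ (g : G) (u v : Ω), Relation.ReflTransGen (Rel G a b) u v →
      Relation.ReflTransGen (Rel G a b) (g • u) (g • v) := by
    intro g u v h
    induction h with
    | refl => exact Relation.ReflTransGen.refl
    | tail _ h ih => exact ih.tail (h.smul g)
  let T : Ω → Finset Ω := fun u => Finset.univ.filter (fun v => Relation.ReflTransGen (Rel G a b) u v)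
  have hT : ∀ u v, v ∈ T u ↔ Relation.ReflTransGen (Rel G a b) u v := fun u v => by simp [T]
  have hTcard : ∀ u u', (T u).card = (T u').card := by
    intro u u'
    obtain ⟨g, rfl⟩ := exists_smul_eq G u u'
    have : T (g • u) = (T u).image (fun v => g • v) := by
      ext v
      simp only [hT, Finset.mem_image]
      constructor
      · intro h
        refine ⟨g⁻¹ • v, ?_, smul_inv_smul g v⟩
        have := hlift g⁻¹ _ _ h
        rwa [inv_smul_smul] at this
      · rintro ⟨w, hw, rfl⟩
        exact hlift g _ _ hw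
    rw [this, Finset.card_image_of_injective _ (MulAction.injective g)]
  have hsymm : ∀ u v, Relation.ReflTransGen (Rel G a b) u v →
      Relation.ReflTransGen (Rel G a b) v u := by
    intro u v h
    have hsub : T v ⊆ T u := fun w hw => (hT u w).2 (h.trans ((hT v w).1 hw))
    have heq := Finset.eq_of_subset_of_card_le hsub (hTcard u v).le
    have : u ∈ T v := by rw [heq, hT]
    exact (hT v u).1 this
  have hblock : IsBlock G {v : Ω | Relation.ReflTransGen (Rel G a b) a v} := by
    rw [isBlock_iff_smul_eq_of_mem]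
    intro g w hw hgw
    have h1 : Relation.ReflTransGen (Rel G a b) (g • a) (g • w) := hlift g _ _ hw
    have h2 : Relation.ReflTransGen (Rel G a b) a (g • a) := hgw.trans (hsymm _ _ h1)
    have h3 : Relation.ReflTransGen (Rel G a b) (g • a) a := hsymm _ _ h2
    ext v
    rw [Set.mem_smul_set_iff_inv_smul_mem]
    show Relation.ReflTransGen (Rel G a b) a (g⁻¹ • v) ↔ Relation.ReflTransGen (Rel G a b) a v
    constructor
    · intro h
      have := hlift g _ _ h
      rw [smul_inv_smul] at this
      exact h2.trans this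
    · intro h
      have := hlift g⁻¹ _ _ (h3.trans h)
      rwa [inv_smul_smul] at this
  have htriv := IsPreprimitive.isTrivialBlock_of_isBlock hblock
  have huniv : {v : Ω | Relation.ReflTransGen (Rel G a b) a v} = Set.univ := by
    rcases htriv with h | h
    · exact absurd (h (Relation.ReflTransGen.refl : Relation.ReflTransGen (Rel G a b) a a)
        (Relation.ReflTransGen.single (Rel.base a b))) hab
    · exact h
  have hall : ∀ v, Relation.ReflTransGen (Rel G a b) a v := fun v => by
    have : v ∈ {v : Ω | Relation.ReflTransGen (Rel G a b) a v} := by rw [huniv]; trivial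
    exact this
  exact (hsymm _ _ (hall u)).trans (hall v)

theorem closed_univ {a b : Ω} (hab : a ≠ b) (S : Set Ω) {u : Ω} (hu : u ∈ S)
    (hS : ∀ w ∈ S, ∀ w', Rel G a b w w' → w' ∈ S) (v : Ω) : v ∈ S := by
  have := reach (G := G) hab u v
  induction this with
  | refl => exact hu
  | tail _ h ih => exact hS _ ih _ h

/-- number of out-neighbours `v` of `u` such that `z` distinguishes `u`, `v` -/
noncomputable def fcount (G : Type*) {Ω : Type*} [Group G] [MulAction G Ω] [Fintype Ω]
    (a b z u : Ω) : ℕ :=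
  ((Nout G a b u).filter (fun v => z ∈ Dset G u v)).card

theorem sum_fcount (a b : Ω) :
    ∑ z : Ω, ∑ u : Ω, fcount G a b z u =
      Fintype.card Ω * ((Nout G a b a).card * Dn G a b) := by
  rw [Finset.sum_comm]
  have : ∀ u : Ω, ∑ z : Ω, fcount G a b z u = (Nout G a b a).card * Dn G a b := by
    intro u
    have e1 : ∀ z : Ω, fcount G a b z u =
        ∑ v ∈ Nout G a b u, (if z ∈ Dset G u v then 1 else 0) := by
      intro z
      unfold fcount
      rw [Finset.card_filter]
    simp_rw [e1]
    rw [Finset.sum_comm]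
    have e2 : ∀ v ∈ Nout G a b u, ∑ z : Ω, (if z ∈ Dset G u v then 1 else 0) = Dn G a b := by
      intro v hv
      rw [Finset.sum_boole, Finset.filter_mem_eq_inter, Finset.univ_inter]
      exact Dn_of_rel (mem_Nout.1 hv)
    rw [Finset.sum_congr rfl e2, Finset.sum_const, smul_eq_mul, card_Nout a b u a]
  rw [Finset.sum_congr rfl (fun u _ => this u), Finset.sum_const, smul_eq_mul, Finset.card_univ]

theorem fcount_self {a b : Ω} (hab : a ≠ b) (z : Ω) :
    fcount G a b z z = (Nout G a b a).card := by
  unfold fcount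
  rw [Finset.filter_true_of_mem, card_Nout a b z a]
  intro v hv
  exact left_mem_Dset ((mem_Nout.1 hv).ne hab)

theorem one_le_fcount {a b : Ω} (hab : a ≠ b) {z u : Ω} (hzu : u ≠ z) :
    1 ≤ fcount G a b z u := by
  by_contra hcon
  have h0 : fcount G a b z u = 0 := by omega
  unfold fcount at h0
  rw [Finset.card_eq_zero, Finset.filter_eq_empty_iff] at h0
  have hsame : ∀ v, Rel G a b u v → Same G z u v := by
    intro v hv
    have := h0 (mem_Nout.2 hv)
    rw [mem_Dset, not_not] at this
    exact this
  have hz : z ∈ {w : Ω | Same G z u w} := by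
    refine closed_univ (G := G) hab {w : Ω | Same G z u w} (Same.refl z u) ?_ z
    rintro w ⟨g, gz, gu⟩ w' hww'
    have h1 : Rel G a b u (g⁻¹ • w') := by
      have := hww'.smul g⁻¹
      rwa [← gu, inv_smul_smul] at this
    obtain ⟨h, hz, hu⟩ := hsame _ h1
    exact ⟨g * h, by rw [mul_smul, hz, gz], by rw [mul_smul, hu, smul_inv_smul]⟩
  obtain ⟨g, gz, gu⟩ := hz
  exact hzu (MulAction.injective g (gu.trans gz.symm))

theorem inter_le_fcount {a b : Ω} {z u : Ω} (hu : u ∉ Nout G a b z) :
    (Nout G a b u ∩ Nout G a b z).card ≤ fcount G a b z u := by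
  unfold fcount
  apply Finset.card_le_card
  intro v hv
  rw [Finset.mem_inter] at hv
  rw [Finset.mem_filter]
  refine ⟨hv.1, ?_⟩
  rw [mem_Dset]
  rintro ⟨g, gz, gu⟩
  apply hu
  rw [mem_Nout]
  have := (mem_Nout.1 hv.2).smul g⁻¹
  rwa [← gu, inv_smul_smul, inv_smul_eq_iff.2 gz.symm] at this

/-- first counting inequality: `n - 1 ≤ d (k - 1)` -/
theorem count_one {a b : Ω} (hab : a ≠ b) :
    Fintype.card Ω + (Nout G a b a).card ≤ (Nout G a b a).card * Dn G a b + 1 := by
  have hsum := sum_fcount (G := G) a b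
  have hz : ∀ z : Ω, (Nout G a b a).card + (Fintype.card Ω - 1) ≤ ∑ u : Ω, fcount G a b z u := by
    intro z
    rw [← Finset.add_sum_erase Finset.univ _ (Finset.mem_univ z), fcount_self hab]
    apply Nat.add_le_add_left
    have : ∀ u ∈ Finset.univ.erase z, 1 ≤ fcount G a b z u := fun u hu =>
      one_le_fcount hab (Finset.ne_of_mem_erase hu)
    have h2 := Finset.sum_le_sum this
    rw [Finset.sum_const, smul_eq_mul, mul_one, Finset.card_erase_of_mem (Finset.mem_univ z),
      Finset.card_univ] at h2
    exact h2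
  have h3 := Finset.sum_le_sum (fun z (_ : z ∈ Finset.univ) => hz z)
  rw [Finset.sum_const, smul_eq_mul, Finset.card_univ, hsum] at h3
  have hn : 0 < Fintype.card Ω := Fintype.card_pos_iff.2 ⟨a⟩
  have h4 := Nat.le_of_mul_le_mul_left h3 hn
  omega

/-- second counting inequality -/
theorem count_two {a b : Ω} (hab : a ≠ b) (c : ℕ)
    (hc : ∀ u z : Ω, c ≤ (Nout G a b u ∩ Nout G a b z).card) :
    (Nout G a b a).card + (Fintype.card Ω - 1 - (Nout G a b a).card) * c ≤
      (Nout G a b a).card * Dn G a b := by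
  have hsum := sum_fcount (G := G) a b
  have hz : ∀ z : Ω, (Nout G a b a).card + (Fintype.card Ω - 1 - (Nout G a b a).card) * c ≤
      ∑ u : Ω, fcount G a b z u := by
    intro z
    have hzN : z ∉ Nout G a b z := not_mem_Nout_self hab
    have hsub : insert z (Finset.univ \ insert z (Nout G a b z)) ⊆ (Finset.univ : Finset Ω) :=
      Finset.subset_univ _
    have hnot : z ∉ Finset.univ \ insert z (Nout G a b z) := by simp
    refine le_trans ?_ (Finset.sum_le_sum_of_subset hsub)
    rw [Finset.sum_insert hnot, fcount_self hab]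
    apply Nat.add_le_add_left
    have : ∀ u ∈ Finset.univ \ insert z (Nout G a b z), c ≤ fcount G a b z u := by
      intro u hu
      rw [Finset.mem_sdiff, Finset.mem_insert, not_or] at hu
      exact (hc u z).trans (inter_le_fcount hu.2.2)
    have h2 := Finset.sum_le_sum this
    rw [Finset.sum_const, smul_eq_mul] at h2
    have hcard : (Finset.univ \ insert z (Nout G a b z)).card =
        Fintype.card Ω - 1 - (Nout G a b a).card := by
      rw [Finset.card_sdiff_of_subset (Finset.subset_univ _), Finset.card_insert_of_notMem hzN,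
        Finset.card_univ, card_Nout a b z a]
      omega
    rw [hcard] at h2
    exact h2
  have h3 := Finset.sum_le_sum (fun z (_ : z ∈ Finset.univ) => hz z)
  rw [Finset.sum_const, smul_eq_mul, Finset.card_univ, hsum] at h3
  have hn : 0 < Fintype.card Ω := Fintype.card_pos_iff.2 ⟨a⟩
  exact Nat.le_of_mul_le_mul_left h3 hn

/-- if the valency is at least twice the distinguishing number, all pairs are within `2k` -/
theorem Dn_le_two_mul {a b : Ω} (hab : a ≠ b) (hd : 2 * Dn G a b ≤ (Nout G a b a).card)
    (u v : Ω) : Dn G u v ≤ 2 * Dn G a b := by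
  have hk : 0 < Dn G a b := Finset.card_pos.2 ⟨a, left_mem_Dset hab⟩
  refine closed_univ (G := G) hab {v : Ω | Dn G u v ≤ 2 * Dn G a b} (u := u) ?_ ?_ v
  · show Dn G u u ≤ 2 * Dn G a b
    rw [Dn_self]; exact Nat.zero_le _
  · intro w hw w' hww'
    have hw : Dn G u w ≤ 2 * Dn G a b := hw
    have h1 : Dn G u w' ≤ Dn G u w + Dn G w w' := Dn_triangle u w w'
    rw [Dn_of_rel hww'] at h1
    have h2 := two_mul_card_le (G := G) a b u w'
    rw [card_Nout a b u a] at h2
    have hpos : 0 < (Nout G a b u ∩ Nout G a b w').card := by omega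
    obtain ⟨c, hc⟩ := Finset.card_pos.1 hpos
    rw [Finset.mem_inter, mem_Nout, mem_Nout] at hc
    have h3 : Dn G u w' ≤ Dn G u c + Dn G c w' := Dn_triangle u c w'
    rw [Dn_of_rel hc.1, Dn_comm c w', Dn_of_rel hc.2] at h3
    show Dn G u w' ≤ 2 * Dn G a b
    omega

/-- **Key bound**: in a primitive group that is not doubly transitive, `n ≤ 4 k²` where `k` is
the number of points distinguishing any given pair. -/
theorem card_le_four_mul_sq {a b a' b' : Ω} (hab : a ≠ b) (hab' : a' ≠ b')
    (hne : ¬ Rel G a b a' b') : Fintype.card Ω ≤ 4 * Dn G a b ^ 2 := by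
  have hk : 0 < Dn G a b := Finset.card_pos.2 ⟨a, left_mem_Dset hab⟩
  have hd : 0 < (Nout G a b a).card := Finset.card_pos.2 ⟨b, mem_Nout.2 (Rel.base a b)⟩
  have c1 := count_one (G := G) hab
  rcases Nat.lt_or_ge (Nout G a b a).card (2 * Dn G a b) with hlt | hge
  · -- small valency
    have h1 : (Nout G a b a).card * Dn G a b ≤ (2 * Dn G a b - 1) * Dn G a b :=
      Nat.mul_le_mul_right _ (by omega)
    obtain ⟨k, hk'⟩ : ∃ k, Dn G a b = k + 1 := ⟨Dn G a b - 1, by omega⟩
    rw [hk'] at h1 c1 hlt ⊢
    have h2 : (Nout G a b a).card * (k + 1) = (Nout G a b a).card * k + (Nout G a b a).card := by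
      ring
    have h3 : (Nout G a b a).card * k ≤ (2 * k + 1) * k := Nat.mul_le_mul_right _ (by omega)
    nlinarith
  · -- large valency
    have hall := Dn_le_two_mul (G := G) hab hge
    have hc : ∀ u z : Ω, (Nout G a b a).card - Dn G a b ≤ (Nout G a b u ∩ Nout G a b z).card := by
      intro u z
      have h2 := two_mul_card_le (G := G) a b u z
      rw [card_Nout a b u a] at h2
      have h3 := hall u z
      omega
    have c2 := count_two (G := G) hab _ hc
    -- the complement of the neighbourhood is small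
    have hcomp : Fintype.card Ω - 1 - (Nout G a b a).card ≤ 2 * (Dn G a b - 1) := by
      by_contra hcon
      push Not at hcon
      have h1 : (2 * (Dn G a b - 1) + 1) * ((Nout G a b a).card - Dn G a b) ≤
          (Fintype.card Ω - 1 - (Nout G a b a).card) * ((Nout G a b a).card - Dn G a b) :=
        Nat.mul_le_mul_right _ (by omega)
      obtain ⟨k, hk'⟩ : ∃ k, Dn G a b = k + 1 := ⟨Dn G a b - 1, by omega⟩
      obtain ⟨e, he⟩ : ∃ e, (Nout G a b a).card = 2 * (k + 1) + e :=
        ⟨(Nout G a b a).card - 2 * (k + 1), by omega⟩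
      rw [hk', he] at h1 c2
      have e1 : 2 * (k + 1) + e - (k + 1) = k + 1 + e := by omega
      have e2 : k + 1 - 1 = k := by omega
      rw [e1] at h1 c2
      rw [e2] at h1
      nlinarith
    -- the second orbital
    have hdisj : Disjoint (Nout G a b a) (Nout G a' b' a) := by
      rw [Finset.disjoint_left]
      intro v hv hv'
      exact hne ((mem_Nout.1 hv).trans (mem_Nout.1 hv').inv)
    have hd' : (Nout G a' b' a').card + (Nout G a b a).card + 1 ≤ Fintype.card Ω := by
      rw [card_Nout a' b' a' a]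
      have hnot : a ∉ Nout G a b a ∪ Nout G a' b' a := by
        rw [Finset.mem_union, not_or]
        exact ⟨not_mem_Nout_self hab, not_mem_Nout_self hab'⟩
      have h1 := Finset.card_le_univ (insert a (Nout G a b a ∪ Nout G a' b' a))
      rw [Finset.card_insert_of_notMem hnot, Finset.card_union_of_disjoint hdisj] at h1
      omega
    have c1' := count_one (G := G) hab'
    have hk2 : Dn G a' b' ≤ 2 * Dn G a b := hall a' b'
    have hk0 : 0 < Dn G a' b' := Finset.card_pos.2 ⟨a', left_mem_Dset hab'⟩
    obtain ⟨k, hk'⟩ : ∃ k, Dn G a b = k + 1 := ⟨Dn G a b - 1, by omega⟩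
    obtain ⟨k', hk''⟩ : ∃ k', Dn G a' b' = k' + 1 := ⟨Dn G a' b' - 1, by omega⟩
    rw [hk'] at hcomp hk2 ⊢
    rw [hk''] at c1' hk2
    have hd2 : (Nout G a' b' a').card ≤ 2 * k := by omega
    have h5 : (Nout G a' b' a').card * k' ≤ (2 * k) * (2 * k + 1) :=
      Nat.mul_le_mul hd2 (by omega)
    nlinarith

end primitive

end Cfsg.Agent.Lib.Helper76.MD
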