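import Mathlib
import Cfsg.Agent.Lib.Helper76.MinDegA

/-!
# Minimal degree of primitive groups: the doubly transitive case and assembly
(helper76, for S5713)
-/

set_option autoImplicit false
set_option linter.unusedSectionVars false
set_option linter.unusedVariables false

namespace Cfsg.Agent.Lib.Helper76.MD

open MulAction
open Classical

variable {G Ω : Type*} [Group G] [MulAction G Ω]

/-- if the supports of `g` and `h` meet exactly in `x`, their commutator is a 3-cycle -/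
theorem comm_three {g h : G} {x : Ω} (hg : g • x ≠ x) (hh : h • x ≠ x)
    (hS : ∀ y, y ≠ x → g • y ≠ y → h • y = y) :
    (g * h * g⁻¹ * h⁻¹) • x = g • x ∧ (g * h * g⁻¹ * h⁻¹) • (g • x) = h • x ∧
    (g * h * g⁻¹ * h⁻¹) • (h • x) = x ∧
    (∀ y, y ≠ x → y ≠ g • x → y ≠ h • x → (g * h * g⁻¹ * h⁻¹) • y = y) ∧ g • x ≠ h • x := by
  have hS' : ∀ y, y ≠ x → h • y ≠ y → g • y = y := fun y hy hhy => by
    by_contra hgy
    exact hhy (hS y hy hgy)
  have ginv : ∀ y : Ω, g • y = y → g⁻¹ • y = y := fun y hy => by rw [inv_smul_eq_iff, hy]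
  have hinv : ∀ y : Ω, h • y = y → h⁻¹ • y = y := fun y hy => by rw [inv_smul_eq_iff, hy]
  have e : ∀ y : Ω, (g * h * g⁻¹ * h⁻¹) • y = g • h • g⁻¹ • h⁻¹ • y := fun y => by
    simp only [mul_smul]
  -- `h` fixes `g x`, `g` fixes `h x`
  have hgx : h • (g • x) = g • x :=
    hS (g • x) hg (fun e' => hg (MulAction.injective g e'))
  have ghx : g • (h • x) = h • x :=
    hS' (h • x) hh (fun e' => hh (MulAction.injective h e'))
  refine ⟨?_, ?_, ?_, ?_, ?_⟩
  · -- c x = g x
    have ht : h⁻¹ • x ≠ x := fun e' => hh (by rw [inv_smul_eq_iff] at e'; exact e'.symm)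
    have hht : h • (h⁻¹ • x) = x := smul_inv_smul h x
    have hmv : h • (h⁻¹ • x) ≠ h⁻¹ • x := by rw [hht]; exact fun e' => ht e'.symm
    have gt : g • (h⁻¹ • x) = h⁻¹ • x := hS' _ ht hmv
    rw [e, ginv _ gt, hht]
  · -- c (g x) = h x
    rw [e, hinv _ hgx, inv_smul_smul, ghx]
  · -- c (h x) = x
    have hs : g⁻¹ • x ≠ x := fun e' => hg (by rw [inv_smul_eq_iff] at e'; exact e'.symm)
    have gs : g • (g⁻¹ • x) = x := smul_inv_smul g x
    have hmv : g • (g⁻¹ • x) ≠ g⁻¹ • x := by rw [gs]; exact fun e' => hs e'.symm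
    have hs' : h • (g⁻¹ • x) = g⁻¹ • x := hS _ hs hmv
    rw [e, inv_smul_smul, hs', gs]
  · intro y hyx hyg hyh
    rw [e]
    by_cases hy : h • y = y
    · rw [hinv y hy]
      by_cases gy : g • y = y
      · rw [ginv y gy, hy, gy]
      · have hv : g⁻¹ • y ≠ x := fun e' => hyg (by rw [inv_smul_eq_iff] at e'; exact e')
        have gv : g • (g⁻¹ • y) = y := smul_inv_smul g y
        have hmv : g • (g⁻¹ • y) ≠ g⁻¹ • y := by
          rw [gv]; intro e'
          exact gy (eq_inv_smul_iff.1 e')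
        rw [hS _ hv hmv, gv]
    · have gy : g • y = y := hS' y hyx hy
      have hu : h⁻¹ • y ≠ x := fun e' => hyh (by rw [inv_smul_eq_iff] at e'; exact e')
      have hhu : h • (h⁻¹ • y) = y := smul_inv_smul h y
      have hmv : h • (h⁻¹ • y) ≠ h⁻¹ • y := by
        rw [hhu]; intro e'
        exact hy (eq_inv_smul_iff.1 e')
      rw [ginv _ (hS' _ hu hmv), hhu, gy]
  · intro e'
    rw [e'] at hgx
    exact hh (MulAction.injective h hgx)

variable [Fintype Ω]

/-- in a doubly transitive group a small set can be moved off itself fixing one point -/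
theorem exists_sigma [Fintype G] (hTT : ∀ a b a' b' : Ω, a ≠ b → a' ≠ b' → Rel G a b a' b')
    (S : Finset Ω) {x : Ω} (hxS : x ∈ S) (hn : (S.card - 1) ^ 2 + 1 < Fintype.card Ω) :
    ∃ σ : G, σ • x = x ∧ ∀ y ∈ S, y ≠ x → σ • y ∉ S := by
  have hn1 : 1 < Fintype.card Ω := by omega
  obtain ⟨y₀, hy₀⟩ := Fintype.exists_ne_of_one_lt_card hn1 x
  let Gx : Finset G := Finset.univ.filter (fun σ : G => σ • x = x)
  have hGx : ∀ σ, σ ∈ Gx ↔ σ • x = x := fun σ => by simp [Gx]
  let cnt : Ω → Ω → ℕ := fun y y' => (Gx.filter (fun σ => σ • y = y')).card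
  have hcnt : ∀ y y' y₁ y₁', y ≠ x → y' ≠ x → y₁ ≠ x → y₁' ≠ x → cnt y y' ≤ cnt y₁ y₁' := by
    intro y y' y₁ y₁' hy hy' hy₁ hy₁'
    obtain ⟨α, αx, αy⟩ := hTT x y₁ x y (Ne.symm hy₁) (Ne.symm hy)
    obtain ⟨β, βx, βy⟩ := hTT x y' x y₁' (Ne.symm hy') (Ne.symm hy₁')
    refine Finset.card_le_card_of_injOn (fun σ => β * σ * α) ?_ ?_
    · intro σ hσ
      rw [Finset.mem_coe, Finset.mem_filter, hGx] at hσ
      rw [Finset.mem_coe, Finset.mem_filter, hGx]
      refine ⟨?_, ?_⟩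
      · rw [mul_smul, mul_smul, αx, hσ.1, βx]
      · rw [mul_smul, mul_smul, αy, hσ.2, βy]
    · intro σ _ σ' _ e
      exact mul_left_cancel (mul_right_cancel e)
  have hc : ∀ y y', y ≠ x → y' ≠ x → cnt y y' = cnt y₀ y₀ := fun y y' hy hy' =>
    le_antisymm (hcnt y y' y₀ y₀ hy hy' hy₀ hy₀) (hcnt y₀ y₀ y y' hy₀ hy₀ hy hy')
  have hsum : Gx.card = (Fintype.card Ω - 1) * cnt y₀ y₀ := by
    have h1 := Finset.card_eq_sum_card_fiberwise (f := fun σ : G => σ • y₀) (s := Gx)
      (t := Finset.univ.erase x) (fun σ hσ => by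
        have hσ' : σ • x = x := (hGx σ).1 hσ
        rw [Finset.mem_coe, Finset.mem_erase]
        exact ⟨fun e => hy₀ (MulAction.injective σ (e.trans hσ'.symm)), Finset.mem_univ _⟩)
    rw [h1, Finset.sum_congr rfl (fun y' hy' => hc y₀ y' hy₀ (Finset.ne_of_mem_erase hy')),
      Finset.sum_const, smul_eq_mul, Finset.card_erase_of_mem (Finset.mem_univ x),
      Finset.card_univ]
  have hGpos : 0 < Gx.card := Finset.card_pos.2 ⟨1, (hGx 1).2 (one_smul _ _)⟩
  have hc0 : 0 < cnt y₀ y₀ := by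
    rcases Nat.eq_zero_or_pos (cnt y₀ y₀) with h | h
    · rw [h, mul_zero] at hsum; omega
    · exact h
  let Bad : Finset G := Gx.filter (fun σ => ∃ y ∈ S.erase x, σ • y ∈ S.erase x)
  have hBad : Bad.card ≤ (S.card - 1) * ((S.card - 1) * cnt y₀ y₀) := by
    have hsub : Bad ⊆ (S.erase x).biUnion (fun y => (S.erase x).biUnion
        (fun y' => Gx.filter (fun σ => σ • y = y'))) := by
      intro σ hσ
      simp only [Bad, Finset.mem_filter] at hσ
      obtain ⟨hσG, y, hy, hy'⟩ := hσ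
      simp only [Finset.mem_biUnion, Finset.mem_filter]
      exact ⟨y, hy, σ • y, hy', hσG, rfl⟩
    refine (Finset.card_le_card hsub).trans (Finset.card_biUnion_le.trans ?_)
    have h1 : ∀ y ∈ S.erase x, ((S.erase x).biUnion
        (fun y' => Gx.filter (fun σ => σ • y = y'))).card ≤ (S.card - 1) * cnt y₀ y₀ := by
      intro y hy
      refine Finset.card_biUnion_le.trans ?_
      rw [Finset.sum_congr rfl (fun y' hy' =>
        hc y y' (Finset.ne_of_mem_erase hy) (Finset.ne_of_mem_erase hy')),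
        Finset.sum_const, smul_eq_mul, Finset.card_erase_of_mem hxS]
    refine (Finset.sum_le_sum h1).trans ?_
    rw [Finset.sum_const, smul_eq_mul, Finset.card_erase_of_mem hxS]
  have hlt : Bad.card < Gx.card := by
    rw [hsum]
    refine lt_of_le_of_lt hBad ?_
    rw [← mul_assoc]
    apply Nat.mul_lt_mul_of_pos_right _ hc0
    have : (S.card - 1) * (S.card - 1) = (S.card - 1) ^ 2 := by ring
    omega
  obtain ⟨σ, hσG, hσB⟩ := Finset.exists_mem_notMem_of_card_lt_card hlt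
  have hσx : σ • x = x := (hGx σ).1 hσG
  refine ⟨σ, hσx, fun y hy hyx hσy => hσB ?_⟩
  simp only [Bad, Finset.mem_filter]
  refine ⟨hσG, y, Finset.mem_erase.2 ⟨hyx, hy⟩, Finset.mem_erase.2 ⟨?_, hσy⟩⟩
  intro e
  exact hyx (MulAction.injective σ (e.trans hσx.symm))

/-- a doubly transitive group with an element of small support contains a 3-cycle -/
theorem three_cycle_of_tt [Fintype G]
    (hTT : ∀ a b a' b' : Ω, a ≠ b → a' ≠ b' → Rel G a b a' b') (g : G) {x : Ω}
    (hx : g • x ≠ x)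
    (hn : ((Finset.univ.filter (fun z : Ω => g • z ≠ z)).card - 1) ^ 2 + 1 < Fintype.card Ω) :
    ∃ c : G, ∃ p q r : Ω, p ≠ q ∧ p ≠ r ∧ q ≠ r ∧ c • p = q ∧ c • q = r ∧ c • r = p ∧
      ∀ y, y ≠ p → y ≠ q → y ≠ r → c • y = y := by
  have hmem : ∀ z : Ω, z ∈ Finset.univ.filter (fun z : Ω => g • z ≠ z) ↔ g • z ≠ z := fun z => by
    simp
  obtain ⟨σ, hσx, hσ⟩ := exists_sigma hTT _ ((hmem x).2 hx) hn
  have hσi : σ⁻¹ • x = x := by rw [inv_smul_eq_iff, hσx]
  have hh : (σ * g * σ⁻¹) • x ≠ x := by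
    rw [mul_smul, mul_smul, hσi]
    intro e
    exact hx (MulAction.injective σ (e.trans hσx.symm))
  have hS : ∀ y, y ≠ x → g • y ≠ y → (σ * g * σ⁻¹) • y = y := by
    intro y hyx hgy
    by_contra hcon
    have hw : g • (σ⁻¹ • y) ≠ σ⁻¹ • y := by
      intro e
      apply hcon
      rw [mul_smul, mul_smul, e, smul_inv_smul]
    have hwx : σ⁻¹ • y ≠ x := by
      intro e
      rw [inv_smul_eq_iff, hσx] at e
      exact hyx e
    have := hσ _ ((hmem _).2 hw) hwx
    rw [smul_inv_smul] at this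
    exact this ((hmem y).2 hgy)
  obtain ⟨c1, c2, c3, c4, c5⟩ := comm_three hx hh hS
  exact ⟨g * (σ * g * σ⁻¹) * g⁻¹ * (σ * g * σ⁻¹)⁻¹, x, g • x, (σ * g * σ⁻¹) • x,
    fun e => hx e.symm, fun e => hh e.symm, c5, c1, c2, c3, c4⟩

/-- the bound in the case of a primitive group that is not doubly transitive -/
theorem card_le_of_not_tt [IsPreprimitive G Ω] {a b a' b' : Ω} (hab : a ≠ b) (hab' : a' ≠ b')
    (hne : ¬ Rel G a b a' b') (g : G) {x : Ω} (hx : g • x ≠ x) :
    Fintype.card Ω ≤ 4 * (Finset.univ.filter (fun z : Ω => g • z ≠ z)).card ^ 2 := by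
  have hxy : x ≠ g • x := fun e => hx e.symm
  have h1 : Fintype.card Ω ≤ 4 * Dn G x (g • x) ^ 2 := by
    by_cases h : Rel G x (g • x) a b
    · have h' : ¬ Rel G x (g • x) a' b' := fun h2 => hne (h.inv.trans h2)
      exact card_le_four_mul_sq hxy hab' h'
    · exact card_le_four_mul_sq hxy hab h
  have h2 := Dn_le_moved g x
  calc Fintype.card Ω ≤ 4 * Dn G x (g • x) ^ 2 := h1
    _ ≤ _ := Nat.mul_le_mul_left 4 (Nat.pow_le_pow_left h2 2)

/-- the set of points moved by `g` -/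
noncomputable def moved (Ω : Type*) {G : Type*} [Group G] [MulAction G Ω] [Fintype Ω] (g : G) :
    Finset Ω := Finset.univ.filter (fun z : Ω => g • z ≠ z)

theorem card_fixed_add_moved (g : G) :
    Nat.card (MulAction.fixedBy Ω g) + (moved Ω g).card = Fintype.card Ω := by
  have h1 : Nat.card (MulAction.fixedBy Ω g) =
      (Finset.univ.filter (fun z : Ω => g • z = z)).card := by
    rw [Nat.card_eq_fintype_card, Fintype.card_subtype]
    congr 1
  rw [h1]
  have h2 := Finset.card_filter_add_card_filter_not (s := (Finset.univ : Finset Ω))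
    (fun z : Ω => g • z = z)
  rw [Finset.card_univ] at h2
  exact h2

/-- either the bound holds or the group contains a 3-cycle -/
theorem key_bound [Finite G] [IsPreprimitive G Ω] (g : G) {x : Ω} (hx : g • x ≠ x) :
    Fintype.card Ω ≤ (2 * (moved Ω g).card + 1) ^ 2 ∨
    ∃ c : G, ∃ p q r : Ω, p ≠ q ∧ p ≠ r ∧ q ≠ r ∧ c • p = q ∧ c • q = r ∧ c • r = p ∧
      ∀ y, y ≠ p → y ≠ q → y ≠ r → c • y = y := by
  have hfG := Fintype.ofFinite G
  have e1 : (2 * (moved Ω g).card + 1) ^ 2 = 4 * (moved Ω g).card ^ 2 + 4 * (moved Ω g).card + 1 := by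
    ring
  by_cases hTT : ∀ a b a' b' : Ω, a ≠ b → a' ≠ b' → Rel G a b a' b'
  · by_cases hcon : Fintype.card Ω ≤ (2 * (moved Ω g).card + 1) ^ 2
    · exact Or.inl hcon
    · right
      push Not at hcon
      have hn : ((moved Ω g).card - 1) ^ 2 + 1 < Fintype.card Ω := by
        have h1 : ((moved Ω g).card - 1) ^ 2 ≤ (moved Ω g).card ^ 2 :=
          Nat.pow_le_pow_left (Nat.sub_le _ _) 2
        rw [e1] at hcon
        omega
      exact three_cycle_of_tt hTT g hx hn
  · left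
    push Not at hTT
    obtain ⟨a, b, a', b', hab, hab', hne⟩ := hTT
    have h1 : Fintype.card Ω ≤ 4 * (moved Ω g).card ^ 2 := card_le_of_not_tt hab hab' hne g hx
    rw [e1]
    omega

theorem real_bound (g : G) (key : Fintype.card Ω ≤ (2 * (moved Ω g).card + 1) ^ 2) :
    (Real.sqrt (Fintype.card Ω) - 1) / 2 ≤
      (Fintype.card Ω : ℝ) - Nat.card (MulAction.fixedBy Ω g) := by
  have hfix := card_fixed_add_moved (Ω := Ω) g
  have h1 : (Fintype.card Ω : ℝ) ≤ (2 * ((moved Ω g).card : ℝ) + 1) ^ 2 := by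
    exact_mod_cast key
  have h2 : Real.sqrt (Fintype.card Ω) ≤ 2 * ((moved Ω g).card : ℝ) + 1 := by
    calc Real.sqrt (Fintype.card Ω)
        ≤ Real.sqrt ((2 * ((moved Ω g).card : ℝ) + 1) ^ 2) := Real.sqrt_le_sqrt h1
      _ = 2 * ((moved Ω g).card : ℝ) + 1 := Real.sqrt_sq (by positivity)
  have h3 : (Fintype.card Ω : ℝ) = (Nat.card (MulAction.fixedBy Ω g) : ℝ) +
      ((moved Ω g).card : ℝ) := by
    exact_mod_cast hfix.symm
  linarith

end Cfsg.Agent.Lib.Helper76.MD
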