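import Mathlib
import Cfsg.Agent.S4304
import Cfsg.Agent.Lib.Helper23.Syl
import Cfsg.Agent.Lib.Helper76.N22Count

set_option autoImplicit false
set_option linter.unusedSectionVars false
set_option linter.style.haveILetI false

/-! Minimal counterexample to `n_3 ≠ 22`: basic reductions (used for S4346). -/

namespace Cfsg.Agent.Lib.Helper76.N22

open Subgroup

universe u

/-- a minimal counterexample: a group with exactly `22` Sylow `3`-subgroups, all smaller
groups having a different number -/
structure MinCex (G : Type u) [Group G] [Finite G] : Prop where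
  h22 : Nat.card (Sylow 3 G) = 22
  hmin : ∀ (K : Type u) [Group K] [Finite K], Nat.card K < Nat.card G →
      Nat.card (Sylow 3 K) ≠ 22

section main
variable {G : Type u} [Group G] [Finite G]

theorem sup_eq_top_of_normal (hG : MinCex G)
    (M : Subgroup G) [M.Normal] (hM : M ≠ ⊥) (P : Sylow 3 G) : (P : Subgroup G) ⊔ M = ⊤ := by
  have h22 := hG.h22
  have hf : Function.Surjective (QuotientGroup.mk' M) := QuotientGroup.mk'_surjective M
  have hdvd := S4304.card_sylow_quotient_dvd 3 M
  rw [h22] at hdvd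
  have hmod : Nat.card (Sylow 3 (G ⧸ M)) % 3 = 1 := card_sylow_modEq_one 3 (G ⧸ M)
  have hlt : Nat.card (G ⧸ M) < Nat.card G := by
    rw [Subgroup.card_eq_card_quotient_mul_card_subgroup M]
    have h1 : 1 < Nat.card M := by
      rw [Subgroup.one_lt_card_iff_ne_bot]; exact hM
    have h2 : 0 < Nat.card (G ⧸ M) := Nat.card_pos
    nlinarith
  have hne := hG.hmin (G ⧸ M) hlt
  have h1 : Nat.card (Sylow 3 (G ⧸ M)) = 1 := by
    have hle : Nat.card (Sylow 3 (G ⧸ M)) ≤ 22 := Nat.le_of_dvd (by norm_num) hdvd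
    generalize Nat.card (Sylow 3 (G ⧸ M)) = k at *
    interval_cases k <;> omega
  have hsub : Subsingleton (Sylow 3 (G ⧸ M)) := (Nat.card_eq_one_iff_unique.mp h1).1
  have hall : ∀ Q : Sylow 3 G, (Q : Subgroup G) ≤ (P : Subgroup G) ⊔ M := by
    intro Q
    have h2 : Sylow.mapSurjective hf Q = Sylow.mapSurjective hf P := Subsingleton.elim _ _
    have h3 : (Q : Subgroup G).map (QuotientGroup.mk' M) =
        (P : Subgroup G).map (QuotientGroup.mk' M) := by
      have := congrArg (fun S : Sylow 3 (G ⧸ M) => (S : Subgroup (G ⧸ M))) h2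
      simpa [Sylow.coe_mapSurjective] using this
    calc (Q : Subgroup G)
        ≤ ((Q : Subgroup G).map (QuotientGroup.mk' M)).comap (QuotientGroup.mk' M) :=
          Subgroup.le_comap_map _ _
      _ = ((P : Subgroup G).map (QuotientGroup.mk' M)).comap (QuotientGroup.mk' M) := by rw [h3]
      _ = (P : Subgroup G) ⊔ M := by rw [Subgroup.comap_map_eq, QuotientGroup.ker_mk']
  have hL := S4304.card_sylow_of_forall_le 3 _ hall
  rw [h22] at hL
  by_contra hne'
  have hlt2 : Nat.card ((P : Subgroup G) ⊔ M : Subgroup G) < Nat.card G := by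
    refine lt_of_le_of_ne (Subgroup.card_le_card_group _) ?_
    intro h
    exact hne' ((Subgroup.card_eq_iff_eq_top _).mp h)
  exact hG.hmin _ hlt2 hL

theorem stabilizer_eq (P Q : Sylow 3 G) : MulAction.stabilizer (P : Subgroup G) Q =
      ((P : Subgroup G) ⊓ Q).subgroupOf P := by
  ext x
  rw [MulAction.mem_stabilizer_iff, Subgroup.mem_subgroupOf, Subgroup.smul_def,
    Sylow.smul_eq_iff_mem_normalizer, ← IsPGroup.inf_normalizer_sylow P.2 Q]
  constructor
  · intro h; exact ⟨x.2, h⟩
  · intro h; exact h.2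

theorem orbit_cases (hG : MinCex G) (P Q : Sylow 3 G) (hPQ : P ≠ Q) :
    P ∉ MulAction.orbit (P : Subgroup G) Q ∧
    ((MulAction.orbit (P : Subgroup G) Q).ncard = 3 ∨
      (MulAction.orbit (P : Subgroup G) Q).ncard = 9) ∧
      ((P : Subgroup G) ⊓ Q).relIndex P = (MulAction.orbit (P : Subgroup G) Q).ncard := by
  have h22 := hG.h22
  have hstab := stabilizer_eq P Q
  have hidx : ((P : Subgroup G) ⊓ Q).relIndex P = (MulAction.orbit (P : Subgroup G) Q).ncard := by
    rw [Subgroup.relIndex, ← hstab, MulAction.index_stabilizer]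
  have hnotmem : P ∉ MulAction.orbit (P : Subgroup G) Q := by
    rintro ⟨x, hx⟩
    apply hPQ
    have h1 : (x : G)⁻¹ • P = P := by
      rw [Sylow.smul_eq_iff_mem_normalizer]
      exact Subgroup.le_normalizer (inv_mem x.2)
    have h2 : (x : G) • Q = P := hx
    calc P = (x : G)⁻¹ • P := h1.symm
      _ = (x : G)⁻¹ • ((x : G) • Q) := by rw [h2]
      _ = Q := inv_smul_smul _ _
  obtain ⟨n, hn⟩ := IsPGroup.card_orbit P.2 Q
  rw [Nat.card_coe_set_eq] at hn
  have hle : (MulAction.orbit (P : Subgroup G) Q).ncard + 1 ≤ 22 := by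
    rw [← Set.ncard_insert_of_notMem hnotmem (Set.toFinite _), ← h22]
    exact Set.ncard_le_card _
  have hne1 : (MulAction.orbit (P : Subgroup G) Q).ncard ≠ 1 := by
    intro h1
    rw [← hidx, Subgroup.relIndex_eq_one] at h1
    exact hPQ (S4304.sylow_eq_of_le (h1.trans inf_le_right))
  have h3 : (MulAction.orbit (P : Subgroup G) Q).ncard = 3 ∨
      (MulAction.orbit (P : Subgroup G) Q).ncard = 9 := by
    rw [hn] at hle hne1 ⊢
    rcases n with _ | _ | _ | n
    · simp at hne1
    · left; simp
    · right; norm_num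
    · have : 3 ^ 3 ≤ 3 ^ (n + 1 + 1 + 1) := Nat.pow_le_pow_right (by norm_num) (by omega)
      omega
  exact ⟨hnotmem, h3, hidx⟩

theorem card_inf_mul (hG : MinCex G) (P Q : Sylow 3 G) (hPQ : P ≠ Q) :
    Nat.card ((P : Subgroup G) ⊓ Q : Subgroup G) * 3 = Nat.card (P : Subgroup G) ∨
    Nat.card ((P : Subgroup G) ⊓ Q : Subgroup G) * 9 = Nat.card (P : Subgroup G) := by
  have h := S4304.card_mul_relIndex_of_le (inf_le_left : (P : Subgroup G) ⊓ Q ≤ P)
  obtain ⟨-, h3, hidx⟩ := orbit_cases hG P Q hPQ
  rw [hidx] at h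
  rcases h3 with h3 | h3
  · left; rwa [h3] at h
  · right; rwa [h3] at h

theorem eq_one_of_forall_smul (hG : MinCex G)
    (g : G) (hg : ∀ Q : Sylow 3 G, g • Q = Q) : g = 1 := by
  have h22 := hG.h22
  have hmem : ∀ k : G, k ∈ (MulAction.toPermHom G (Sylow 3 G)).ker ↔
      ∀ Q : Sylow 3 G, k • Q = Q := by
    intro k
    rw [MonoidHom.mem_ker, Equiv.Perm.ext_iff]
    rfl
  by_contra hg1
  have hK : (MulAction.toPermHom G (Sylow 3 G)).ker ≠ ⊥ := by
    intro hbot
    have : g ∈ (MulAction.toPermHom G (Sylow 3 G)).ker := (hmem g).mpr hg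
    rw [hbot, Subgroup.mem_bot] at this
    exact hg1 this
  obtain ⟨P⟩ : Nonempty (Sylow 3 G) := inferInstance
  have htop := sup_eq_top_of_normal hG _ hK P
  have hle : (P : Subgroup G) ⊔ (MulAction.toPermHom G (Sylow 3 G)).ker ≤ normalizer (P : Set G) := by
    refine sup_le Subgroup.le_normalizer ?_
    intro k hk
    exact Sylow.smul_eq_iff_mem_normalizer.mp ((hmem k).mp hk P)
  rw [htop] at hle
  have hidx := Sylow.card_eq_index_normalizer P
  rw [top_le_iff.mp hle, Subgroup.index_top, h22] at hidx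
  omega

theorem normalCore_eq_bot (hG : MinCex G) (P : Sylow 3 G) :
    (P : Subgroup G).normalCore = ⊥ := by
  have h22 := hG.h22
  by_contra hne
  have h1 := sup_eq_top_of_normal hG (P : Subgroup G).normalCore hne P
  rw [sup_eq_left.mpr (Subgroup.normalCore_le _)] at h1
  have hsub : ∀ Q : Sylow 3 G, Q = P := by
    intro Q
    apply S4304.sylow_eq_of_le
    rw [h1]
    exact le_top
  have : Nat.card (Sylow 3 G) ≤ 1 := by
    haveI : Subsingleton (Sylow 3 G) := ⟨fun a b => (hsub a).trans (hsub b).symm⟩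
    exact Finite.card_le_one_iff_subsingleton.mpr inferInstance
  omega

theorem card_mul_eq (hG : MinCex G) (P : Sylow 3 G) :
    Nat.card (normalizer ((P : Subgroup G) : Set G)) * 22 = Nat.card G := by
  have hN := Cfsg.Agent.Lib.Helper23.card_normalizer_sylow_mul P
  rwa [hG.h22] at hN

theorem twentytwo_dvd_card (hG : MinCex G) : 22 ∣ Nat.card G := by
  obtain ⟨P⟩ : Nonempty (Sylow 3 G) := inferInstance
  exact ⟨_, by rw [← card_mul_eq hG P, mul_comm]⟩

/-- every element acts on the Sylow 3-subgroups as an even permutation; hence an involution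
has a number of fixed points congruent to `2` mod `4` -/
theorem fix_mod_four (hG : MinCex G)
    (w : G) (hw1 : w ≠ 1) (hw2 : w ^ 2 = 1) :
    (MulAction.fixedBy (Sylow 3 G) w).ncard % 4 = 2 := by
  classical
  have h22 := hG.h22
  haveI : Fintype (Sylow 3 G) := Fintype.ofFinite _
  have hker : (Equiv.Perm.sign.comp (MulAction.toPermHom G (Sylow 3 G))).ker = ⊤ := by
    obtain ⟨P⟩ : Nonempty (Sylow 3 G) := inferInstance
    have hne : (Equiv.Perm.sign.comp (MulAction.toPermHom G (Sylow 3 G))).ker ≠ ⊥ := by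
      intro hb
      have hinj : Function.Injective (Equiv.Perm.sign.comp (MulAction.toPermHom G (Sylow 3 G))) :=
        (MonoidHom.ker_eq_bot_iff _).mp hb
      have h1 := Nat.card_le_card_of_injective _ hinj
      rw [Nat.card_eq_fintype_card (α := ℤˣ), Fintype.card_units_int] at h1
      have h2 := Nat.le_of_dvd Nat.card_pos (twentytwo_dvd_card hG)
      omega
    have hsup := sup_eq_top_of_normal hG _ hne P
    have hle : (P : Subgroup G) ≤ (Equiv.Perm.sign.comp (MulAction.toPermHom G (Sylow 3 G))).ker := by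
      intro x hx
      rw [MonoidHom.mem_ker]
      obtain ⟨k, hk⟩ := P.2 ⟨x, hx⟩
      have h5 : x ^ 3 ^ k = 1 := by
        have := congrArg Subtype.val hk
        simpa using this
      have h6 : (Equiv.Perm.sign.comp (MulAction.toPermHom G (Sylow 3 G))) x ^ 3 ^ k = 1 := by
        rw [← map_pow, h5, map_one]
      rcases Int.units_eq_one_or ((Equiv.Perm.sign.comp (MulAction.toPermHom G (Sylow 3 G))) x)
        with h | h
      · exact h
      · rw [h] at h6
        have hodd : Odd (3 ^ k) := Odd.pow (by decide)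
        rw [hodd.neg_one_pow] at h6
        exact absurd h6 (by decide)
    rwa [sup_eq_right.mpr hle] at hsup
  have hsign : Equiv.Perm.sign (MulAction.toPermHom G (Sylow 3 G) w) = 1 := by
    have : w ∈ (Equiv.Perm.sign.comp (MulAction.toPermHom G (Sylow 3 G))).ker := by
      rw [hker]; trivial
    exact MonoidHom.mem_ker.mp this
  have hσ : ∀ Q, MulAction.toPermHom G (Sylow 3 G) w Q = w • Q := fun Q => rfl
  have hσ1 : MulAction.toPermHom G (Sylow 3 G) w ≠ 1 := by
    intro h
    apply hw1
    apply eq_one_of_forall_smul hG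
    intro Q
    rw [← hσ, h]
    rfl
  have hσ2 : (MulAction.toPermHom G (Sylow 3 G) w) ^ 2 = 1 := by
    rw [← map_pow, hw2, map_one]
  have hord : orderOf (MulAction.toPermHom G (Sylow 3 G) w) = 2 := orderOf_eq_prime hσ2 hσ1
  have hsupp : (MulAction.toPermHom G (Sylow 3 G) w).support.card +
      (MulAction.fixedBy (Sylow 3 G) w).ncard = 22 := by
    have h1 : (MulAction.fixedBy (Sylow 3 G) w).ncard =
        (Finset.univ.filter (fun Q : Sylow 3 G => w • Q = Q)).card := by
      rw [← Set.ncard_coe_finset]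
      congr 1
      ext Q
      simp [MulAction.mem_fixedBy]
    have h2 : (MulAction.toPermHom G (Sylow 3 G) w).support =
        Finset.univ.filter (fun Q : Sylow 3 G => ¬ w • Q = Q) := by
      ext Q
      simp [Equiv.Perm.mem_support]
    rw [h1, h2, add_comm, Finset.card_filter_add_card_filter_not, Finset.card_univ,
      ← Nat.card_eq_fintype_card, h22]
  obtain ⟨n, hn⟩ := Equiv.Perm.cycleType_prime_order
    (σ := MulAction.toPermHom G (Sylow 3 G) w) (by rw [hord]; norm_num)
  have hsum := Equiv.Perm.sum_cycleType (MulAction.toPermHom G (Sylow 3 G) w)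
  rw [hn, hord, Multiset.sum_replicate] at hsum
  rw [Equiv.Perm.sign_of_cycleType, hn, hord] at hsign
  simp only [Multiset.sum_replicate, Multiset.card_replicate, smul_eq_mul] at hsign hsum
  have heven : Even (n + 1) := by
    by_contra hodd
    rw [Nat.not_even_iff_odd] at hodd
    have h3 : Odd ((n + 1) * 2 + (n + 1)) := by
      obtain ⟨m, hm⟩ := hodd
      exact ⟨3 * m + 1, by omega⟩
    rw [h3.neg_one_pow] at hsign
    exact absurd hsign (by decide)
  obtain ⟨m, hm⟩ := heven
  omega

theorem fix_lt (hG : MinCex G) (y : G) (hy1 : y ≠ 1) :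
    (MulAction.fixedBy (Sylow 3 G) y).ncard < 22 := by
  have h22 := hG.h22
  by_contra hcon
  push Not at hcon
  apply hy1
  apply eq_one_of_forall_smul hG
  have huniv : MulAction.fixedBy (Sylow 3 G) y = Set.univ := by
    rw [Set.eq_univ_iff_ncard, h22]
    have := Set.ncard_le_card (MulAction.fixedBy (Sylow 3 G) y)
    rw [h22] at this
    omega
  intro Q
  have : Q ∈ MulAction.fixedBy (Sylow 3 G) y := by rw [huniv]; trivial
  exact this

/-- a `q`-element has as many fixed points as `22` mod `q` -/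
theorem fix_modEq_of_pow (hG : MinCex G) (q : ℕ) [Fact q.Prime] (y : G) (k : ℕ)
    (hy : y ^ q ^ k = 1) :
    (MulAction.fixedBy (Sylow 3 G) y).ncard % q = 22 % q := by
  have h := card_modEq_fixedBy_univ (Ω := Sylow 3 G) q y k hy
  rw [hG.h22] at h
  exact h.symm

end main

end Cfsg.Agent.Lib.Helper76.N22
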