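import Mathlib
import Cfsg.Agent.S4304
import Cfsg.Agent.Lib.Helper76.N22Red

set_option autoImplicit false
set_option linter.unusedSectionVars false
set_option linter.style.haveILetI false

/-! Minimal counterexample to `n_3 ≠ 22`: the Sylow 3-subgroups have order 3 (used for S4346).

Two Sylow subgroups are *adjacent* when their intersection has index `3`.  The Sylow subgroups
containing such an intersection form a *line*; lines are cliques, and a triangle of the
adjacency graph lies on a line.  A counting argument shows all pairs are adjacent, and then all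
intersections are trivial. -/

namespace Cfsg.Agent.Lib.Helper76.N22

open Subgroup

universe u

theorem ncard_offDiag {α : Type*} [Finite α] (L : Set α) :
    L.offDiag.ncard = L.ncard * L.ncard - L.ncard := by
  classical
  haveI : Fintype α := Fintype.ofFinite α
  have h1 : L.offDiag = (L.toFinset.offDiag : Set (α × α)) := by
    rw [Finset.coe_offDiag, Set.coe_toFinset]
  rw [h1, Set.ncard_coe_finset, Finset.offDiag_card, Set.ncard_eq_toFinset_card' L]

section geom
variable {G : Type u} [Group G] [Finite G]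

/-- adjacency of Sylow 3-subgroups: the intersection has index 3 -/
def Adj (P Q : Sylow 3 G) : Prop :=
  P ≠ Q ∧ Nat.card ((P : Subgroup G) ⊓ Q : Subgroup G) * 3 = Nat.card (P : Subgroup G)

/-- the Sylow 3-subgroups containing a given subgroup -/
def line (T : Subgroup G) : Set (Sylow 3 G) := {R | T ≤ (R : Subgroup G)}

theorem mem_line (T : Subgroup G) (R : Sylow 3 G) : R ∈ line T ↔ T ≤ (R : Subgroup G) := Iff.rfl

theorem Adj.symm {P Q : Sylow 3 G} (h : Adj P Q) : Adj Q P := by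
  refine ⟨h.1.symm, ?_⟩
  rw [inf_comm, ← S4304.sylow_card_eq P Q]
  exact h.2

theorem card_inf_le (hG : MinCex G) (P Q : Sylow 3 G) (hPQ : P ≠ Q) :
    Nat.card ((P : Subgroup G) ⊓ Q : Subgroup G) * 3 ≤ Nat.card (P : Subgroup G) := by
  rcases card_inf_mul hG P Q hPQ with h | h <;> omega

theorem adj_of_mem_line (hG : MinCex G) {P Q R R' : Sylow 3 G} (h : Adj P Q)
    (hR : R ∈ line ((P : Subgroup G) ⊓ Q)) (hR' : R' ∈ line ((P : Subgroup G) ⊓ Q))
    (hne : R ≠ R') :
    (R : Subgroup G) ⊓ R' = (P : Subgroup G) ⊓ Q ∧ Adj R R' := by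
  have hle : (P : Subgroup G) ⊓ Q ≤ (R : Subgroup G) ⊓ R' := le_inf hR hR'
  have hc := card_inf_le hG R R' hne
  have e1 := S4304.sylow_card_eq P R
  have heq : (P : Subgroup G) ⊓ Q = (R : Subgroup G) ⊓ R' := by
    apply Subgroup.eq_of_le_of_card_ge hle
    have := h.2
    omega
  refine ⟨heq.symm, hne, ?_⟩
  rw [← heq, h.2, e1]

theorem conj_mem_inf {P Q : Sylow 3 G} (h : Adj P Q) (x d : G) (hx : x ∈ (P : Subgroup G))
    (hd : d ∈ (P : Subgroup G) ⊓ Q) : x⁻¹ * d * x ∈ (P : Subgroup G) ⊓ Q := by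
  have hcard := h.2
  have hidx : ((P : Subgroup G) ⊓ Q).relIndex P = 3 := by
    have h1 := S4304.card_mul_relIndex_of_le (inf_le_left : (P : Subgroup G) ⊓ Q ≤ P)
    have hpos : 0 < Nat.card ((P : Subgroup G) ⊓ Q : Subgroup G) := Nat.card_pos
    rw [← hcard] at h1
    exact Nat.eq_of_mul_eq_mul_left hpos h1
  have hnorm : (((P : Subgroup G) ⊓ Q).subgroupOf P).Normal := by
    apply Subgroup.normal_of_index_eq_minFac_card
    have h1 : ((P : Subgroup G) ⊓ Q).relIndex P =
        (((P : Subgroup G) ⊓ Q).subgroupOf P).index := rfl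
    rw [← h1, hidx]
    obtain ⟨n, hn⟩ := (IsPGroup.iff_card.mp P.2)
    rw [hn]
    have hn0 : n ≠ 0 := by
      rintro rfl
      rw [hn] at hcard
      omega
    rw [Nat.Prime.pow_minFac (by norm_num) hn0]
  have := hnorm.conj_mem ⟨d, hd.1⟩ (Subgroup.mem_subgroupOf.mpr hd) ⟨x⁻¹, inv_mem hx⟩
  rw [Subgroup.mem_subgroupOf] at this
  simpa using this

/-- a triangle of the adjacency graph lies on a line -/
theorem adj_triangle (hG : MinCex G) {P Q R : Sylow 3 G} (hPR : Adj P R) (hPQ : Adj P Q)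
    (hRQ : Adj R Q) : (P : Subgroup G) ⊓ R ≤ Q := by
  by_contra hcon
  obtain ⟨x, hx, hxQ⟩ := SetLike.not_le_iff_exists.mp hcon
  have hQ' : x • Q ≠ Q := by
    intro h
    rw [Sylow.smul_eq_iff_mem_normalizer] at h
    have h2 : x ∈ (P : Subgroup G) ⊓ normalizer (Q : Set G) := ⟨hx.1, h⟩
    rw [IsPGroup.inf_normalizer_sylow P.2 Q] at h2
    exact hxQ h2.2
  have c1 := hPQ.2
  have c2 := card_inf_le hG Q (x • Q) hQ'.symm
  have c3 := hRQ.2
  have c4 := hPR.2
  have e1 := S4304.sylow_card_eq P Q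
  have e2 := S4304.sylow_card_eq P R
  have hD1 : (P : Subgroup G) ⊓ Q = (Q : Subgroup G) ⊓ (x • Q : Sylow 3 G) := by
    apply Subgroup.eq_of_le_of_card_ge
    · intro d hd
      refine Subgroup.mem_inf.mpr ⟨hd.2, ?_⟩
      rw [S4304.mem_smul_sylow]
      exact (conj_mem_inf hPQ x d hx.1 hd).2
    · omega
  have hE : (R : Subgroup G) ⊓ Q = (Q : Subgroup G) ⊓ (x • Q : Sylow 3 G) := by
    apply Subgroup.eq_of_le_of_card_ge
    · intro d hd
      refine Subgroup.mem_inf.mpr ⟨hd.2, ?_⟩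
      rw [S4304.mem_smul_sylow]
      exact (conj_mem_inf hRQ x d hx.2 hd).2
    · omega
  have hD2 : (P : Subgroup G) ⊓ Q = (P : Subgroup G) ⊓ R := by
    apply Subgroup.eq_of_le_of_card_ge
    · intro d hd
      refine Subgroup.mem_inf.mpr ⟨hd.1, ?_⟩
      have : d ∈ (R : Subgroup G) ⊓ Q := by rw [hE, ← hD1]; exact hd
      exact this.1
    · omega
  rw [← hD2] at hx
  exact hxQ hx.2

theorem line_card_mod {P Q : Sylow 3 G} (h : Adj P Q) :
    (line ((P : Subgroup G) ⊓ Q)).ncard % 3 = 1 := by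
  have hinv : ∀ x ∈ (P : Subgroup G), ∀ R ∈ line ((P : Subgroup G) ⊓ Q),
      x • R ∈ line ((P : Subgroup G) ⊓ Q) := by
    intro x hx R hR
    rw [mem_line] at hR ⊢
    intro d hd
    rw [S4304.mem_smul_sylow]
    exact hR (conj_mem_inf h x d hx hd)
  have hm := card_modEq_fixed 3 (P : Subgroup G) P.2 _ hinv
  have hset : {R | R ∈ line ((P : Subgroup G) ⊓ Q) ∧ ∀ x ∈ (P : Subgroup G), x • R = R}
      = {P} := by
    ext R
    rw [Set.mem_singleton_iff]
    constructor
    · rintro ⟨-, hfix⟩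
      have h1 : R ∈ MulAction.fixedPoints (P : Subgroup G) (Sylow 3 G) := fun x => hfix x x.2
      rw [P.2.sylow_mem_fixedPoints_iff] at h1
      exact (S4304.sylow_eq_of_le h1).symm
    · rintro rfl
      refine ⟨(mem_line _ _).mpr inf_le_left, fun x hx => ?_⟩
      rw [Sylow.smul_eq_iff_mem_normalizer]
      exact Subgroup.le_normalizer hx
  rw [hset, Set.ncard_singleton] at hm
  exact hm

theorem adj_iff_orbit (hG : MinCex G) (P Q : Sylow 3 G) (hPQ : P ≠ Q) :
    Adj P Q ↔ (MulAction.orbit (P : Subgroup G) Q).ncard = 3 := by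
  obtain ⟨-, h3, hidx⟩ := orbit_cases hG P Q hPQ
  have h := S4304.card_mul_relIndex_of_le (inf_le_left : (P : Subgroup G) ⊓ Q ≤ P)
  rw [hidx] at h
  have hpos : 0 < Nat.card ((P : Subgroup G) ⊓ Q : Subgroup G) := Nat.card_pos
  constructor
  · intro hA
    have := hA.2
    rcases h3 with h3 | h3
    · exact h3
    · rw [h3] at h; omega
  · intro h3'
    rw [h3'] at h
    exact ⟨hPQ, h⟩

theorem nine_dvd_nonadj (hG : MinCex G) (P : Sylow 3 G) :
    9 ∣ {Q : Sylow 3 G | Q ≠ P ∧ ¬ Adj P Q}.ncard := by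
  have key := ncard_eq_mul_of_fibers {Q : Sylow 3 G | Q ≠ P ∧ ¬ Adj P Q}
    (fun Q => MulAction.orbit (P : Subgroup G) Q) 9 ?_
  · exact ⟨_, key⟩
  · rintro Q ⟨hQP, hQ⟩
    have h9 : (MulAction.orbit (P : Subgroup G) Q).ncard = 9 := by
      obtain ⟨-, h3, -⟩ := orbit_cases hG P Q hQP.symm
      rcases h3 with h3 | h3
      · exact absurd ((adj_iff_orbit hG P Q hQP.symm).mpr h3) hQ
      · exact h3
    rw [← h9]
    congr 1
    ext Q'
    constructor
    · rintro ⟨-, h⟩
      exact MulAction.orbit_eq_iff.mp h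
    · intro hQ'
      have horb : MulAction.orbit (P : Subgroup G) Q' = MulAction.orbit (P : Subgroup G) Q :=
        MulAction.orbit_eq_iff.mpr hQ'
      have hQ'P : Q' ≠ P := by
        rintro rfl
        exact (orbit_cases hG Q' Q hQP.symm).1 hQ'
      refine ⟨⟨hQ'P, ?_⟩, horb⟩
      intro hA
      have := (adj_iff_orbit hG P Q' hQ'P.symm).mp hA
      rw [horb, h9] at this
      omega

theorem card_adj_add (hG : MinCex G) (P : Sylow 3 G) :
    {Q : Sylow 3 G | Adj P Q}.ncard + {Q : Sylow 3 G | Q ≠ P ∧ ¬ Adj P Q}.ncard = 21 := by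
  have hdisj : Disjoint {Q : Sylow 3 G | Adj P Q} {Q : Sylow 3 G | Q ≠ P ∧ ¬ Adj P Q} := by
    rw [Set.disjoint_left]
    intro Q h1 h2
    exact h2.2 h1
  have hunion : {Q : Sylow 3 G | Adj P Q} ∪ {Q : Sylow 3 G | Q ≠ P ∧ ¬ Adj P Q} = {P}ᶜ := by
    ext Q
    rw [Set.mem_union, Set.mem_compl_iff, Set.mem_singleton_iff]
    constructor
    · rintro (h | h)
      · exact fun hq => h.1 hq.symm
      · exact h.1
    · intro hQ
      by_cases hA : Adj P Q
      · exact Or.inl hA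
      · exact Or.inr ⟨hQ, hA⟩
  rw [← Set.ncard_union_eq hdisj (Set.toFinite _) (Set.toFinite _), hunion, Set.ncard_compl,
    Set.ncard_singleton, hG.h22]

theorem deg_cases (hG : MinCex G) (P : Sylow 3 G) :
    ({Q : Sylow 3 G | Adj P Q}.ncard = 21 ∧ {Q : Sylow 3 G | Q ≠ P ∧ ¬ Adj P Q}.ncard = 0) ∨
    ({Q : Sylow 3 G | Adj P Q}.ncard = 12 ∧ {Q : Sylow 3 G | Q ≠ P ∧ ¬ Adj P Q}.ncard = 9) ∨
    ({Q : Sylow 3 G | Adj P Q}.ncard = 3 ∧ {Q : Sylow 3 G | Q ≠ P ∧ ¬ Adj P Q}.ncard = 18) := by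
  have h1 := card_adj_add hG P
  obtain ⟨j, hj⟩ := nine_dvd_nonadj hG P
  omega

theorem card_smul_inf (g : G) (P Q : Sylow 3 G) :
    Nat.card (((g • P : Sylow 3 G) : Subgroup G) ⊓ (g • Q : Sylow 3 G) : Subgroup G) =
      Nat.card ((P : Subgroup G) ⊓ Q : Subgroup G) := by
  have h : ((g • P : Sylow 3 G) : Subgroup G) ⊓ (g • Q : Sylow 3 G) =
      ((P : Subgroup G) ⊓ Q).map (MulAut.conj g).toMonoidHom := by
    ext d
    rw [Subgroup.mem_inf, S4304.mem_smul_sylow, S4304.mem_smul_sylow, Subgroup.mem_map]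
    constructor
    · intro h
      refine ⟨g⁻¹ * d * g, Subgroup.mem_inf.mpr h, ?_⟩
      simp only [MulEquiv.coe_toMonoidHom, MulAut.conj_apply]
      group
    · rintro ⟨e, he, rfl⟩
      simp only [MulEquiv.coe_toMonoidHom, MulAut.conj_apply]
      have : g⁻¹ * (g * e * g⁻¹) * g = e := by group
      rw [this]
      exact Subgroup.mem_inf.mp he
  rw [h, Subgroup.card_map_of_injective (MulAut.conj g).injective]

theorem adj_smul (g : G) {P Q : Sylow 3 G} (h : Adj P Q) : Adj (g • P) (g • Q) := by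
  refine ⟨fun he => h.1 (smul_left_cancel g he), ?_⟩
  rw [card_smul_inf, h.2, S4304.sylow_card_eq P (g • P)]

theorem line_smul (g : G) (P Q : Sylow 3 G) :
    line (((g • P : Sylow 3 G) : Subgroup G) ⊓ (g • Q : Sylow 3 G)) =
      (fun R => g • R) '' line ((P : Subgroup G) ⊓ Q) := by
  ext R
  constructor
  · intro hR
    rw [mem_line] at hR
    refine ⟨g⁻¹ • R, ?_, smul_inv_smul g R⟩
    rw [mem_line]
    intro d hd
    rw [S4304.mem_smul_sylow, inv_inv]
    apply hR
    rw [Subgroup.mem_inf, S4304.mem_smul_sylow, S4304.mem_smul_sylow]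
    have : g⁻¹ * (g * d * g⁻¹) * g = d := by group
    rw [this]
    exact Subgroup.mem_inf.mp hd
  · rintro ⟨R', hR', rfl⟩
    rw [mem_line] at hR' ⊢
    intro d hd
    rw [Subgroup.mem_inf, S4304.mem_smul_sylow, S4304.mem_smul_sylow] at hd
    rw [S4304.mem_smul_sylow]
    exact hR' (Subgroup.mem_inf.mpr hd)

theorem line_smul_ncard (g : G) (P Q : Sylow 3 G) :
    (line (((g • P : Sylow 3 G) : Subgroup G) ⊓ (g • Q : Sylow 3 G))).ncard =
      (line ((P : Subgroup G) ⊓ Q)).ncard := by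
  rw [line_smul, Set.ncard_image_of_injective _ (MulAction.injective g)]

theorem card_adj_eq (P P' : Sylow 3 G) :
    {Q : Sylow 3 G | Adj P Q}.ncard = {Q : Sylow 3 G | Adj P' Q}.ncard :=
  ncard_setOf_eq_of_invariant (Γ := G) (fun P Q : Sylow 3 G => Adj P Q)
    (fun g _ _ h => adj_smul g h) P P'

/-- the double count of pairs of adjacent points on lines of size `s` -/
theorem line_count (hG : MinCex G) (s : ℕ) (P₀ : Sylow 3 G) :
    (s * s - s) ∣ 22 * {Q : Sylow 3 G | Adj P₀ Q ∧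
      (line ((P₀ : Subgroup G) ⊓ Q)).ncard = s}.ncard := by
  set c := {Q : Sylow 3 G | Adj P₀ Q ∧ (line ((P₀ : Subgroup G) ⊓ Q)).ncard = s}.ncard with hc
  have hconst : ∀ P : Sylow 3 G, {Q : Sylow 3 G | Adj P Q ∧
      (line ((P : Subgroup G) ⊓ Q)).ncard = s}.ncard = c := by
    intro P
    exact ncard_setOf_eq_of_invariant (Γ := G)
      (fun P Q : Sylow 3 G => Adj P Q ∧ (line ((P : Subgroup G) ⊓ Q)).ncard = s)
      (fun g P Q h => ⟨adj_smul g h.1, by rw [line_smul_ncard]; exact h.2⟩) P P₀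
  rcases Nat.eq_zero_or_pos c with h0 | hpos
  · rw [h0, mul_zero]; exact dvd_zero _
  let X : Set (Sylow 3 G × Sylow 3 G) :=
    {x | Adj x.1 x.2 ∧ (line ((x.1 : Subgroup G) ⊓ x.2)).ncard = s}
  have h1 : X.ncard = c * (Prod.fst '' X).ncard := by
    apply ncard_eq_mul_of_fibers
    rintro ⟨P, Q⟩ -
    have himg := Set.ncard_image_of_injective {Q : Sylow 3 G | Adj P Q ∧
      (line ((P : Subgroup G) ⊓ Q)).ncard = s} (Prod.mk_right_injective (β := Sylow 3 G) P)
    rw [← hconst P, ← himg]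
    congr 1
    ext ⟨P', Q'⟩
    constructor
    · rintro ⟨hx, hP⟩
      have hP' : P' = P := hP
      subst hP'
      exact ⟨Q', hx, rfl⟩
    · rintro ⟨Q'', hQ'', heq⟩
      rw [Prod.mk.injEq] at heq
      obtain ⟨rfl, rfl⟩ := heq
      exact ⟨hQ'', rfl⟩
  have h2 : Prod.fst '' X = Set.univ := by
    rw [Set.eq_univ_iff_forall]
    intro P
    have hne : {Q : Sylow 3 G | Adj P Q ∧
        (line ((P : Subgroup G) ⊓ Q)).ncard = s}.Nonempty := by
      rw [← Set.ncard_pos, hconst P]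
      exact hpos
    obtain ⟨Q, hQ⟩ := hne
    exact ⟨(P, Q), hQ, rfl⟩
  have h3 : X.ncard = (s * s - s) *
      ((fun x : Sylow 3 G × Sylow 3 G => line ((x.1 : Subgroup G) ⊓ x.2)) '' X).ncard := by
    apply ncard_eq_mul_of_fibers
    rintro ⟨P, Q⟩ ⟨hA, hs⟩
    have hA' : Adj P Q := hA
    have hs' : (line ((P : Subgroup G) ⊓ Q)).ncard = s := hs
    rw [← hs', ← ncard_offDiag]
    congr 1
    ext ⟨P', Q'⟩
    constructor
    · rintro ⟨⟨hx1, -⟩, hx2⟩
      have hx1' : Adj P' Q' := hx1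
      have hx2' : line ((P' : Subgroup G) ⊓ Q') = line ((P : Subgroup G) ⊓ Q) := hx2
      refine ⟨?_, ?_, hx1'.1⟩
      · show P' ∈ line ((P : Subgroup G) ⊓ Q)
        rw [← hx2', mem_line]; exact inf_le_left
      · show Q' ∈ line ((P : Subgroup G) ⊓ Q)
        rw [← hx2', mem_line]; exact inf_le_right
    · rintro ⟨hP', hQ', hne⟩
      obtain ⟨heq, hadj⟩ := adj_of_mem_line hG hA' hP' hQ' hne
      have hl : line ((P' : Subgroup G) ⊓ Q') = line ((P : Subgroup G) ⊓ Q) := by rw [heq]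
      exact ⟨⟨hadj, by show (line ((P' : Subgroup G) ⊓ Q')).ncard = s; rw [hl]; exact hs'⟩, hl⟩
  rw [h2, Set.ncard_univ, hG.h22] at h1
  rw [mul_comm 22 c, ← h1, h3]
  exact dvd_mul_right _ _

theorem line_sub (hG : MinCex G) {P Q : Sylow 3 G} (h : Adj P Q) :
    line ((P : Subgroup G) ⊓ Q) ⊆ insert P {R : Sylow 3 G | Adj P R} := by
  intro R hR
  by_cases hRP : R = P
  · exact Or.inl hRP
  · right
    exact (adj_of_mem_line hG h ((mem_line _ _).mpr inf_le_left) hR (Ne.symm hRP)).2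

theorem line_bounds (hG : MinCex G) {P Q : Sylow 3 G} (h : Adj P Q) :
    (line ((P : Subgroup G) ⊓ Q)).ncard % 3 = 1 ∧ 2 ≤ (line ((P : Subgroup G) ⊓ Q)).ncard ∧
      (line ((P : Subgroup G) ⊓ Q)).ncard ≤ {R : Sylow 3 G | Adj P R}.ncard + 1 := by
  refine ⟨line_card_mod h, ?_, ?_⟩
  · have hsub : ({P, Q} : Set (Sylow 3 G)) ⊆ line ((P : Subgroup G) ⊓ Q) := by
      intro R hR
      rcases hR with hR | hR
      · rw [hR]; exact (mem_line _ _).mpr inf_le_left
      · rw [Set.mem_singleton_iff.mp hR]; exact (mem_line _ _).mpr inf_le_right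
    have := Set.ncard_le_ncard hsub (Set.toFinite _)
    rwa [Set.ncard_pair h.1] at this
  · have := Set.ncard_le_ncard (line_sub hG h) (Set.toFinite _)
    have h2 : (insert P {R : Sylow 3 G | Adj P R}).ncard =
        {R : Sylow 3 G | Adj P R}.ncard + 1 :=
      Set.ncard_insert_of_notMem (fun hP => hP.1 rfl) (Set.toFinite _)
    omega

theorem geom_arith (s c k : ℕ) (hm : s % 3 = 1) (h2 : 2 ≤ s) (hle : s ≤ k + 1) (hc0 : 0 < c)
    (hc1 : c ≤ k) (hcount : (s * s - s) ∣ 22 * c) (hk : k = 12 ∨ k = 3) : s = 4 ∧ k = 12 := by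
  have hs : s = 4 ∨ s = 7 ∨ s = 10 ∨ s = 13 := by omega
  have hc12 : c ≤ 12 := by omega
  rcases hs with rfl | rfl | rfl | rfl
  · refine ⟨rfl, ?_⟩
    by_contra hk12
    have hk3 : k = 3 := by omega
    have hc3 : c ≤ 3 := by omega
    interval_cases c <;> exact absurd hcount (by decide)
  · exfalso; interval_cases c <;> exact absurd hcount (by decide)
  · exfalso; interval_cases c <;> exact absurd hcount (by decide)
  · exfalso; interval_cases c <;> exact absurd hcount (by decide)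

/-- every line has four points, unless all pairs are adjacent -/
theorem line_eq_four (hG : MinCex G) {P Q : Sylow 3 G} (h : Adj P Q)
    (hk : {R : Sylow 3 G | Adj P R}.ncard ≤ 12) :
    (line ((P : Subgroup G) ⊓ Q)).ncard = 4 ∧ {R : Sylow 3 G | Adj P R}.ncard = 12 := by
  obtain ⟨hm, h2, hle⟩ := line_bounds hG h
  have hcount := line_count hG (line ((P : Subgroup G) ⊓ Q)).ncard P
  have hsub : {Q' : Sylow 3 G | Adj P Q' ∧ (line ((P : Subgroup G) ⊓ Q')).ncard =
      (line ((P : Subgroup G) ⊓ Q)).ncard} ⊆ {R : Sylow 3 G | Adj P R} := fun R hR => hR.1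
  have hc1 := Set.ncard_le_ncard hsub (Set.toFinite _)
  have hc0 : 0 < {Q' : Sylow 3 G | Adj P Q' ∧ (line ((P : Subgroup G) ⊓ Q')).ncard =
      (line ((P : Subgroup G) ⊓ Q)).ncard}.ncard := by
    rw [Set.ncard_pos]
    exact ⟨Q, h, rfl⟩
  have hdeg := deg_cases hG P
  exact geom_arith _ _ _ hm h2 hle hc0 hc1 hcount (by omega)

theorem twelve_false (hG : MinCex G)
    (hk : ∀ P : Sylow 3 G, {R : Sylow 3 G | Adj P R}.ncard = 12) : False := by
  have hM9 : ∀ α : Sylow 3 G, {Q : Sylow 3 G | Q ≠ α ∧ ¬ Adj α Q}.ncard = 9 := by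
    intro α
    have := card_adj_add hG α
    rw [hk α] at this
    omega
  have claim1 : ∀ α R : Sylow 3 G, Adj α R → ∀ Q : Sylow 3 G, Q ≠ α → ¬ Adj α Q → Adj R Q := by
    intro α R hαR
    have hL4 := (line_eq_four hG hαR (hk α).le).1
    have hD : {Y : Sylow 3 G | Adj R Y} \ line ((α : Subgroup G) ⊓ R) ⊆
        {Q : Sylow 3 G | Q ≠ α ∧ ¬ Adj α Q} := by
      rintro Y ⟨hRY, hYL⟩
      refine ⟨?_, ?_⟩
      · rintro rfl
        exact hYL ((mem_line _ _).mpr inf_le_left)
      · intro hαY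
        exact hYL (adj_triangle hG hαR hαY hRY)
    have hinter : ({Y : Sylow 3 G | Adj R Y} ∩ line ((α : Subgroup G) ⊓ R)).ncard ≤ 3 := by
      have hsub : {Y : Sylow 3 G | Adj R Y} ∩ line ((α : Subgroup G) ⊓ R) ⊆
          line ((α : Subgroup G) ⊓ R) \ {R} := by
        rintro Y ⟨hRY, hYL⟩
        exact ⟨hYL, fun hYR => hRY.1 (Set.mem_singleton_iff.mp hYR).symm⟩
      have := Set.ncard_le_ncard hsub (Set.toFinite _)
      rw [Set.ncard_sdiff_singleton_of_mem ((mem_line _ _).mpr inf_le_right), hL4] at this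
      exact this
    have hsplit := Set.ncard_inter_add_ncard_sdiff_eq_ncard {Y : Sylow 3 G | Adj R Y}
      (line ((α : Subgroup G) ⊓ R)) (Set.toFinite _)
    rw [hk R] at hsplit
    have hDeq : {Y : Sylow 3 G | Adj R Y} \ line ((α : Subgroup G) ⊓ R) =
        {Q : Sylow 3 G | Q ≠ α ∧ ¬ Adj α Q} := by
      apply Set.eq_of_subset_of_ncard_le hD _ (Set.toFinite _)
      rw [hM9 α]
      omega
    intro Q hQα hQ
    have : Q ∈ {Y : Sylow 3 G | Adj R Y} \ line ((α : Subgroup G) ⊓ R) := by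
      rw [hDeq]; exact ⟨hQα, hQ⟩
    exact this.1
  have claim2 : ∀ α Q : Sylow 3 G, Q ≠ α → ¬ Adj α Q →
      {R : Sylow 3 G | Adj Q R} = {R : Sylow 3 G | Adj α R} := by
    intro α Q hQα hQ
    symm
    apply Set.eq_of_subset_of_ncard_le _ _ (Set.toFinite _)
    · intro R hR
      exact (claim1 α R hR Q hQα hQ).symm
    · rw [hk α, hk Q]
  have key := ncard_eq_mul_of_fibers (Set.univ : Set (Sylow 3 G))
    (fun P => {R : Sylow 3 G | Adj P R}) 10 ?_
  · rw [Set.ncard_univ, hG.h22] at key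
    omega
  · intro α _
    have hset : {b : Sylow 3 G | b ∈ Set.univ ∧
        {R : Sylow 3 G | Adj b R} = {R : Sylow 3 G | Adj α R}} =
        insert α {Q : Sylow 3 G | Q ≠ α ∧ ¬ Adj α Q} := by
      ext b
      constructor
      · rintro ⟨-, hb⟩
        by_cases hbα : b = α
        · exact Or.inl hbα
        · right
          refine ⟨hbα, fun hA => ?_⟩
          have : b ∈ {R : Sylow 3 G | Adj b R} := by rw [hb]; exact hA
          exact this.1 rfl
      · rintro (rfl | ⟨hbα, hb⟩)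
        · exact ⟨trivial, rfl⟩
        · exact ⟨trivial, claim2 α b hbα hb⟩
    rw [hset, Set.ncard_insert_of_notMem (fun h => h.1 rfl) (Set.toFinite _), hM9]

theorem all_adj (hG : MinCex G) (P Q : Sylow 3 G) (hPQ : P ≠ Q) : Adj P Q := by
  by_contra hnot
  have hM : 0 < {Q' : Sylow 3 G | Q' ≠ P ∧ ¬ Adj P Q'}.ncard := by
    rw [Set.ncard_pos]; exact ⟨Q, hPQ.symm, hnot⟩
  have hdeg := deg_cases hG P
  have hk12 : {R : Sylow 3 G | Adj P R}.ncard ≤ 12 := by omega
  have hpos : 0 < {R : Sylow 3 G | Adj P R}.ncard := by omega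
  rw [Set.ncard_pos] at hpos
  obtain ⟨R, hR⟩ := hpos
  have h12 := (line_eq_four hG hR hk12).2
  exact twelve_false hG (fun P' => by rw [card_adj_eq P' P]; exact h12)

/-- distinct Sylow 3-subgroups of a minimal counterexample intersect trivially -/
theorem inf_eq_bot (hG : MinCex G) (P Q : Sylow 3 G) (hPQ : P ≠ Q) :
    (P : Subgroup G) ⊓ Q = ⊥ := by
  have hle : (P : Subgroup G) ⊓ Q ≤ (P : Subgroup G).normalCore := by
    intro x hx b
    have hxR : x ∈ ((b⁻¹ • P : Sylow 3 G) : Subgroup G) := by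
      by_cases hR : b⁻¹ • P = P
      · rw [hR]; exact hx.1
      · by_cases hRQ : b⁻¹ • P = Q
        · rw [hRQ]; exact hx.2
        · exact adj_triangle hG (all_adj hG P Q hPQ) (all_adj hG P _ (Ne.symm hR))
            (all_adj hG Q _ (Ne.symm hRQ)) hx
    rw [S4304.mem_smul_sylow, inv_inv] at hxR
    exact hxR
  rw [normalCore_eq_bot hG P] at hle
  exact le_bot_iff.mp hle

/-- the Sylow 3-subgroups of a minimal counterexample have order three -/
theorem card_sylow_three (hG : MinCex G) (P : Sylow 3 G) : Nat.card (P : Subgroup G) = 3 := by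
  have hnt : Nontrivial (Sylow 3 G) := by
    rw [← Finite.one_lt_card_iff_nontrivial, hG.h22]
    norm_num
  obtain ⟨Q, hQ⟩ := exists_ne P
  have h := (all_adj hG P Q hQ.symm).2
  rw [inf_eq_bot hG P Q hQ.symm] at h
  simpa using h.symm

end geom

end Cfsg.Agent.Lib.Helper76.N22
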