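import Mathlib
import Cfsg.Agent.S4304
import Cfsg.Agent.Lib.Helper23.Syl
import Cfsg.Agent.Lib.Helper76.N22Geom

set_option autoImplicit false
set_option linter.unusedSectionVars false
set_option linter.style.haveILetI false

/-! Minimal counterexample to `n_3 ≠ 22`: fixed points of elements on the 22 Sylow
3-subgroups, and the structure of the centralizer of a Sylow 3-subgroup (used for S4346). -/

namespace Cfsg.Agent.Lib.Helper76.N22

open Subgroup

universe u

section loc
variable {G : Type u} [Group G] [Finite G]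

theorem pow_three_eq_one (hG : MinCex G) (P : Sylow 3 G) (x : G) (hx : x ∈ (P : Subgroup G)) :
    x ^ 3 = 1 := by
  have h1 : (⟨x, hx⟩ : (P : Subgroup G)) ^ Nat.card (P : Subgroup G) = 1 := pow_card_eq_one'
  rw [card_sylow_three hG P] at h1
  exact congrArg Subtype.val h1

theorem zpowers_eq_sylow (hG : MinCex G) (P : Sylow 3 G) (x : G) (hx : x ∈ (P : Subgroup G))
    (hx1 : x ≠ 1) : zpowers x = (P : Subgroup G) := by
  apply Subgroup.eq_of_le_of_card_ge
  · rw [Subgroup.zpowers_le]; exact hx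
  · rw [card_sylow_three hG P, Nat.card_zpowers,
      orderOf_eq_prime (pow_three_eq_one hG P x hx) hx1]

theorem exists_ne_one_mem (hG : MinCex G) (P : Sylow 3 G) :
    ∃ x ∈ (P : Subgroup G), x ≠ 1 := by
  have h1 : (P : Subgroup G) ≠ ⊥ := by
    rw [← Subgroup.one_lt_card_iff_ne_bot, card_sylow_three hG P]
    norm_num
  obtain ⟨⟨x, hx⟩, hx1⟩ := Subgroup.ne_bot_iff_exists_ne_one.mp h1
  exact ⟨x, hx, fun h => hx1 (Subtype.ext h)⟩

/-- a nontrivial element of a Sylow 3-subgroup `P` fixes only `P` -/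
theorem eq_of_fix_of_mem (hG : MinCex G) (P Q : Sylow 3 G) (x : G) (hx : x ∈ (P : Subgroup G))
    (hx1 : x ≠ 1) (hxQ : x • Q = Q) : Q = P := by
  by_contra hne
  rw [Sylow.smul_eq_iff_mem_normalizer] at hxQ
  have h2 : x ∈ (P : Subgroup G) ⊓ normalizer (Q : Set G) := ⟨hx, hxQ⟩
  rw [IsPGroup.inf_normalizer_sylow P.2 Q, inf_eq_bot hG P Q (Ne.symm hne),
    Subgroup.mem_bot] at h2
  exact hx1 h2

theorem mem_centralizer_of_commute (hG : MinCex G) (Q : Sylow 3 G) (h : G)
    (hh : h ∈ (Q : Subgroup G)) (hh1 : h ≠ 1) (z : G) (hc : h * z = z * h) :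
    z ∈ centralizer ((Q : Subgroup G) : Set G) := by
  rw [Subgroup.mem_centralizer_iff]
  intro y hy
  have hy' : y ∈ zpowers h := by rw [zpowers_eq_sylow hG Q h hh hh1]; exact hy
  obtain ⟨j, rfl⟩ := Subgroup.mem_zpowers_iff.mp hy'
  have hcomm : Commute h z := hc
  exact (hcomm.zpow_left j).eq

theorem sq_mem_centralizer (hG : MinCex G) (P : Sylow 3 G) (g : G) (hg : g • P = P) :
    g ^ 2 ∈ centralizer ((P : Subgroup G) : Set G) := by
  have hgN : g ∈ normalizer ((P : Subgroup G) : Set G) := Sylow.smul_eq_iff_mem_normalizer.mp hg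
  have hrel := Cfsg.Agent.Lib.Helper23.relIndex_centralizer_normalizer_dvd_pred (p := 3)
    (P : Subgroup G) (card_sylow_three hG P)
  haveI hnorm := S4304.centralizer_subgroupOf_normalizer_normal (P : Subgroup G)
  have hpow := Subgroup.pow_index_mem ((centralizer ((P : Subgroup G) : Set G)).subgroupOf
    (normalizer ((P : Subgroup G) : Set G))) (⟨g, hgN⟩ : normalizer ((P : Subgroup G) : Set G))
  have hidx : ((centralizer ((P : Subgroup G) : Set G)).subgroupOf
    (normalizer ((P : Subgroup G) : Set G))).index =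
      (centralizer ((P : Subgroup G) : Set G)).relIndex (normalizer ((P : Subgroup G) : Set G)) :=
    rfl
  rw [hidx, Subgroup.mem_subgroupOf] at hpow
  have hle : (centralizer ((P : Subgroup G) : Set G)).relIndex
      (normalizer ((P : Subgroup G) : Set G)) ≤ 2 := Nat.le_of_dvd (by norm_num) hrel
  have hpos : 1 ≤ (centralizer ((P : Subgroup G) : Set G)).relIndex
      (normalizer ((P : Subgroup G) : Set G)) := by
    rw [Nat.one_le_iff_ne_zero]
    intro h0
    rw [h0] at hrel
    omega
  generalize (centralizer ((P : Subgroup G) : Set G)).relIndex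
      (normalizer ((P : Subgroup G) : Set G)) = i at *
  interval_cases i
  · have h1 : g ∈ centralizer ((P : Subgroup G) : Set G) := by simpa using hpow
    exact pow_mem h1 2
  · simpa using hpow

/-- elements of odd order fixing `P` centralize `P` -/
theorem mem_centralizer_of_odd (hG : MinCex G) (P : Sylow 3 G) (g : G) (hg : g • P = P)
    (m : ℕ) (hgm : g ^ (2 * m + 1) = 1) : g ∈ centralizer ((P : Subgroup G) : Set G) := by
  have h1 : g = (g ^ 2) ^ (m + 1) := by
    rw [← pow_mul]
    have : 2 * (m + 1) = (2 * m + 1) + 1 := by ring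
    rw [this, pow_succ, hgm, one_mul]
  rw [h1]
  exact pow_mem (sq_mem_centralizer hG P g hg) _

theorem ncard_mod_three_of_mem (P : Sylow 3 G) (X : Set (Sylow 3 G))
    (hX : ∀ x ∈ (P : Subgroup G), ∀ δ ∈ X, x • δ ∈ X) (hP : P ∈ X) : X.ncard % 3 = 1 := by
  have hm := card_modEq_fixed 3 (P : Subgroup G) P.2 X hX
  have hset : {R | R ∈ X ∧ ∀ x ∈ (P : Subgroup G), x • R = R} = {P} := by
    ext R
    rw [Set.mem_singleton_iff]
    constructor
    · rintro ⟨-, hfix⟩
      have h1 : R ∈ MulAction.fixedPoints (P : Subgroup G) (Sylow 3 G) := fun x => hfix x x.2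
      rw [P.2.sylow_mem_fixedPoints_iff] at h1
      exact (S4304.sylow_eq_of_le h1).symm
    · rintro rfl
      refine ⟨hP, fun x hx => ?_⟩
      rw [Sylow.smul_eq_iff_mem_normalizer]
      exact Subgroup.le_normalizer hx
  rw [hset, Set.ncard_singleton] at hm
  exact hm

theorem ncard_mod_three_of_notMem (P : Sylow 3 G) (X : Set (Sylow 3 G))
    (hX : ∀ x ∈ (P : Subgroup G), ∀ δ ∈ X, x • δ ∈ X) (hP : P ∉ X) : X.ncard % 3 = 0 := by
  have hm := card_modEq_fixed 3 (P : Subgroup G) P.2 X hX
  have hset : {R | R ∈ X ∧ ∀ x ∈ (P : Subgroup G), x • R = R} = ∅ := by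
    ext R
    simp only [Set.mem_empty_iff_false, iff_false]
    rintro ⟨hR, hfix⟩
    have h1 : R ∈ MulAction.fixedPoints (P : Subgroup G) (Sylow 3 G) := fun x => hfix x x.2
    rw [P.2.sylow_mem_fixedPoints_iff] at h1
    rw [← S4304.sylow_eq_of_le h1] at hR
    exact hP hR
  rw [hset, Set.ncard_empty] at hm
  exact hm

/-- the fixed points of an element centralizing `P` form a `P`-invariant set -/
theorem fixedBy_invariant (P : Sylow 3 G) (y : G)
    (hy : y ∈ centralizer ((P : Subgroup G) : Set G)) :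
    ∀ x ∈ (P : Subgroup G), ∀ δ ∈ MulAction.fixedBy (Sylow 3 G) y,
      x • δ ∈ MulAction.fixedBy (Sylow 3 G) y := by
  intro x hx R hR
  show y • (x • R) = x • R
  have hxy : x * y = y * x := Subgroup.mem_centralizer_iff.mp hy x hx
  have hR' : y • R = R := hR
  rw [← mul_smul, ← hxy, mul_smul, hR']

theorem smul_eq_of_mem_centralizer (P : Sylow 3 G) (y : G)
    (hy : y ∈ centralizer ((P : Subgroup G) : Set G)) : y • P = P := by
  rw [Sylow.smul_eq_iff_mem_normalizer]
  exact Subgroup.centralizer_le_normalizer _ hy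

/-- an element centralizing a Sylow 3-subgroup has `1` mod `3` fixed points -/
theorem fix_mod_three (P : Sylow 3 G) (y : G)
    (hy : y ∈ centralizer ((P : Subgroup G) : Set G)) :
    (MulAction.fixedBy (Sylow 3 G) y).ncard % 3 = 1 :=
  ncard_mod_three_of_mem P _ (fixedBy_invariant P y hy) (smul_eq_of_mem_centralizer P y hy)

theorem fix_five (hG : MinCex G) (u : G) (hu1 : u ≠ 1) (hu5 : u ^ 5 = 1) :
    (MulAction.fixedBy (Sylow 3 G) u).ncard = 7 := by
  haveI : Fact (Nat.Prime 5) := ⟨by norm_num⟩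
  have h5 := fix_modEq_of_pow hG 5 u 1 (by rwa [pow_one])
  have hlt := fix_lt hG u hu1
  have hpos : 0 < (MulAction.fixedBy (Sylow 3 G) u).ncard := by omega
  rw [Set.ncard_pos] at hpos
  obtain ⟨Q, hQ⟩ := hpos
  have h3 := fix_mod_three Q u (mem_centralizer_of_odd hG Q u hQ 2 hu5)
  omega

theorem fix_seven (hG : MinCex G) (w : G) (hw1 : w ≠ 1) (hw7 : w ^ 7 = 1) :
    (MulAction.fixedBy (Sylow 3 G) w).ncard = 1 := by
  haveI : Fact (Nat.Prime 7) := ⟨by norm_num⟩
  have h7 := fix_modEq_of_pow hG 7 w 1 (by rwa [pow_one])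
  have hlt := fix_lt hG w hw1
  have hpos : 0 < (MulAction.fixedBy (Sylow 3 G) w).ncard := by omega
  rw [Set.ncard_pos] at hpos
  obtain ⟨Q, hQ⟩ := hpos
  have h3 := fix_mod_three Q w (mem_centralizer_of_odd hG Q w hQ 3 hw7)
  omega

theorem fix_eleven (hG : MinCex G) (s : G) (hs1 : s ≠ 1) (hs11 : s ^ 11 = 1) :
    (MulAction.fixedBy (Sylow 3 G) s).ncard = 0 := by
  haveI : Fact (Nat.Prime 11) := ⟨by norm_num⟩
  have h11 := fix_modEq_of_pow hG 11 s 1 (by rwa [pow_one])
  have hlt := fix_lt hG s hs1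
  by_contra hne
  have hpos : 0 < (MulAction.fixedBy (Sylow 3 G) s).ncard := by omega
  rw [Set.ncard_pos] at hpos
  obtain ⟨Q, hQ⟩ := hpos
  have h3 := fix_mod_three Q s (mem_centralizer_of_odd hG Q s hQ 5 hs11)
  omega

theorem prime_cases (hG : MinCex G) (P : Sylow 3 G) (y : G)
    (hy : y ∈ centralizer ((P : Subgroup G) : Set G)) (hy1 : y ≠ 1) (r : ℕ) (hr : r.Prime)
    (hyr : y ^ r = 1) : r = 2 ∨ r = 3 ∨ r = 5 ∨ r = 7 := by
  haveI : Fact r.Prime := ⟨hr⟩
  have h3 := fix_modEq_of_pow hG r y 1 (by rwa [pow_one])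
  have h5 := fix_mod_three P y hy
  have hlt := fix_lt hG y hy1
  have hdvd : r ∣ 22 - (MulAction.fixedBy (Sylow 3 G) y).ncard :=
    (Nat.modEq_iff_dvd' hlt.le).mp h3
  have hle : r ≤ 21 := by
    have := Nat.le_of_dvd (by omega) hdvd
    omega
  have h2 := hr.two_le
  generalize (MulAction.fixedBy (Sylow 3 G) y).ncard = f at *
  clear hdvd
  interval_cases r <;> first | omega | exact absurd hr (by decide)

theorem fix_invol_centralizer (hG : MinCex G) (P : Sylow 3 G) (z : G)
    (hz : z ∈ centralizer ((P : Subgroup G) : Set G)) (hz1 : z ≠ 1) (hz2 : z ^ 2 = 1) :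
    (MulAction.fixedBy (Sylow 3 G) z).ncard = 10 := by
  have h3 := fix_mod_three P z hz
  have h4 := fix_mod_four hG z hz1 hz2
  have hlt := fix_lt hG z hz1
  omega

/-- an element normalizing but not centralizing `Q` has at most `8` fixed points -/
theorem fix_le_of_not_centralizer (hG : MinCex G) (Q : Sylow 3 G) (z : G) (hzQ : z • Q = Q)
    (hzC : z ∉ centralizer ((Q : Subgroup G) : Set G)) :
    (MulAction.fixedBy (Sylow 3 G) z).ncard ≤ 8 := by
  have hzN : z ∈ normalizer ((Q : Subgroup G) : Set G) :=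
    Sylow.smul_eq_iff_mem_normalizer.mp hzQ
  have hT := card_mul_le_of_translates (Ω := Sylow 3 G) (Q : Subgroup G)
    (MulAction.fixedBy (Sylow 3 G) z \ {Q}) ?_
  · rw [card_sylow_three hG Q, hG.h22, Set.ncard_sdiff_singleton_of_mem
      (show Q ∈ MulAction.fixedBy (Sylow 3 G) z from hzQ)] at hT
    omega
  · rintro h hh hh1 δ ⟨hδ, hδQ⟩ ⟨hhδ, -⟩
    have hδ' : z • δ = δ := hδ
    have hhδ' : z • (h • δ) = h • δ := hhδ
    have hfix : (z⁻¹ * h⁻¹ * z * h) • δ = δ := by
      rw [mul_smul, mul_smul, mul_smul, hhδ', inv_smul_smul, inv_smul_eq_iff, hδ']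
    have hmem : z⁻¹ * h⁻¹ * z * h ∈ (Q : Subgroup G) := by
      refine mul_mem ?_ hh
      have h1 := (Subgroup.mem_normalizer_iff.mp (inv_mem hzN) h⁻¹).mp (inv_mem hh)
      rwa [inv_inv] at h1
    by_cases hone : z⁻¹ * h⁻¹ * z * h = 1
    · apply hzC
      apply mem_centralizer_of_commute hG Q h hh hh1 z
      have h2 : z * h = h * z := by
        calc z * h = h * (z * (z⁻¹ * h⁻¹ * z * h)) := by group
          _ = h * z := by rw [hone, mul_one]
      exact h2.symm
    · exact hδQ (eq_of_fix_of_mem hG Q δ _ hmem hone hfix)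

/-- the centralizer of a Sylow 3-subgroup contains no involution -/
theorem no_involution_centralizer (hG : MinCex G) (P : Sylow 3 G) (z : G)
    (hz : z ∈ centralizer ((P : Subgroup G) : Set G)) (hz2 : z ^ 2 = 1) : z = 1 := by
  by_contra hz1
  haveI : Fact (Nat.Prime 5) := ⟨by norm_num⟩
  have h10 := fix_invol_centralizer hG P z hz hz1 hz2
  have hzP : z • P = P := smul_eq_of_mem_centralizer P z hz
  have hcent : ∀ Q : Sylow 3 G, z • Q = Q → z ∈ centralizer ((Q : Subgroup G) : Set G) := by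
    intro Q hQ
    by_contra hC
    have := fix_le_of_not_centralizer hG Q z hQ hC
    omega
  have hsub : MulAction.orbit (centralizer ({z} : Set G)) P ⊆
      MulAction.fixedBy (Sylow 3 G) z := by
    rintro R ⟨c, rfl⟩
    have hc : z * (c : G) = c * z := Subgroup.mem_centralizer_iff.mp c.2 z rfl
    show z • ((c : G) • P) = (c : G) • P
    rw [← mul_smul, hc, mul_smul, hzP]
  have hinv : ∀ Q : Sylow 3 G, z • Q = Q → ∀ x ∈ (Q : Subgroup G),
      ∀ δ ∈ MulAction.orbit (centralizer ({z} : Set G)) P,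
        x • δ ∈ MulAction.orbit (centralizer ({z} : Set G)) P := by
    rintro Q hQ x hx δ ⟨c, rfl⟩
    have hxz : x ∈ centralizer ({z} : Set G) := by
      rw [Subgroup.mem_centralizer_iff]
      intro w hw
      rw [Set.mem_singleton_iff] at hw
      rw [hw]
      exact (Subgroup.mem_centralizer_iff.mp (hcent Q hQ) x hx).symm
    refine ⟨⟨x, hxz⟩ * c, ?_⟩
    show ((x * (c : G)) • P) = x • ((c : G) • P)
    rw [mul_smul]
  have horb1 : (MulAction.orbit (centralizer ({z} : Set G)) P).ncard % 3 = 1 :=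
    ncard_mod_three_of_mem P _ (hinv P hzP) (MulAction.mem_orbit_self P)
  have horb : MulAction.orbit (centralizer ({z} : Set G)) P =
      MulAction.fixedBy (Sylow 3 G) z := by
    apply Set.Subset.antisymm hsub
    intro Q hQ
    by_contra hQO
    have := ncard_mod_three_of_notMem Q _ (hinv Q hQ) hQO
    omega
  have hdvd : 5 ∣ Nat.card (centralizer ({z} : Set G)) := by
    have h1 := MulAction.index_stabilizer (centralizer ({z} : Set G)) P
    rw [horb, h10] at h1
    have h2 := Subgroup.index_dvd_card (MulAction.stabilizer (centralizer ({z} : Set G)) P)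
    rw [h1] at h2
    exact dvd_trans (by norm_num) h2
  obtain ⟨u', hu'⟩ := exists_prime_orderOf_dvd_card' 5 hdvd
  have hu1 : (u' : G) ≠ 1 := by
    intro h
    have : u' = 1 := Subtype.ext h
    rw [this, orderOf_one] at hu'
    omega
  have hu5 : (u' : G) ^ 5 = 1 := by
    have := pow_orderOf_eq_one u'
    rw [hu'] at this
    exact_mod_cast congrArg Subtype.val this
  have huz : z * (u' : G) = u' * z := Subgroup.mem_centralizer_iff.mp u'.2 z rfl
  obtain ⟨u, hu⟩ : ∃ u : G, u = (u' : G) := ⟨_, rfl⟩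
  rw [← hu] at hu1 hu5 huz
  have h7 := fix_five hG u hu1 hu5
  have hzinv : ∀ δ ∈ MulAction.fixedBy (Sylow 3 G) u,
      z • δ ∈ MulAction.fixedBy (Sylow 3 G) u := by
    intro δ hδ
    show u • (z • δ) = z • δ
    have hδ' : u • δ = δ := hδ
    rw [← mul_smul, ← huz, mul_smul, hδ']
  have huinv : ∀ δ ∈ MulAction.fixedBy (Sylow 3 G) z,
      u • δ ∈ MulAction.fixedBy (Sylow 3 G) z := by
    intro δ hδ
    show z • (u • δ) = u • δ
    have hδ' : z • δ = δ := hδ
    rw [← mul_smul, huz, mul_smul, hδ']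
  have hm2 := card_modEq_fixedBy (Ω := Sylow 3 G) 2 z 1 (by rwa [pow_one]) _ hzinv
  have hm5 := card_modEq_fixedBy (Ω := Sylow 3 G) 5 u 1 (by rwa [pow_one]) _ huinv
  rw [h7] at hm2
  rw [h10, Set.inter_comm] at hm5
  have hle : (MulAction.fixedBy (Sylow 3 G) u ∩ MulAction.fixedBy (Sylow 3 G) z).ncard ≤ 7 := by
    rw [← h7]
    exact Set.ncard_le_ncard Set.inter_subset_left (Set.toFinite _)
  have hX5 : (MulAction.fixedBy (Sylow 3 G) u ∩ MulAction.fixedBy (Sylow 3 G) z).ncard = 5 := by
    unfold Nat.ModEq at hm2 hm5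
    omega
  have hne : (MulAction.fixedBy (Sylow 3 G) u ∩ MulAction.fixedBy (Sylow 3 G) z).Nonempty := by
    rw [← Set.ncard_pos, hX5]; norm_num
  obtain ⟨γ, hγu, hγz⟩ := hne
  have hzγ := hcent γ hγz
  have huγ := mem_centralizer_of_odd hG γ u hγu 2 hu5
  have h3 := ncard_mod_three_of_mem γ
    (MulAction.fixedBy (Sylow 3 G) u ∩ MulAction.fixedBy (Sylow 3 G) z) ?_ ⟨hγu, hγz⟩
  · omega
  · intro x hx δ hδ
    exact ⟨fixedBy_invariant γ u huγ x hx δ hδ.1, fixedBy_invariant γ z hzγ x hx δ hδ.2⟩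

theorem exists_invol (hG : MinCex G) (P : Sylow 3 G) :
    ∃ t : G, t • P = P ∧ t ^ 2 = 1 ∧ t ≠ 1 := by
  have h2 : 2 ∣ Nat.card G := dvd_trans (by norm_num) (twentytwo_dvd_card hG)
  obtain ⟨t₀, ht₀⟩ := exists_prime_orderOf_dvd_card' 2 h2
  have ht1 : t₀ ≠ 1 := by
    rintro rfl
    rw [orderOf_one] at ht₀
    omega
  have ht2 : t₀ ^ 2 = 1 := by rw [← ht₀]; exact pow_orderOf_eq_one t₀
  have h4 := fix_mod_four hG t₀ ht1 ht2
  have hpos : 0 < (MulAction.fixedBy (Sylow 3 G) t₀).ncard := by omega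
  rw [Set.ncard_pos] at hpos
  obtain ⟨Q, hQ⟩ := hpos
  have hQ' : t₀ • Q = Q := hQ
  obtain ⟨g, rfl⟩ := MulAction.exists_smul_eq G Q P
  refine ⟨g * t₀ * g⁻¹, ?_, ?_, ?_⟩
  · rw [mul_smul, mul_smul, inv_smul_smul, hQ']
  · rw [conj_pow, ht2]; simp
  · intro h
    apply ht1
    have h3 : t₀ = g⁻¹ * (g * t₀ * g⁻¹) * g := by group
    rw [h3, h]; group

/-- the centralizer of a Sylow 3-subgroup has index two in its normalizer -/
theorem card_normalizer_eq (hG : MinCex G) (P : Sylow 3 G) :
    Nat.card (normalizer ((P : Subgroup G) : Set G)) =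
      2 * Nat.card (centralizer ((P : Subgroup G) : Set G)) := by
  obtain ⟨t, htP, ht2, ht1⟩ := exists_invol hG P
  have htN : t ∈ normalizer ((P : Subgroup G) : Set G) :=
    Sylow.smul_eq_iff_mem_normalizer.mp htP
  have htC : t ∉ centralizer ((P : Subgroup G) : Set G) :=
    fun h => ht1 (no_involution_centralizer hG P t h ht2)
  have hrel := Cfsg.Agent.Lib.Helper23.relIndex_centralizer_normalizer_dvd_pred (p := 3)
    (P : Subgroup G) (card_sylow_three hG P)
  have hne1 : (centralizer ((P : Subgroup G) : Set G)).relIndex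
      (normalizer ((P : Subgroup G) : Set G)) ≠ 1 := by
    intro h1
    rw [Subgroup.relIndex_eq_one] at h1
    exact htC (h1 htN)
  have hmul := S4304.card_mul_relIndex_of_le
    (Subgroup.centralizer_le_normalizer ((P : Subgroup G) : Set G))
  have hle := Nat.le_of_dvd (by norm_num) hrel
  have h0 : (centralizer ((P : Subgroup G) : Set G)).relIndex
      (normalizer ((P : Subgroup G) : Set G)) ≠ 0 := by
    intro h0
    rw [h0] at hrel
    omega
  have h2 : (centralizer ((P : Subgroup G) : Set G)).relIndex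
      (normalizer ((P : Subgroup G) : Set G)) = 2 := by omega
  rw [h2] at hmul
  omega

theorem sylow_le_centralizer (hG : MinCex G) (P : Sylow 3 G) :
    (P : Subgroup G) ≤ centralizer ((P : Subgroup G) : Set G) := by
  haveI : IsCyclic (P : Subgroup G) := isCyclic_of_prime_card (card_sylow_three hG P)
  haveI : IsMulCommutative (P : Subgroup G) :=
    Cfsg.Agent.Lib.Helper23.isMulCommutative_of_isCyclic
  exact (P : Subgroup G).le_centralizer

theorem three_dvd_card_centralizer (hG : MinCex G) (P : Sylow 3 G) :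
    3 ∣ Nat.card (centralizer ((P : Subgroup G) : Set G)) := by
  have := Subgroup.card_dvd_of_le (sylow_le_centralizer hG P)
  rwa [card_sylow_three hG P] at this

theorem card_centralizer_dvd (hG : MinCex G) (P : Sylow 3 G) :
    Nat.card (centralizer ((P : Subgroup G) : Set G)) ∣ 105 := by
  rw [Nat.dvd_iff_prime_pow_dvd_dvd]
  intro r k hr hdvd
  haveI : Fact r.Prime := ⟨hr⟩
  obtain ⟨K, hK⟩ := Sylow.exists_subgroup_card_pow_prime r hdvd
  have hAcard : Nat.card (K.map (centralizer ((P : Subgroup G) : Set G)).subtype) = r ^ k := by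
    rw [Subgroup.card_map_of_injective (Subgroup.subtype_injective _)]
    exact hK
  have hAle : K.map (centralizer ((P : Subgroup G) : Set G)).subtype ≤
      centralizer ((P : Subgroup G) : Set G) := Subgroup.map_subtype_le K
  generalize K.map (centralizer ((P : Subgroup G) : Set G)).subtype = A at hAcard hAle
  have hpow : ∀ a ∈ A, a ^ r ^ k = 1 := by
    intro a ha
    have h1 : (⟨a, ha⟩ : A) ^ Nat.card A = 1 := pow_card_eq_one'
    rw [hAcard] at h1
    exact congrArg Subtype.val h1
  rcases Nat.eq_zero_or_pos k with rfl | hkpos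
  · simp
  have hrdvd : r ∣ Nat.card A := by rw [hAcard]; exact dvd_pow_self r hkpos.ne'
  obtain ⟨x, hx⟩ := exists_prime_orderOf_dvd_card' r hrdvd
  have hx1 : (x : G) ≠ 1 := by
    intro h
    have : x = 1 := Subtype.ext h
    rw [this, orderOf_one] at hx
    exact hr.one_lt.ne hx
  have hxr : (x : G) ^ r = 1 := by
    have := pow_orderOf_eq_one x
    rw [hx] at this
    exact_mod_cast congrArg Subtype.val this
  rcases prime_cases hG P (x : G) (hAle x.2) hx1 r hr hxr with rfl | rfl | rfl | rfl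
  · exact absurd (no_involution_centralizer hG P (x : G) (hAle x.2) hxr) hx1
  · have hp : IsPGroup 3 A := IsPGroup.of_card hAcard
    obtain ⟨Q, hQ⟩ := hp.exists_le_sylow
    have := Subgroup.card_dvd_of_le hQ
    rw [hAcard, card_sylow_three hG Q] at this
    exact this.trans (by norm_num)
  · have h15 : Nat.card A ∣ Nat.card (Sylow 3 G) - 7 := by
      refine card_dvd_of_fix (Ω := Sylow 3 G) A 7 (by rw [hG.h22]; norm_num)
        (fun a ha ha1 => ?_)
      have h5 := fix_modEq_of_pow hG 5 a k (hpow a ha)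
      have h3 := fix_mod_three P a (hAle ha)
      have hlt := fix_lt hG a ha1
      omega
    rw [hAcard, hG.h22] at h15
    exact h15.trans (by norm_num)
  · have h21 : Nat.card A ∣ Nat.card (Sylow 3 G) - 1 := by
      refine card_dvd_of_fix (Ω := Sylow 3 G) A 1 (by rw [hG.h22]; norm_num)
        (fun a ha ha1 => ?_)
      have h7 := fix_modEq_of_pow hG 7 a k (hpow a ha)
      have h3 := fix_mod_three P a (hAle ha)
      have hlt := fix_lt hG a ha1
      omega
    rw [hAcard, hG.h22] at h21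
    exact h21.trans (by norm_num)

/-- the order of the centralizer of a Sylow 3-subgroup is not divisible by `35` -/
theorem not_five_seven (hG : MinCex G) (P : Sylow 3 G)
    (h5 : 5 ∣ Nat.card (centralizer ((P : Subgroup G) : Set G)))
    (h7 : 7 ∣ Nat.card (centralizer ((P : Subgroup G) : Set G))) : False := by
  haveI : Fact (Nat.Prime 5) := ⟨by norm_num⟩
  haveI : Fact (Nat.Prime 7) := ⟨by norm_num⟩
  have h105 := card_centralizer_dvd hG P
  have h3 := three_dvd_card_centralizer hG P
  have hcard : Nat.card (centralizer ((P : Subgroup G) : Set G)) = 105 := by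
    obtain ⟨a, ha⟩ := h3
    obtain ⟨b, hb⟩ := h5
    obtain ⟨c, hc⟩ := h7
    have hle := Nat.le_of_dvd (by norm_num) h105
    have hpos : 0 < Nat.card (centralizer ((P : Subgroup G) : Set G)) := Nat.card_pos
    omega
  obtain ⟨U⟩ : Nonempty (Sylow 5 (centralizer ((P : Subgroup G) : Set G))) := inferInstance
  have hU5 : Nat.card (U : Subgroup (centralizer ((P : Subgroup G) : Set G))) = 5 := by
    have := Cfsg.Agent.Lib.Helper23.sylow_card_of_eq (p := 5) (k := 1) (m := 21)
      (by rw [hcard]; norm_num) (by norm_num) U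
    simpa using this
  obtain ⟨x₀, hx₀, hx₀1⟩ := exists_ne_one_mem hG P
  have hx₀C : x₀ ∈ centralizer ((P : Subgroup G) : Set G) := sylow_le_centralizer hG P hx₀
  have hcentral : ∀ c : centralizer ((P : Subgroup G) : Set G),
      (⟨x₀, hx₀C⟩ : centralizer ((P : Subgroup G) : Set G)) * c = c * ⟨x₀, hx₀C⟩ := by
    intro c
    apply Subtype.ext
    exact Subgroup.mem_centralizer_iff.mp c.2 x₀ hx₀
  have hxN : (⟨x₀, hx₀C⟩ : centralizer ((P : Subgroup G) : Set G)) ∈
      normalizer ((U : Subgroup (centralizer ((P : Subgroup G) : Set G))) :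
        Set (centralizer ((P : Subgroup G) : Set G))) := by
    rw [Subgroup.mem_normalizer_iff]
    intro h
    rw [hcentral h, mul_inv_cancel_right]
  have h3N : 3 ∣ Nat.card (normalizer
      ((U : Subgroup (centralizer ((P : Subgroup G) : Set G))) :
        Set (centralizer ((P : Subgroup G) : Set G)))) := by
    have h1 := Subgroup.orderOf_dvd_natCard _ hxN
    have h2 : orderOf (⟨x₀, hx₀C⟩ : centralizer ((P : Subgroup G) : Set G)) = 3 := by
      apply orderOf_eq_prime
      · apply Subtype.ext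
        simpa using pow_three_eq_one hG P x₀ hx₀
      · intro h
        exact hx₀1 (congrArg Subtype.val h)
    rwa [h2] at h1
  have h5N : 5 ∣ Nat.card (normalizer
      ((U : Subgroup (centralizer ((P : Subgroup G) : Set G))) :
        Set (centralizer ((P : Subgroup G) : Set G)))) := by
    have h1 := Subgroup.card_dvd_of_le
      (Subgroup.le_normalizer (H := (U : Subgroup (centralizer ((P : Subgroup G) : Set G)))))
    rwa [hU5] at h1
  have hidx := Sylow.card_eq_index_normalizer U
  have hmul := Subgroup.card_mul_index (normalizer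
      ((U : Subgroup (centralizer ((P : Subgroup G) : Set G))) :
        Set (centralizer ((P : Subgroup G) : Set G))))
  rw [hcard] at hmul
  have hmod : Nat.card (Sylow 5 (centralizer ((P : Subgroup G) : Set G))) % 5 = 1 :=
    card_sylow_modEq_one 5 (centralizer ((P : Subgroup G) : Set G))
  have hone : Nat.card (Sylow 5 (centralizer ((P : Subgroup G) : Set G))) = 1 := by
    rw [hidx] at hmod ⊢
    obtain ⟨a, ha⟩ := h3N
    obtain ⟨b, hb⟩ := h5N
    generalize (normalizer ((U : Subgroup (centralizer ((P : Subgroup G) : Set G))) :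
        Set (centralizer ((P : Subgroup G) : Set G)))).index = i at *
    generalize Nat.card (normalizer
      ((U : Subgroup (centralizer ((P : Subgroup G) : Set G))) :
        Set (centralizer ((P : Subgroup G) : Set G)))) = n at *
    have hi : i ∣ 105 := ⟨n, by rw [← hmul, mul_comm]⟩
    have hile : i ≤ 105 := Nat.le_of_dvd (by norm_num) hi
    clear hi
    interval_cases i <;> omega
  haveI : Subsingleton (Sylow 5 (centralizer ((P : Subgroup G) : Set G))) :=
    (Nat.card_eq_one_iff_unique.mp hone).1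
  obtain ⟨w', hw'⟩ := exists_prime_orderOf_dvd_card' 7 h7
  have hw'N : w' ∈ normalizer ((U : Subgroup (centralizer ((P : Subgroup G) : Set G))) :
        Set (centralizer ((P : Subgroup G) : Set G))) :=
    Sylow.smul_eq_iff_mem_normalizer.mp (Subsingleton.elim _ _)
  have hUne : (U : Subgroup (centralizer ((P : Subgroup G) : Set G))) ≠ ⊥ := by
    rw [← Subgroup.one_lt_card_iff_ne_bot, hU5]; norm_num
  obtain ⟨⟨u', hu'U⟩, hu'1⟩ := Subgroup.ne_bot_iff_exists_ne_one.mp hUne
  have hu'1' : u' ≠ 1 := fun h => hu'1 (Subtype.ext h)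
  have hu'5 : u' ^ 5 = 1 := by
    have h1 : (⟨u', hu'U⟩ : (U : Subgroup (centralizer ((P : Subgroup G) : Set G)))) ^
        Nat.card (U : Subgroup (centralizer ((P : Subgroup G) : Set G))) = 1 := pow_card_eq_one'
    rw [hU5] at h1
    exact congrArg Subtype.val h1
  have hzp : zpowers u' = (U : Subgroup (centralizer ((P : Subgroup G) : Set G))) := by
    apply Subgroup.eq_of_le_of_card_ge
    · rw [Subgroup.zpowers_le]; exact hu'U
    · rw [hU5, Nat.card_zpowers, orderOf_eq_prime hu'5 hu'1']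
  have hconj : w'⁻¹ * u' * w' ∈ zpowers u' := by
    rw [hzp]
    have h1 := (Subgroup.mem_normalizer_iff.mp (inv_mem hw'N) u').mp hu'U
    rwa [inv_inv] at h1
  obtain ⟨j, hj⟩ := Subgroup.mem_zpowers_iff.mp hconj
  have hjG : (u' : G) ^ j = (w' : G)⁻¹ * u' * w' := by
    have h1 := congrArg Subtype.val hj
    simpa using h1
  have hu1 : (u' : G) ≠ 1 := fun h => hu'1' (Subtype.ext h)
  have hu5 : (u' : G) ^ 5 = 1 := by exact_mod_cast congrArg Subtype.val hu'5
  have hw1 : (w' : G) ≠ 1 := by
    intro h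
    have : w' = 1 := Subtype.ext h
    rw [this, orderOf_one] at hw'
    omega
  have hw7 : (w' : G) ^ 7 = 1 := by
    have := pow_orderOf_eq_one w'
    rw [hw'] at this
    exact_mod_cast congrArg Subtype.val this
  have hF7 := fix_five hG (u' : G) hu1 hu5
  have hW1 := fix_seven hG (w' : G) hw1 hw7
  have hinv : ∀ δ ∈ MulAction.fixedBy (Sylow 3 G) (u' : G),
      (w' : G) • δ ∈ MulAction.fixedBy (Sylow 3 G) (u' : G) := by
    intro δ hδ
    show (u' : G) • ((w' : G) • δ) = (w' : G) • δ
    have h1 : ((u' : G) ^ j) • δ = δ := MulAction.mem_fixedBy_zpow hδ j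
    have h2 : (u' : G) * w' = w' * ((w' : G)⁻¹ * u' * w') := by group
    rw [← mul_smul, h2, mul_smul, ← hjG, h1]
  have hm := card_modEq_fixedBy (Ω := Sylow 3 G) 7 (w' : G) 1 (by rwa [pow_one]) _ hinv
  rw [hF7] at hm
  have hPu : P ∈ MulAction.fixedBy (Sylow 3 G) (u' : G) :=
    smul_eq_of_mem_centralizer P _ u'.2
  have hPw : P ∈ MulAction.fixedBy (Sylow 3 G) (w' : G) :=
    smul_eq_of_mem_centralizer P _ w'.2
  have hge : 0 < (MulAction.fixedBy (Sylow 3 G) (u' : G) ∩
      MulAction.fixedBy (Sylow 3 G) (w' : G)).ncard := by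
    rw [Set.ncard_pos]; exact ⟨P, hPu, hPw⟩
  have hle : (MulAction.fixedBy (Sylow 3 G) (u' : G) ∩
      MulAction.fixedBy (Sylow 3 G) (w' : G)).ncard ≤ 1 := by
    rw [← hW1]
    exact Set.ncard_le_ncard Set.inter_subset_right (Set.toFinite _)
  unfold Nat.ModEq at hm
  omega

end loc

end Cfsg.Agent.Lib.Helper76.N22
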