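import Mathlib

set_option autoImplicit false

namespace Cfsg.Agent.Lib.Helper76.TwoPr

open Equiv Equiv.Perm MulAction

/-- The group generated by `σ` and a cycle `τ` is transitive as soon as every point can be
moved into the support of `τ` by a power of `σ`. -/
theorem trans_of_cycle {Ω : Type*} [Fintype Ω] [DecidableEq Ω] (σ τ : Perm Ω) (hτ : τ.IsCycle)
    (h : ∀ x : Ω, ∃ k : ℕ, (σ ^ k) x ∈ τ.support) :
    IsPretransitive (Subgroup.closure ({σ, τ} : Set (Perm Ω))) Ω := by
  have hσK : σ ∈ Subgroup.closure ({σ, τ} : Set (Perm Ω)) := Subgroup.subset_closure (by simp)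
  have hτK : τ ∈ Subgroup.closure ({σ, τ} : Set (Perm Ω)) := Subgroup.subset_closure (by simp)
  constructor
  intro x y
  obtain ⟨k, hk⟩ := h x
  obtain ⟨l, hl⟩ := h y
  obtain ⟨i, hi⟩ := hτ.exists_pow_eq (mem_support.mp hk) (mem_support.mp hl)
  refine ⟨⟨(σ ^ l)⁻¹ * τ ^ i * σ ^ k, ?_⟩, ?_⟩
  · exact Subgroup.mul_mem _ (Subgroup.mul_mem _ (Subgroup.inv_mem _ (Subgroup.pow_mem _ hσK l))
      (Subgroup.pow_mem _ hτK i)) (Subgroup.pow_mem _ hσK k)
  · show ((σ ^ l)⁻¹ * τ ^ i * σ ^ k) x = y
    rw [Perm.mul_apply, Perm.mul_apply, hi, Perm.inv_eq_iff_eq]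

/-- A transitive permutation group containing a cycle of prime length `q` with
`|Ω| < 2 q` is primitive. -/
theorem prim_of_cycle {Ω : Type*} [Fintype Ω] [DecidableEq Ω] (K : Subgroup (Perm Ω))
    [IsPretransitive K Ω] {τ : Perm Ω} (hτK : τ ∈ K) (hτ : τ.IsCycle)
    (hq : τ.support.card.Prime) (h2 : Fintype.card Ω < 2 * τ.support.card) :
    IsPreprimitive K Ω := by
  classical
  have htr := isPretransitive_of_isCycle_mem hτ hτK
  have hcard : Nat.card (SubMulAction.ofFixingSubgroup K ((τ.support : Set Ω)ᶜ)) =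
      τ.support.card := by
    rw [Nat.card_eq_fintype_card, Fintype.card_subtype]
    apply congr_arg
    ext x
    simp [SubMulAction.mem_ofFixingSubgroup_iff]
  have hprim : IsPreprimitive (fixingSubgroup K ((τ.support : Set Ω)ᶜ))
      (SubMulAction.ofFixingSubgroup K ((τ.support : Set Ω)ᶜ)) := by
    apply IsPreprimitive.of_prime_card
    rw [hcard]; exact hq
  let φ : fixingSubgroup K ((τ.support : Set Ω)ᶜ) → K := fun g => g.1
  let f : SubMulAction.ofFixingSubgroup K ((τ.support : Set Ω)ᶜ) →ₑ[φ] Ω :=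
    { toFun := fun x => x.1
      map_smul' := fun _ _ => rfl }
  apply IsPreprimitive.of_card_lt (f := f)
  have hrange : Set.range f = (τ.support : Set Ω) := by
    ext x
    constructor
    · rintro ⟨y, rfl⟩
      have := y.2
      rw [SubMulAction.mem_ofFixingSubgroup_iff] at this
      show (y : Ω) ∈ (τ.support : Set Ω)
      simpa using this
    · intro hx
      refine ⟨⟨x, ?_⟩, rfl⟩
      rw [SubMulAction.mem_ofFixingSubgroup_iff]
      simpa using hx
  rw [hrange, Set.ncard_coe_finset, Nat.card_eq_fintype_card]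
  exact h2

end Cfsg.Agent.Lib.Helper76.TwoPr
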