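import Mathlib
import Cfsg.Agent.S0713
import Cfsg.Agent.S0711
import Cfsg.Agent.S0678
import Cfsg.Agent.S0494
import Cfsg.Agent.Lib.Helper4.TwoPrNT
import Cfsg.Agent.Lib.Helper18.TwoPrRES
import Cfsg.Agent.Lib.Helper19.TwoPrSE
import Cfsg.Agent.Lib.Helper89.TwoPrS55
import Cfsg.Agent.Lib.Helper86.TwoPrWS
import Cfsg.Agent.Lib.Helper64.TwoPrFIN
import Cfsg.Agent.Lib.Helper76.TwoPrBase
import Cfsg.Agent.Lib.Helper23.TwoPrSIXS
import Cfsg.Agent.Lib.Helper34.TwoPrSIX
import Cfsg.Agent.Lib.Helper79.TwoPrCARD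
import Cfsg.Agent.Lib.Helper26.TwoPrSOLV
import Cfsg.Agent.Lib.Helper64.TwoPrT
import Cfsg.Agent.Lib.Helper12.TwoPrS11
import Cfsg.Agent.Lib.Helper89.TwoPrWITT
import Cfsg.Agent.Lib.Helper63.TwoPrDICH
import Cfsg.Agent.Lib.Helper12.TwoPr4ODD

set_option autoImplicit false

namespace Cfsg.Agent.Lib.Helper76.TwoPr

open Equiv Equiv.Perm MulAction

/-! ## Assembly -/

theorem twin7 {Ω : Type*} [Fintype Ω] [DecidableEq Ω] (hΩ : Fintype.card Ω = 7)
    (K : Subgroup (Perm Ω)) [IsPretransitive K Ω] {c : Perm Ω} (hc : c ∈ K) (hcc : c.IsCycle)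
    (h5 : c.support.card = 5) : alternatingGroup Ω ≤ K := by
  by_contra hA
  have h5K : 5 ∣ Nat.card K := by
    have : orderOf (⟨c, hc⟩ : K) = 5 := by
      rw [Subgroup.orderOf_mk, hcc.orderOf, h5]
    rw [← this]; exact orderOf_dvd_natCard _
  by_cases hs : Group.IsSolvable K
  · have h := (Cfsg.Agent.Lib.Helper26.TwoPr.solv_prime_degree K (by rw [hΩ]; norm_num) hs).1
    rw [hΩ] at h
    have h' : 5 ∣ 7 * (7 - 1) := h5K.trans h
    norm_num at h'
  · have h := (Cfsg.Agent.S0678.result hΩ K hs hA).1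
    rw [h] at h5K
    norm_num at h5K

theorem t13_four {Ω : Type*} [Fintype Ω] [DecidableEq Ω] (hΩ : Fintype.card Ω = 13)
    (K : Subgroup (Perm Ω)) (hKA : K ≤ alternatingGroup Ω)
    (h4 : IsMultiplyPretransitive K Ω 4) : alternatingGroup Ω ≤ K := by
  by_contra hA
  have hbig : ∀ g ∈ K, g ≠ 1 → 6 ≤ g.support.card := by
    intro g hg hg1
    by_contra hlt
    exact hA (Cfsg.Agent.S0711.result K (k := 4) (by norm_num) (by rw [hΩ]; norm_num) h4 g hg hg1
      (by omega)).2
  obtain ⟨A, -, hA4⟩ : ∃ A : Finset Ω, A ⊆ Finset.univ ∧ A.card = 4 :=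
    Finset.exists_subset_card_eq (by rw [Finset.card_univ, hΩ]; norm_num)
  rcases Nat.even_or_odd (Nat.card (Cfsg.Agent.S0713.fixG K A)) with heven | hodd
  · obtain ⟨T, F, hTW, hTp, hsyl, hTc, hF, hAF, hfix, hfree⟩ := Cfsg.Agent.Lib.Helper64.TwoPr.t13_T hΩ K hKA A hA4 heven hbig
    have hT1 : T ≠ ⊥ := by
      rintro rfl
      simp at hTc
    obtain ⟨g, hgK, hg5, hgT⟩ := Cfsg.Agent.Lib.Helper89.TwoPr.t13_witt hΩ K h4 A hA4 T F hTW hTp hsyl hT1 hF hAF hfix hfree
    have hg1 : g ≠ 1 := by rintro rfl; simp at hg5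
    exact Cfsg.Agent.Lib.Helper64.TwoPr.t13_final hΩ T F hTc hF hfix hfree g hg5 hgT (hbig g hgK hg1)
  · exact Cfsg.Agent.Lib.Helper12.TwoPr.t13_four_odd hΩ K hKA h4 A hA4 hodd

theorem twin13 {Ω : Type*} [Fintype Ω] [DecidableEq Ω] (hΩ : Fintype.card Ω = 13)
    (K : Subgroup (Perm Ω)) (hKA : K ≤ alternatingGroup Ω) [IsPretransitive K Ω] {c : Perm Ω}
    (hc : c ∈ K) (hcc : c.IsCycle) (h11 : c.support.card = 11) : alternatingGroup Ω ≤ K := by
  have hprim : IsPreprimitive K Ω :=
    IsPreprimitive.of_prime_card (by rw [Nat.card_eq_fintype_card, hΩ]; norm_num)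
  rcases Cfsg.Agent.Lib.Helper63.TwoPr.dichotomy K hprim hc hcc (by rw [h11]; norm_num) (by rw [hΩ, h11]) with h4 | ⟨h1, h2⟩
  · exact t13_four hΩ K hKA h4
  · exfalso
    rw [h11] at h1
    obtain ⟨h3, hcard⟩ := Cfsg.Agent.Lib.Helper79.TwoPr.t13_card hΩ K hc hcc h11
    have h11d : 11 ∣ Nat.card (Cfsg.Agent.S0713.fixG K c.supportᶜ) := by
      have hcF : c ∈ Cfsg.Agent.S0713.fixG K c.supportᶜ := by
        rw [Cfsg.Agent.S0713.mem_fixG]
        exact ⟨hc, fun d hd => by simpa using hd⟩
      have : orderOf (⟨c, hcF⟩ : Cfsg.Agent.S0713.fixG K c.supportᶜ) = 11 := by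
        rw [Subgroup.orderOf_mk, hcc.orderOf, h11]
      rw [← this]; exact orderOf_dvd_natCard _
    obtain ⟨e, he⟩ := h11d
    have he' : e ∣ 10 := by
      have : 11 * e ∣ 11 * 10 := by rw [← he]; exact h1
      exact Nat.dvd_of_mul_dvd_mul_left (by norm_num) this
    have hle : e ≤ 10 := Nat.le_of_dvd (by norm_num) he'
    interval_cases e <;> norm_num at he'
    · exact Cfsg.Agent.Lib.Helper12.TwoPr.t13_solv_11 hΩ K h3 (by rw [hcard, he])
    · exact Cfsg.Agent.Lib.Helper19.TwoPr.t13_solv_even hΩ K hKA h11 (by rw [he]; decide) h2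
    · exact Cfsg.Agent.Lib.Helper89.TwoPr.t13_solv_55 hΩ K (by rw [hcard, he])
    · exact Cfsg.Agent.Lib.Helper19.TwoPr.t13_solv_even hΩ K hKA h11 (by rw [he]; decide) h2


theorem six {Ω : Type*} [Fintype Ω] [DecidableEq Ω] (hΩ : Fintype.card Ω = 6) (σ τ : Perm Ω)
    (hσA : σ ∈ alternatingGroup Ω) (hτA : τ ∈ alternatingGroup Ω)
    (hσu : σ.support = Finset.univ) (hτc : τ.IsCycle) (hτ5 : τ.support.card = 5) :
    alternatingGroup Ω ≤ Subgroup.closure ({σ, τ} : Set (Perm Ω)) ∨
      Nonempty (Subgroup.closure ({σ, τ} : Set (Perm Ω)) ≃* alternatingGroup (Fin 5)) := by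
  have hσK : σ ∈ Subgroup.closure ({σ, τ} : Set (Perm Ω)) := Subgroup.subset_closure (by simp)
  have hτK : τ ∈ Subgroup.closure ({σ, τ} : Set (Perm Ω)) := Subgroup.subset_closure (by simp)
  have hKA : Subgroup.closure ({σ, τ} : Set (Perm Ω)) ≤ alternatingGroup Ω := by
    rw [Subgroup.closure_le]
    intro g hg
    rcases hg with rfl | rfl
    · exact hσA
    · exact hτA
  haveI : IsPretransitive (Subgroup.closure ({σ, τ} : Set (Perm Ω))) Ω := by
    apply trans_of_cycle σ τ hτc
    intro x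
    by_cases hx : x ∈ τ.support
    · exact ⟨0, by simpa using hx⟩
    · refine ⟨1, ?_⟩
      rw [pow_one]
      by_contra hσx
      -- both x and σ x lie outside the support of τ, which has only one point outside
      have h1 : (τ.supportᶜ).card = 1 := by
        rw [Finset.card_compl, hΩ, hτ5]
      rw [Finset.card_eq_one] at h1
      obtain ⟨w, hw⟩ := h1
      have hxw : x = w := by
        have : x ∈ τ.supportᶜ := Finset.mem_compl.mpr hx
        rw [hw] at this
        simpa using this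
      have hσxw : σ x = w := by
        have : σ x ∈ τ.supportᶜ := Finset.mem_compl.mpr hσx
        rw [hw] at this
        simpa using this
      have : x ∈ σ.support := by rw [hσu]; exact Finset.mem_univ _
      rw [Perm.mem_support] at this
      exact this (hσxw.trans hxw.symm)
  rcases Cfsg.Agent.Lib.Helper34.TwoPr.six_main hΩ _ hKA hτK hτc hτ5 with h | h
  · exact Or.inl h
  · right
    haveI := Cfsg.Agent.Lib.Helper23.TwoPr.six_simple hΩ _ hKA h hτK hτc hτ5
    haveI : Finite (Subgroup.closure ({σ, τ} : Set (Perm Ω))) := inferInstance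
    exact Cfsg.Agent.S0494.result h


/-- iso of a subgroup equal to the alternating group with `alternatingGroup (Fin d)` -/
theorem iso_of_alt_le {Ω : Type*} [Fintype Ω] [DecidableEq Ω] (K : Subgroup (Perm Ω))
    (hKA : K ≤ alternatingGroup Ω) (hAK : alternatingGroup Ω ≤ K) (h5 : 5 ≤ Fintype.card Ω) :
    ∃ d : ℕ, 5 ≤ d ∧ Nonempty (K ≃* alternatingGroup (Fin d)) := by
  have hK : K = alternatingGroup Ω := le_antisymm hKA hAK
  subst hK
  exact ⟨Fintype.card Ω, h5, ⟨Equiv.altCongrHom (Fintype.equivFin Ω)⟩⟩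

/-- the points `σ^i x`, `i < p`, are distinct when `σ` has prime order `p` and moves `x` -/
theorem exists_pow_mem_support {Ω : Type*} [Fintype Ω] [DecidableEq Ω] (σ τ : Perm Ω) {p : ℕ}
    (hp : p.Prime) (hσo : orderOf σ = p) (hσu : σ.support = Finset.univ)
    (hlt : Fintype.card Ω < p + τ.support.card) (x : Ω) :
    ∃ k : ℕ, (σ ^ k) x ∈ τ.support := by
  by_contra hcon
  push Not at hcon
  have hp1 : σ ^ p = 1 := by rw [← hσo]; exact pow_orderOf_eq_one σ
  have hxs : σ x ≠ x := by
    have : x ∈ σ.support := by rw [hσu]; exact Finset.mem_univ _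
    exact Perm.mem_support.mp this
  have key : ∀ i j : ℕ, i < j → j < p → (σ ^ i) x ≠ (σ ^ j) x := by
    intro i j hlt' hj hij
    have h1 : (σ ^ (j - i)) x = x := by
      have e1 : (σ ^ j) x = (σ ^ i) ((σ ^ (j - i)) x) := by
        rw [← Perm.mul_apply, ← pow_add]
        congr 2
        omega
      rw [e1] at hij
      exact ((σ ^ i).injective hij).symm
    have hcop : Nat.Coprime (j - i) p := by
      apply Nat.Coprime.symm
      rw [hp.coprime_iff_not_dvd]
      intro hd
      have := Nat.le_of_dvd (by omega) hd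
      omega
    obtain ⟨a, b, hab⟩ := Nat.isCoprime_iff_coprime.mpr hcop
    have hz : σ = (σ ^ (j - i)) ^ a * (σ ^ p) ^ b := by
      rw [← zpow_natCast, ← zpow_natCast, ← zpow_mul, ← zpow_mul, ← zpow_add]
      have : ((j - i : ℕ) : ℤ) * a + (p : ℤ) * b = 1 := by linarith
      rw [this, zpow_one]
    rw [hp1, one_zpow, mul_one] at hz
    apply hxs
    rw [hz]
    exact Perm.zpow_apply_eq_self_of_apply_eq_self h1 a
  have hinj : Set.InjOn (fun i : ℕ => (σ ^ i) x) (Finset.range p : Set ℕ) := by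
    intro i hi j hj hij
    simp only [Finset.coe_range, Set.mem_Iio] at hi hj
    rcases Nat.lt_trichotomy i j with h | h | h
    · exact absurd hij (key i j h hj)
    · exact h
    · exact absurd hij.symm (key j i h hi)
  have hsub : (Finset.range p).image (fun i : ℕ => (σ ^ i) x) ⊆ τ.supportᶜ := by
    intro y hy
    obtain ⟨i, -, rfl⟩ := Finset.mem_image.mp hy
    exact Finset.mem_compl.mpr (hcon i)
  have hc := Finset.card_le_card hsub
  rw [Finset.card_image_of_injOn hinj, Finset.card_range, Finset.card_compl] at hc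
  have := Finset.card_le_univ τ.support
  omega

/-- The master theorem on the joint support. -/
theorem master {Ω : Type*} [Fintype Ω] [DecidableEq Ω] (σ τ : Perm Ω)
    (hσA : σ ∈ alternatingGroup Ω) (hτA : τ ∈ alternatingGroup Ω)
    (huniv : σ.support ∪ τ.support = Finset.univ) {p q : ℕ} (hp : p.Prime) (hq : q.Prime)
    (hσo : orderOf σ = p) (hτo : orderOf τ = q) (hpq : p < q)
    (h1 : Fintype.card Ω ≤ 2 * p)
    (hA : p + 4 ≤ q ∨ (p = 3 ∧ q = 5) ∨ (p = 5 ∧ q = 7) ∨ (p = 11 ∧ q = 13))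
    (hB : Fintype.card Ω = 2 * p → (p = 3 ∧ q = 5) ∨ (p = 5 ∧ q = 7) ∨ (p = 7 ∧ q = 11)) :
    ∃ d : ℕ, 5 ≤ d ∧
      Nonempty (Subgroup.closure ({σ, τ} : Set (Perm Ω)) ≃* alternatingGroup (Fin d)) := by
  have hσK : σ ∈ Subgroup.closure ({σ, τ} : Set (Perm Ω)) := Subgroup.subset_closure (by simp)
  have hτK : τ ∈ Subgroup.closure ({σ, τ} : Set (Perm Ω)) := Subgroup.subset_closure (by simp)
  have hKA : Subgroup.closure ({σ, τ} : Set (Perm Ω)) ≤ alternatingGroup Ω := by
    rw [Subgroup.closure_le]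
    intro g hg
    rcases hg with rfl | rfl
    · exact hσA
    · exact hτA
  -- τ is a q-cycle
  have hτc : τ.IsCycle := by
    apply Perm.isCycle_of_prime_order' (by rw [hτo]; exact hq)
    rw [hτo]; omega
  have hτq : τ.support.card = q := by rw [← hτc.orderOf, hτo]
  have hqn : q ≤ Fintype.card Ω := by rw [← hτq]; exact Finset.card_le_univ _
  have hp2 := hp.two_le
  by_cases hσc : σ.IsCycle
  · -- single `p`-cycle
    have hσp : σ.support.card = p := by rw [← hσc.orderOf, hσo]
    -- the supports meet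
    have hmeet : ∃ z, z ∈ σ.support ∧ z ∈ τ.support := by
      by_contra hno
      push Not at hno
      have hdis : Disjoint σ.support τ.support := by
        rw [Finset.disjoint_left]; exact hno
      have := Finset.card_union_of_disjoint hdis
      rw [huniv, Finset.card_univ, hσp, hτq] at this
      omega
    obtain ⟨z, hzσ, hzτ⟩ := hmeet
    have htrans : IsPretransitive (Subgroup.closure ({σ, τ} : Set (Perm Ω))) Ω := by
      apply trans_of_cycle σ τ hτc
      intro x
      by_cases hx : x ∈ τ.support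
      · exact ⟨0, by simpa using hx⟩
      · have hxσ : x ∈ σ.support := by
          have : x ∈ σ.support ∪ τ.support := by rw [huniv]; exact Finset.mem_univ _
          rcases Finset.mem_union.mp this with h | h
          · exact h
          · exact absurd h hx
        obtain ⟨k, hk⟩ := hσc.exists_pow_eq (Perm.mem_support.mp hxσ) (Perm.mem_support.mp hzσ)
        exact ⟨k, by rw [hk]; exact hzτ⟩
    by_cases h3 : p + 3 ≤ Fintype.card Ω
    · -- Jordan with σ
      have hprim : IsPreprimitive (Subgroup.closure ({σ, τ} : Set (Perm Ω))) Ω :=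
        prim_of_cycle _ hτK hτc (by rw [hτq]; exact hq) (by rw [hτq]; omega)
      have h5 : 5 ≤ Fintype.card Ω := by omega
      exact iso_of_alt_le _ hKA
        (Cfsg.Agent.S0713.result _ hprim hp h5 h3 hσc hσp hσK) h5
    · -- twin case
      have hn : Fintype.card Ω = q := by omega
      rcases hA with hA | ⟨rfl, rfl⟩ | ⟨rfl, rfl⟩ | ⟨rfl, rfl⟩
      · omega
      · -- (3,5)
        have hprim : IsPreprimitive (Subgroup.closure ({σ, τ} : Set (Perm Ω))) Ω :=
          IsPreprimitive.of_prime_card (by rw [Nat.card_eq_fintype_card, hn]; norm_num)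
        have h3c : σ.IsThreeCycle := card_support_eq_three_iff.mp hσp
        exact iso_of_alt_le _ hKA
          (alternatingGroup_le_of_isPreprimitive_of_isThreeCycle_mem hprim h3c hσK) (by omega)
      · exact iso_of_alt_le _ hKA (twin7 hn _ hσK hσc hσp) (by omega)
      · exact iso_of_alt_le _ hKA (twin13 hn _ hKA hσK hσc hσp) (by omega)
  · -- `σ` is a product of two `p`-cycles
    obtain ⟨k, hk⟩ := Perm.cycleType_prime_order (σ := σ) (by rw [hσo]; exact hp)
    rw [hσo] at hk
    have hsum : σ.support.card = (k + 1) * p := by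
      rw [← Perm.sum_cycleType, hk, Multiset.sum_replicate, smul_eq_mul]
    have hk0 : k ≠ 0 := by
      rintro rfl
      apply hσc
      rw [← Perm.card_cycleType_eq_one, hk]
      simp
    have hle : σ.support.card ≤ Fintype.card Ω := Finset.card_le_univ _
    have hk1 : k = 1 := by
      by_contra hk1
      have : 3 ≤ k + 1 := by omega
      have : 3 * p ≤ (k + 1) * p := Nat.mul_le_mul_right p this
      omega
    subst hk1
    have hn : Fintype.card Ω = 2 * p := by omega
    have hσu : σ.support = Finset.univ := by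
      apply Finset.eq_univ_of_card
      rw [hsum, hn]
    rcases hB hn with ⟨rfl, rfl⟩ | ⟨rfl, rfl⟩ | ⟨rfl, rfl⟩
    · -- degree 6
      rcases six hn σ τ hσA hτA hσu hτc hτq with h | h
      · exact iso_of_alt_le _ hKA h (by omega)
      · exact ⟨5, le_refl 5, h⟩
    · -- degree 10
      have htrans : IsPretransitive (Subgroup.closure ({σ, τ} : Set (Perm Ω))) Ω :=
        trans_of_cycle σ τ hτc
          (exists_pow_mem_support σ τ hp hσo hσu (by rw [hτq, hn]; norm_num))
      have hprim : IsPreprimitive (Subgroup.closure ({σ, τ} : Set (Perm Ω))) Ω :=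
        prim_of_cycle _ hτK hτc (by rw [hτq]; exact hq) (by rw [hτq]; omega)
      exact iso_of_alt_le _ hKA
        (Cfsg.Agent.S0713.result _ hprim hq (by omega) (by omega) hτc hτq hτK) (by omega)
    · -- degree 14
      have htrans : IsPretransitive (Subgroup.closure ({σ, τ} : Set (Perm Ω))) Ω :=
        trans_of_cycle σ τ hτc
          (exists_pow_mem_support σ τ hp hσo hσu (by rw [hτq, hn]; norm_num))
      have hprim : IsPreprimitive (Subgroup.closure ({σ, τ} : Set (Perm Ω))) Ω :=
        prim_of_cycle _ hτK hτc (by rw [hτq]; exact hq) (by rw [hτq]; omega)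
      exact iso_of_alt_le _ hKA
        (Cfsg.Agent.S0713.result _ hprim hq (by omega) (by omega) hτc hτq hτK) (by omega)


theorem top (m : ℕ) (hm : 5 ≤ m) :
    ∃ p q : ℕ, p.Prime ∧ q.Prime ∧ m ≤ 2 * p ∧ p < q ∧ q ≤ m ∧
      ∀ x y : alternatingGroup (Fin m), orderOf x = p → orderOf y = q →
        ∃ d : ℕ, 5 ≤ d ∧ Nonempty (Subgroup.closure ({x, y} : Set (alternatingGroup (Fin m))) ≃*
          alternatingGroup (Fin d)) := by
  obtain ⟨p, q, hp, hq, hmp, hpq, hqm, hA, hB⟩ : ∃ p q : ℕ, p.Prime ∧ q.Prime ∧ m ≤ 2 * p ∧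
      p < q ∧ q ≤ m ∧
      (p + 4 ≤ q ∨ (p = 3 ∧ q = 5) ∨ (p = 5 ∧ q = 7) ∨ (p = 11 ∧ q = 13)) ∧
      (m = 2 * p → (p = 3 ∧ q = 5) ∨ (p = 5 ∧ q = 7) ∨ (p = 7 ∧ q = 11)) := by
    rcases Nat.lt_or_ge m 17 with h | h
    · interval_cases m
      · exact ⟨3, 5, by norm_num, by norm_num, by norm_num, by norm_num, by norm_num, by norm_num, by norm_num⟩
      · exact ⟨3, 5, by norm_num, by norm_num, by norm_num, by norm_num, by norm_num, by norm_num, by norm_num⟩
      · exact ⟨5, 7, by norm_num, by norm_num, by norm_num, by norm_num, by norm_num, by norm_num, by norm_num⟩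
      · exact ⟨5, 7, by norm_num, by norm_num, by norm_num, by norm_num, by norm_num, by norm_num, by norm_num⟩
      · exact ⟨5, 7, by norm_num, by norm_num, by norm_num, by norm_num, by norm_num, by norm_num, by norm_num⟩
      · exact ⟨5, 7, by norm_num, by norm_num, by norm_num, by norm_num, by norm_num, by norm_num, by norm_num⟩
      · exact ⟨7, 11, by norm_num, by norm_num, by norm_num, by norm_num, by norm_num, by norm_num, by norm_num⟩
      · exact ⟨7, 11, by norm_num, by norm_num, by norm_num, by norm_num, by norm_num, by norm_num, by norm_num⟩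
      · exact ⟨7, 11, by norm_num, by norm_num, by norm_num, by norm_num, by norm_num, by norm_num, by norm_num⟩
      · exact ⟨7, 11, by norm_num, by norm_num, by norm_num, by norm_num, by norm_num, by norm_num, by norm_num⟩
      · exact ⟨11, 13, by norm_num, by norm_num, by norm_num, by norm_num, by norm_num, by norm_num, by norm_num⟩
      · exact ⟨11, 13, by norm_num, by norm_num, by norm_num, by norm_num, by norm_num, by norm_num, by norm_num⟩
    · obtain ⟨p, q, hp, hq, h1, h2, h3⟩ := Cfsg.Agent.Lib.Helper4.TwoPr.exists_primes m h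
      exact ⟨p, q, hp, hq, by omega, by omega, h3, Or.inl h2, fun h => by omega⟩
  refine ⟨p, q, hp, hq, hmp, hpq, hqm, ?_⟩
  intro x y hx hy
  have hσo : orderOf (x : Perm (Fin m)) = p := by rw [← hx]; exact Subgroup.orderOf_coe x
  have hτo : orderOf (y : Perm (Fin m)) = q := by rw [← hy]; exact Subgroup.orderOf_coe y
  have himg : (Subgroup.closure ({x, y} : Set (alternatingGroup (Fin m)))).map
      (alternatingGroup (Fin m)).subtype =
      Subgroup.closure ({(x : Perm (Fin m)), (y : Perm (Fin m))} : Set (Perm (Fin m))) := by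
    rw [MonoidHom.map_closure]
    congr 1
    simp [Set.image_pair]
  have e1 : Subgroup.closure ({x, y} : Set (alternatingGroup (Fin m))) ≃*
      Subgroup.closure ({(x : Perm (Fin m)), (y : Perm (Fin m))} : Set (Perm (Fin m))) :=
    ((Subgroup.closure ({x, y} : Set (alternatingGroup (Fin m)))).equivMapOfInjective _
      (Subgroup.subtype_injective _)).trans (MulEquiv.subgroupCongr himg)
  obtain ⟨σ', τ', hσ', hτ', huniv, ⟨e2⟩⟩ :=
    Cfsg.Agent.Lib.Helper18.TwoPr.exists_restrict (x : Perm (Fin m)) (y : Perm (Fin m))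
  have hσ'o : orderOf σ' = p := by
    rw [← Perm.lcm_cycleType, hσ', Perm.lcm_cycleType, hσo]
  have hτ'o : orderOf τ' = q := by
    rw [← Perm.lcm_cycleType, hτ', Perm.lcm_cycleType, hτo]
  have hσ'A : σ' ∈ alternatingGroup _ := by
    rw [Perm.mem_alternatingGroup, Perm.sign_of_cycleType, hσ', ← Perm.sign_of_cycleType]
    exact Perm.mem_alternatingGroup.mp x.2
  have hτ'A : τ' ∈ alternatingGroup _ := by
    rw [Perm.mem_alternatingGroup, Perm.sign_of_cycleType, hτ', ← Perm.sign_of_cycleType]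
    exact Perm.mem_alternatingGroup.mp y.2
  have hcard : Fintype.card {z // z ∈ (x : Perm (Fin m)).support ∪ (y : Perm (Fin m)).support}
      ≤ m := by
    rw [Fintype.card_coe]
    exact (Finset.card_le_univ _).trans (by simp)
  obtain ⟨d, hd, ⟨e3⟩⟩ := master σ' τ' hσ'A hτ'A huniv hp hq hσ'o hτ'o hpq (by omega) hA
    (fun h => hB (by omega))
  exact ⟨d, hd, ⟨(e1.trans e2).trans e3⟩⟩

end Cfsg.Agent.Lib.Helper76.TwoPr
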